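import Cfsg.Agent.Char.SimpleLin

/-!
# Simple groups with a character of degree three and of `3`-defect zero
-/

set_option autoImplicit false
set_option linter.unusedSectionVars false
set_option linter.style.haveILetI false

namespace Cfsg

open Subgroup
open scoped ComplexConjugate Classical

universe u

variable {G : Type u} [Group G] [Finite G] [IsSimpleGroup G]

theorem commutator_eq_top_of_isSimpleGroup (hna : ¬ IsMulCommutative G) : commutator G = ⊤ :=
  (IsSimpleGroup.eq_bot_or_eq_top_of_normal _ inferInstance).resolve_left fun e =>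
    hna ((commutator_eq_bot_iff G).1 e)

theorem IrrCharacter.exists_int_lt_of_isSimpleGroup (hna : ¬ IsMulCommutative G)
    {χ : IrrCharacter G} (h : χ ≠ IrrCharacter.one G) {t : G} (ht : orderOf t = 2) :
    ∃ m : ℤ, χ t = m ∧ m ≡ charDegree χ.1 [ZMOD 2] ∧ |m| < charDegree χ.1 := by
  obtain ⟨m, h1, h2, h3⟩ := χ.isCharacter.exists_int_of_sq_eq_one (ht ▸ pow_orderOf_eq_one t)
  refine ⟨m, h1, h2, lt_of_le_of_ne h3 fun e => ?_⟩
  have : t ∈ charCenter χ.1 := χ.mem_charCenter.2 (by
    rw [h1, Complex.norm_intCast]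
    exact_mod_cast e)
  rw [charCenter_eq_bot_of_isSimpleGroup hna h, mem_bot] at this
  simp [this] at ht

/-- A simple group of even order has no irreducible character of degree two. -/
theorem IrrCharacter.charDegree_ne_two_of_isSimpleGroup (hna : ¬ IsMulCommutative G)
    (h2 : 2 ∣ Nat.card G) (χ : IrrCharacter G) : charDegree χ.1 ≠ 2 := fun hd => by
  obtain ⟨t, ht⟩ := exists_prime_orderOf_dvd_card' (G := G) 2 h2
  have h1 : χ ≠ IrrCharacter.one G := by
    rintro rfl
    have := (IrrCharacter.one G).apply_one_eq_one_iff.1 rfl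
    omega
  obtain ⟨m, e1, e2, e3⟩ := exists_int_lt_of_isSimpleGroup hna h1 ht
  rw [hd] at e2 e3
  have hm : m = 0 := by
    rw [Int.ModEq] at e2
    rw [abs_lt] at e3
    omega
  have h3 := χ.isCharacter.detChar_eq_prod (g := t) ![1, -1]
    (fun i => by fin_cases i <;> simp [ht]) (fun k => by
      rw [← pow_mod_orderOf, ht]
      rcases Nat.even_or_odd k with hk | hk
      · simp [Nat.even_iff.1 hk, hk.neg_one_pow, χ.isCharacter.apply_one, hd]
        norm_num
      · simp [Nat.odd_iff.1 hk, hk.neg_one_pow, e1, hm])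
  have h4 := detOrder_dvd_iff.1 (detOrder_dvd_index_commutator χ.1) t
  rw [commutator_eq_top_of_isSimpleGroup hna, index_top, pow_one, h3] at h4
  norm_num at h4

theorem exists_selfCent_three (hna : ¬ IsMulCommutative G) (h3 : (Nat.card G).factorization 3 = 1)
    (χ : IrrCharacter G) (hχ : charDegree χ.1 = 3) : ∃ u : G, SelfCent 3 u := by
  obtain ⟨P⟩ : Nonempty (Sylow 3 G) := inferInstance
  have hP : Nat.card P = 3 := by rw [P.card_eq_multiplicity, h3]; rfl
  obtain ⟨⟨u, hu⟩, hu3⟩ := exists_prime_orderOf_dvd_card' (G := (P : Subgroup G)) 3 (by rw [hP])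
  rw [orderOf_mk] at hu3
  have hz : zpowers u = P := eq_of_le_of_card_ge (zpowers_le.2 hu) (by
    rw [hP, Nat.card_zpowers, hu3])
  have h1 : χ ≠ IrrCharacter.one G := by
    rintro rfl
    have := (IrrCharacter.one G).apply_one_eq_one_iff.1 rfl
    omega
  refine ⟨u, hu3, ?_⟩
  rw [hz]
  refine P.is_maximal' (fun g => ?_) (hz ▸ zpowers_le.2 (mem_centralizer_singleton_iff.2 rfl))
  have hg : Commute u g := (mem_centralizer_singleton_iff.1 g.2).symm
  have h2 := χ.mem_charCenter_of_defect_zero (p := 3) (by rw [h3, hχ]; rfl) P.isPGroup'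
    (hP.trans hχ.symm) (isPRegular_pPrimePart 3 (g : G)) fun a ha => by
      obtain ⟨k, rfl⟩ := (hz ▸ ha : a ∈ zpowers u)
      exact ((commute_iff_commute_pPart 3).1 hg).2.symm.zpow_right k
  rw [IrrCharacter.charCenter_eq_bot_of_isSimpleGroup hna h1, mem_bot] at h2
  obtain ⟨k, hk⟩ := isPElt_iff_pow_eq_one.1 (pPrimePart_eq_one_iff.1 h2)
  exact ⟨k, Subtype.ext hk⟩

/-- The two nonprincipal characters not vanishing at a self-centralizing element of order three. -/
theorem SelfCent.exists_pair_three (hna : ¬ IsMulCommutative G) {u : G} (h : SelfCent 3 u) :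
    ∃ (ψ₁ ψ₂ : IrrCharacter G) (x : ℕ), ψ₁ ≠ IrrCharacter.one G ∧ ψ₂ ≠ IrrCharacter.one G ∧
      charDegree ψ₁.1 = x ∧ charDegree ψ₂.1 = x + 1 ∧ x % 3 = 1 ∧ ∀ t : G, orderOf t = 2 →
        ∃ (N : ℕ) (z : ℤ), |z| < x ∧ (N : ℤ) * Nat.card (centralizer ({t} : Set G)) ^ 2 *
          (x * (x + 1)) = Nat.card G * (x - z) ^ 2 := by
  letI := Fintype.ofFinite G
  have h3 : 3 ∣ Nat.card G := h.order ▸ orderOf_dvd_natCard u
  have hu3 : u ^ 3 = 1 := h.order ▸ pow_orderOf_eq_one u
  have hc : IsConj u (u ^ 2) := by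
    obtain ⟨g, hg, hg'⟩ := SetLike.exists_of_lt (lt_of_le_of_ne le_normalizer fun e =>
      not_hasNormalPComplement_of_isSimpleGroup hna h3 (h.hasNormalPComplement e.symm))
    have h1 := (mem_normalizer_iff.1 hg u).1 (mem_zpowers u)
    rw [mem_zpowers_iff_mem_range_orderOf, h.order, Finset.mem_image] at h1
    obtain ⟨k, hk, e⟩ := h1
    rw [Finset.mem_range] at hk
    interval_cases k
    · exact absurd (by simpa using e.symm) h.ne_one
    · refine absurd ?_ hg'
      rw [← h.cent, mem_centralizer_singleton_iff]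
      exact mul_inv_eq_iff_eq_mul.1 (by simpa using e.symm)
    · exact isConj_iff.2 ⟨g, e.symm⟩
  have hint : ∀ ψ : IrrCharacter G, ∃ m : ℤ, ψ u = m := fun ψ =>
    ψ.isCharacter.isGen.exists_int_of_forall_pow fun k hk => by
      rw [← pow_mod_orderOf, h.order]
      rw [h.order, Nat.coprime_comm, Nat.prime_three.coprime_iff_not_dvd] at hk
      have : k % 3 = 1 ∨ k % 3 = 2 := by omega
      rcases this with e | e <;> rw [e]
      · rw [pow_one]
      · obtain ⟨c, hc⟩ := isConj_iff.1 hc
        rw [← hc]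
        exact ψ.isCharacter.isClassFunction u c
  choose n hn using hint
  set T := (Finset.univ.filter fun ψ => n ψ ≠ 0).erase (IrrCharacter.one G) with hT
  have hn1 : n (IrrCharacter.one G) = 1 := by
    have := hn (IrrCharacter.one G)
    rw [IrrCharacter.one_apply] at this
    exact_mod_cast this.symm
  have hF : ∀ F : IrrCharacter G → ℂ, ∑ ψ, F ψ * conj (ψ u) =
      F (IrrCharacter.one G) + ∑ ψ ∈ T, F ψ * n ψ := fun F => by
    simp only [hn, map_intCast]
    rw [← Finset.sum_filter_of_ne (p := fun ψ => n ψ ≠ 0) fun ψ _ e e' => e (by simp [e']),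
      ← Finset.add_sum_erase _ _ (a := IrrCharacter.one G) (by simp [hn1]), hn1]
    simp [hT]
  have h1 := sum_irr_mul_conj_of_isConj (IsConj.refl u)
  rw [hF, h.cent, h.card_zpowers, Finset.sum_congr rfl fun ψ _ => by rw [hn ψ]] at h1
  have h2 : ∑ ψ ∈ T, n ψ * n ψ = 2 := by
    simp only [IrrCharacter.one_apply] at h1
    have : (1 : ℤ) + ∑ ψ ∈ T, n ψ * n ψ = 3 := by exact_mod_cast h1
    omega
  have hmem : ∀ ψ ∈ T, ψ ≠ IrrCharacter.one G ∧ n ψ ≠ 0 := fun ψ hψ => by simpa [hT] using hψ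
  have h4 : ∀ ψ ∈ T, n ψ = 1 ∨ n ψ = -1 := fun ψ hψ => by
    have a1 : n ψ * n ψ ≤ 2 := h2 ▸ Finset.single_le_sum (f := fun ψ => n ψ * n ψ)
      (fun _ _ => mul_self_nonneg _) hψ
    have a2 := (hmem ψ hψ).2
    have a3 : n ψ < 2 := by nlinarith
    have a4 : -2 < n ψ := by nlinarith
    omega
  have h5 : T.card = 2 := by
    rw [Finset.sum_congr rfl (g := fun _ => 1) fun ψ hψ => by
      rcases h4 ψ hψ with e | e <;> simp [e], Finset.sum_const, nsmul_one] at h2
    exact_mod_cast h2
  have hdeg : ∀ a b, a ≠ b → T = {a, b} →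
      1 + charDegree a.1 * n a + charDegree b.1 * n b = 0 := fun a b hab e => by
    have := sum_irr_mul_conj_of_not_isConj (g := 1) (h := u) (by simpa using h.ne_one.symm)
    rw [hF, e, Finset.sum_pair hab] at this
    simp only [IrrCharacter.one_apply, a.isCharacter.apply_one, b.isCharacter.apply_one] at this
    rw [add_assoc]
    exact_mod_cast this
  obtain ⟨a, b, hab, e, ha, hb⟩ : ∃ a b, a ≠ b ∧ T = {a, b} ∧ n a = 1 ∧ n b = -1 := by
    obtain ⟨a, b, hab, e⟩ := Finset.card_eq_two.1 h5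
    have a1 := hdeg a b hab e
    have a2 := a.charDegree_pos
    have a3 := b.charDegree_pos
    rcases h4 a (by simp [e]) with ha | ha <;> rcases h4 b (by simp [e]) with hb | hb
    · rw [ha, hb] at a1
      omega
    · exact ⟨a, b, hab, e, ha, hb⟩
    · exact ⟨b, a, hab.symm, e.trans (Finset.pair_comm _ _), hb, ha⟩
    · rw [ha, hb] at a1
      omega
  have ha1 := (hmem a (by simp [e])).1
  have hb1 := (hmem b (by simp [e])).1
  have hd := hdeg a b hab e
  rw [ha, hb] at hd
  have hd' : charDegree b.1 = charDegree a.1 + 1 := by omega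
  refine ⟨a, b, _, ha1, hb1, rfl, hd', ?_, fun t ht => ?_⟩
  · have := a.isCharacter.int_modEq_charDegree Nat.prime_three (k := 1) hu3 (hn a)
    rw [ha, Int.ModEq] at this
    omega
  obtain ⟨z, hz, -, hz'⟩ := IrrCharacter.exists_int_lt_of_isSimpleGroup hna ha1 ht
  refine ⟨Nat.card {xy : G × G // IsConj t xy.1 ∧ IsConj t xy.2 ∧ xy.1 * xy.2 = u}, z, hz', ?_⟩
  have h6 := sum_irr_mul_conj_of_not_isConj (g := t) (h := u) fun e => by
    have := orderOf_eq_of_isConj' e
    rw [ht, h.order] at this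
    omega
  rw [hF, e, Finset.sum_pair hab, ha, hb, hz] at h6
  have h7 := card_class_mul_eq_sum t t u
  simp only [mul_div_right_comm _ (conj _)] at h7
  rw [hF, e, Finset.sum_pair hab, ha, hb, hz, a.isCharacter.apply_one, b.isCharacter.apply_one,
    hd'] at h7
  have h8 : ((Nat.card (centralizer ({t} : Set G)) : ℕ) : ℂ) * (centralizer ({t} : Set G)).index =
      Nat.card G := by exact_mod_cast card_mul_index _
  have h9 : b t = z + 1 := by
    simp only [IrrCharacter.one_apply] at h6
    push_cast at h6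
    linear_combination -h6
  have a0 : (charDegree a.1 : ℂ) ≠ 0 := Nat.cast_ne_zero.2 a.charDegree_pos.ne'
  have a1 : (charDegree a.1 : ℂ) + 1 ≠ 0 := Nat.cast_add_one_ne_zero _
  have a2 : (Nat.card G : ℂ) ≠ 0 := Nat.cast_ne_zero.2 Nat.card_pos.ne'
  simp only [IrrCharacter.one_apply, h9] at h7
  push_cast at h7
  apply Int.cast_injective (α := ℂ)
  push_cast
  rw [h7]
  field_simp
  rw [← h8]
  ring

end Cfsg
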