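import Mathlib.GroupTheory.RegularWreathProduct
import Cfsg.Agent.Char.CliffordBasic
import Cfsg.Agent.Char.Prod
import Cfsg.Agent.Char.Abelian
import Cfsg.Agent.Char.Ker
import Cfsg.Agent.Grp.MinNormal

/-! Every finite solvable group embeds in the central quotient of a group of central type. -/

set_option autoImplicit false

open Subgroup

namespace Cfsg

universe u

theorem exists_wreath_map {D D' : Type*} (C : Type*) [Group D] [Group D'] [Group C]
    (φ : D →* D') : ∃ F : D ≀ᵣ C →* D' ≀ᵣ C, ∀ w, F w = ⟨fun x => φ (w.left x), w.right⟩ :=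
  ⟨MonoidHom.mk' (fun w => ⟨fun x => φ (w.left x), w.right⟩) fun a b => by ext <;> simp,
    fun _ => rfl⟩

/-- Kaloujnine–Krasner embedding. -/
theorem exists_injective_wreath {G : Type*} [Group G] (N : Subgroup G) [N.Normal] :
    ∃ F : G →* N ≀ᵣ (G ⧸ N), Function.Injective F := by
  have hm : ∀ (g : G) (x : G ⧸ N), x.out⁻¹ * (g * ((g : G ⧸ N)⁻¹ * x).out) ∈ N := fun g x => by
    rw [← QuotientGroup.eq]; simp
  refine ⟨MonoidHom.mk' (fun g => ⟨fun x => ⟨_, hm g x⟩, (g : G ⧸ N)⟩) fun a b => ?_, ?_⟩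
  · ext <;> simp [mul_assoc]
  · rw [injective_iff_map_eq_one]
    intro g hg
    have h1 : (g : G ⧸ N) = 1 := congrArg RegularWreathProduct.right hg
    have h2 : (1 : G ⧸ N).out⁻¹ * (g * ((g : G ⧸ N)⁻¹ * 1).out) = 1 :=
      congrArg Subtype.val (congrFun (congrArg RegularWreathProduct.left hg) 1)
    rw [h1, inv_one, one_mul, inv_mul_eq_one] at h2
    exact mul_eq_right.1 h2.symm

theorem exists_injective_of_ker_eq {S A B : Type*} [Group S] [Group A] [Group B] {π : S →* A}
    (hπ : Function.Surjective π) (e : S →* B) (h : π.ker = e.ker) :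
    ∃ F : A →* B, Function.Injective F := by
  refine ⟨(π.liftOfSurjective hπ) ⟨e, h.le⟩, (injective_iff_map_eq_one _).2 fun a ha => ?_⟩
  obtain ⟨s, rfl⟩ := hπ a
  rw [MonoidHom.liftOfRightInverse_comp_apply] at ha
  exact MonoidHom.mem_ker.1 (h ▸ ha)

theorem exists_irr_wreath {H A C : Type u} [Group H] [Finite H] [CommGroup A] [Finite A]
    [CommGroup C] [Fintype C] (e : A →* C →* ℂˣ) (he : Function.Injective e)
    (he' : ∀ c, c ≠ 1 → ∃ a, e a c ≠ 1) (χ : IrrCharacter H) : ∃ Ξ : IrrCharacter ((H × A) ≀ᵣ C),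
      (∀ w, w.right ≠ 1 ∨ ∏ x, (w.left x).2 ≠ 1 → Ξ w = 0) ∧
      ∀ w, w.right = 1 → ∏ x, (w.left x).2 = 1 →
        Ξ w = Nat.card C * ∏ x, χ (w.left x).1 * (e (w.left x).2 x : ℂ) := by
  let b : (C → H × A) →* (H × A) ≀ᵣ C :=
    MonoidHom.mk' (fun n => ⟨n, 1⟩) fun _ _ => by ext <;> simp
  have hb : b.range = RegularWreathProduct.rightHom.ker := by
    ext w
    exact ⟨by rintro ⟨n, rfl⟩; rfl, fun h => ⟨w.left, RegularWreathProduct.ext rfl h.symm⟩⟩
  haveI : IsNormalEmb b := ⟨fun _ _ h => congrArg RegularWreathProduct.left h,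
    hb ▸ inferInstance⟩
  let Θ : IrrCharacter (C → H × A) :=
    IrrCharacter.pi fun x => χ.prod (IrrCharacter.ofLinear (e.flip x))
  have hΘ : ∀ n, Θ n = ∏ x, χ (n x).1 * (e (n x).2 x : ℂ) := fun n => IrrCharacter.pi_apply _ _
  have key : ∀ g n n', b n' = g⁻¹ * b n * g → Θ n' = Θ n * (e (∏ x, (n x).2) g.right⁻¹ : ℂˣ) := by
    intro g n n' h
    have h1 : ∀ x, n' x = (g.left (g.right * x))⁻¹ * n (g.right * x) * g.left (g.right * x) :=
      fun x => by simpa [b] using congrFun (congrArg RegularWreathProduct.left h) x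
    rw [hΘ, hΘ, ← Equiv.prod_comp (Equiv.mulLeft g.right⁻¹), map_prod,
      MonoidHom.finsetProd_apply, Units.coe_prod, ← Finset.prod_mul_distrib]
    refine Finset.prod_congr rfl fun x _ => ?_
    rw [h1, Equiv.coe_mulLeft, mul_inv_cancel_left, Prod.fst_mul, Prod.fst_mul, Prod.fst_inv,
      χ.isClassFunction.apply_inv_mul_mul, Prod.snd_mul, Prod.snd_mul, Prod.snd_inv,
      inv_mul_cancel_comm, map_mul, Units.val_mul]
    ring
  have hirr : inertia b Θ = b.range := by
    classical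
    refine le_antisymm (fun g hg => ?_) (range_le_inertia _ _)
    rw [hb, MonoidHom.mem_ker]
    by_contra h1
    obtain ⟨γ, hγ⟩ := he' _ h1
    have h2 := key g (fun x => (1, Pi.mulSingle (M := fun _ => A) 1 γ x)) _ (map_conjAut_inv b g _)
    have h3 := mem_inertia_iff_forall_conjAut.1 (inv_mem hg)
      (fun x => (1, Pi.mulSingle (M := fun _ => A) 1 γ x))
    rw [map_inv] at h3
    rw [h3, eq_comm, mul_right_eq_self₀, Units.val_eq_one, map_inv, inv_eq_one, hΘ,
      Finset.prod_eq_zero_iff] at h2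
    rcases h2 with h2 | ⟨x, -, h2⟩
    · rw [Fintype.prod_pi_mulSingle'] at h2
      exact hγ h2
    · exact mul_ne_zero χ.apply_one_ne_zero (Units.ne_zero _) h2
  cases nonempty_fintype ((H × A) ≀ᵣ C)
  have hv : ∀ n, ind b Θ.1 (b n) = (Nat.card (C → H × A) : ℂ)⁻¹ * Θ n *
      ∑ g : (H × A) ≀ᵣ C,
        ((((e (∏ x, (n x).2)⁻¹).comp RegularWreathProduct.rightHom) g : ℂˣ) : ℂ) := fun n => by
    rw [ind_apply_map_normal, mul_assoc, Finset.mul_sum _ _ (Θ n)]
    refine congrArg _ (Finset.sum_congr rfl fun g _ => ?_)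
    rw [key g n _ (map_conjAut_inv b g n), map_inv, map_inv]
    rfl
  refine ⟨⟨ind b Θ.1, (isIrr_ind_iff b Θ).2 hirr⟩, fun w hw => ?_, fun w h1 h2 => ?_⟩
  · by_cases h1 : w.right = 1
    · have h2 : w = b w.left := RegularWreathProduct.ext rfl h1
      refine (congrArg _ h2).trans ((hv _).trans ?_)
      rw [sum_linear_apply_eq_zero, mul_zero]
      intro h3
      refine (hw.resolve_left (not_not.2 h1)) (inv_eq_one.1 (he (MonoidHom.ext fun c => ?_)))
      rw [map_one]
      exact DFunLike.congr_fun h3 (RegularWreathProduct.inl c)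
    · exact ind_apply_eq_zero_of_normal b _ hb.le h1
  · have h3 : w = b w.left := RegularWreathProduct.ext rfl h1
    refine (congrArg _ h3).trans ((hv _).trans ?_)
    simp only [h2, inv_one, map_one, MonoidHom.one_comp, MonoidHom.one_apply, Units.val_one,
      Finset.sum_const, Finset.card_univ, nsmul_eq_mul, mul_one, hΘ]
    rw [← Nat.card_eq_fintype_card, RegularWreathProduct.card, Nat.card_fun]
    have := natCard_cast_ne_zero (H × A)
    push_cast
    field_simp

theorem exists_perfect_self_pairing (C : Type*) [CommGroup C] [Finite C] :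
    ∃ e : C →* C →* ℂˣ, Function.Injective e ∧ ∀ c, c ≠ 1 → ∃ a, e a c ≠ 1 := by
  obtain ⟨e⟩ := nonempty_linear_mulEquiv_of_commGroup C
  refine ⟨MonoidHom.mk' (fun a => e.symm a) fun a b => e.symm.map_mul a b, e.symm.injective,
    fun c hc => ?_⟩
  obtain ⟨γ, hγ⟩ := exists_linear_ne_one_of_comm mul_comm hc
  exact ⟨e γ, by simpa using hγ⟩

theorem exists_centralType_aux (G : Type u) [Group G] [Finite G] [Group.IsSolvable G] :
    ∃ (H : Type u) (_ : Group H) (_ : Finite H) (χ : IrrCharacter H),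
      (∃ m : ℕ, Squarefree m ∧ ∀ h, χ h = 0 ∨ ∃ ζ : ℂ, ζ ^ m = 1 ∧ χ h = ζ * χ 1) ∧
      (∃ f : G →* H ⧸ charCenter χ.1, Function.Injective f) ∧
      (∀ p : ℕ, p.Prime → p ∣ Nat.card H → p ∣ Nat.card G) ∧
      ∀ p : ℕ, p.Prime → p ∣ Nat.card G → ∃ (h : H) (ζ : ℂ), ζ ≠ 1 ∧ ζ ^ p = 1 ∧
        χ h = ζ * χ 1 := by
  induction hn : Nat.card G using Nat.strong_induction_on generalizing G with | _ n ih
  subst hn
  rcases subsingleton_or_nontrivial G with hG | hG
  · refine ⟨G, inferInstance, inferInstance, IrrCharacter.one G, ⟨1, squarefree_one, fun h =>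
      Or.inr ⟨1, one_pow _, (one_mul _).symm⟩⟩, ⟨1, Function.injective_of_subsingleton _⟩,
      fun _ _ h => h, fun p hp h => ?_⟩
    rw [Nat.card_of_subsingleton (1 : G), Nat.dvd_one] at h
    exact absurd h hp.ne_one
  obtain ⟨N, hN, hp⟩ := exists_normal_prime_index G
  have hNG : Nat.card N * N.index = Nat.card G := N.card_mul_index
  obtain ⟨H, _, _, χ, ⟨m, hm, h1⟩, ⟨f, h2⟩, h3, h4⟩ := ih (Nat.card N)
    (hNG ▸ lt_mul_of_one_lt_right Nat.card_pos hp.one_lt) N rfl
  haveI := Fact.mk hp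
  haveI : IsCyclic (G ⧸ N) := isCyclic_of_prime_card (p := N.index) rfl
  let _ : CommGroup (G ⧸ N) := IsCyclic.commGroup
  cases nonempty_fintype (G ⧸ N)
  obtain ⟨e, he', he⟩ := exists_perfect_self_pairing (G ⧸ N)
  obtain ⟨Ξ, hz, hv⟩ := exists_irr_wreath e he' he χ
  have hv1 : Ξ 1 = Nat.card (G ⧸ N) * ∏ x : G ⧸ N, χ 1 := by simpa using hv 1 rfl (by simp)
  have hpow : ∀ (γ : G ⧸ N →* ℂˣ) (x : G ⧸ N), (γ x : ℂ) ^ N.index = 1 := fun γ x => by
    rw [← Units.val_pow_eq_pow_val, ← map_pow, index_eq_card, pow_card_eq_one', map_one,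
      Units.val_one]
  have hdv : ∀ {z : ℂ} {a b : ℕ}, z ^ a = 1 → a ∣ b → z ^ b = 1 := by
    rintro z a _ h ⟨c, rfl⟩
    rw [pow_mul, h, one_pow]
  refine ⟨_, inferInstance, inferInstance, Ξ, ⟨m.lcm N.index, ?_, fun w => ?_⟩, ?_, ?_, ?_⟩
  · by_cases hd : N.index ∣ m
    · rwa [Nat.lcm_eq_left hd]
    · have hc := ((Nat.Prime.coprime_iff_not_dvd hp).2 hd).symm
      rw [hc.lcm_eq_mul, Nat.squarefree_mul hc]
      exact ⟨hm, hp.prime.squarefree⟩
  · by_cases h5 : w.right ≠ 1 ∨ ∏ x, (w.left x).2 ≠ 1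
    · exact Or.inl (hz w h5)
    push Not at h5
    rw [hv w h5.1 h5.2, hv1]
    by_cases h6 : ∃ x, χ (w.left x).1 = 0
    · obtain ⟨x, hx⟩ := h6
      exact Or.inl (by rw [Finset.prod_eq_zero (Finset.mem_univ x) (by rw [hx, zero_mul]),
        mul_zero])
    push Not at h6
    choose ζ hζ hζ' using fun x => (h1 (w.left x).1).resolve_left (h6 x)
    refine Or.inr ⟨∏ x, ζ x * (e (w.left x).2 x : ℂ), ?_, ?_⟩
    · rw [← Finset.prod_pow]
      refine Finset.prod_eq_one fun x _ => ?_
      rw [mul_pow, hdv (hζ x) (Nat.dvd_lcm_left _ _), hdv (hpow _ x) (Nat.dvd_lcm_right _ _),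
        one_mul]
    · rw [mul_left_comm, ← Finset.prod_mul_distrib]
      exact congrArg _ (Finset.prod_congr rfl fun x _ => by rw [hζ', mul_right_comm])
  · obtain ⟨K, hK⟩ := exists_injective_wreath N
    obtain ⟨F, hF⟩ := exists_wreath_map (G ⧸ N) f
    obtain ⟨π, hπ⟩ := exists_wreath_map (G ⧸ N) (QuotientGroup.mk' (charCenter χ.1))
    obtain ⟨j, hj⟩ := exists_wreath_map (G ⧸ N) (MonoidHom.inl H (G ⧸ N))
    obtain ⟨E, hE⟩ := exists_injective_of_ker_eq (π := π) (fun w =>
      ⟨⟨fun x => (w.left x).out, w.right⟩, by rw [hπ]; ext <;> simp⟩)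
      ((QuotientGroup.mk' (charCenter Ξ.1)).comp j) (by
        ext w
        have h5 : π w = 1 ↔ w.right = 1 ∧ ∀ x, w.left x ∈ charCenter χ.1 := by
          simp [hπ, RegularWreathProduct.ext_iff, funext_iff, and_comm]
        have hd : (0 : ℝ) < charDegree χ.1 := Nat.cast_pos.2 χ.charDegree_pos
        have h1n : ‖χ 1‖ = charDegree χ.1 := χ.mem_charCenter.1 (one_mem _)
        rw [MonoidHom.mem_ker, h5, ← MonoidHom.comap_ker, QuotientGroup.ker_mk', mem_comap,
          Ξ.mem_charCenter, ← Ξ.mem_charCenter.1 (one_mem _), hj]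
        by_cases h6 : w.right = 1
        · rw [hv _ h6 (by simp), hv1, norm_mul, norm_mul, mul_right_inj'
            (norm_ne_zero_iff.2 (natCard_cast_ne_zero _)), norm_prod, norm_prod]
          simp only [h6, true_and, χ.mem_charCenter, MonoidHom.inl_apply, map_one,
            MonoidHom.one_apply, Units.val_one, mul_one, h1n]
          refine ⟨fun h => Finset.prod_congr rfl fun x _ => h x, fun h x => ?_⟩
          by_contra h7
          refine (Finset.prod_lt_prod (fun y _ => ?_) (fun y _ => χ.isCharacter.norm_le _)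
            ⟨x, Finset.mem_univ x, lt_of_le_of_ne (χ.isCharacter.norm_le _) h7⟩).ne h
          refine norm_pos_iff.2 fun h8 => ?_
          rw [Finset.prod_eq_zero (Finset.mem_univ y) (by rw [h8, norm_zero])] at h
          exact (Finset.prod_pos fun _ _ => hd).ne h
        · rw [hz _ (Or.inl h6), norm_zero]
          exact iff_of_false (fun h => h6 h.1) (norm_pos_iff.2 Ξ.apply_one_ne_zero).ne)
    suffices Function.Injective F from ⟨E.comp (F.comp K), hE.comp (this.comp hK)⟩
    intro a b hab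
    rw [hF, hF] at hab
    have h5 := congrArg RegularWreathProduct.left hab
    have h6 := congrArg RegularWreathProduct.right hab
    exact RegularWreathProduct.ext (funext fun x => h2 (congrFun h5 x)) h6
  · intro q hq hd
    rw [RegularWreathProduct.card, Nat.card_prod, ← index_eq_card, hq.dvd_mul] at hd
    rw [← hNG]
    rcases hd with hd | hd
    · rcases hq.dvd_mul.1 (hq.dvd_of_dvd_pow hd) with hd | hd
      · exact (h3 q hq hd).mul_right _
      · exact hd.mul_left _
    · exact hd.mul_left _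
  · classical
    intro q hq hd
    rw [← hNG, hq.dvd_mul] at hd
    rcases hd with hd | hd
    · obtain ⟨h, ζ, hζ, hζ', hh⟩ := h4 q hq hd
      refine ⟨⟨fun x => (Pi.mulSingle (M := fun _ => H) 1 h x, 1), 1⟩, ζ, hζ, hζ', ?_⟩
      rw [hv _ rfl (by simp), hv1, mul_left_comm, ← Finset.mul_prod_erase _ _ (Finset.mem_univ 1),
        ← Finset.mul_prod_erase _ _ (Finset.mem_univ 1), ← mul_assoc ζ, ← hh]
      congr 2
      · simp
      · exact Finset.prod_congr rfl fun x hx => by simp [Finset.ne_of_mem_erase hx]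
    · obtain rfl := (Nat.prime_dvd_prime_iff_eq hq hp).1 hd
      haveI : Nontrivial (G ⧸ N) := Finite.one_lt_card_iff_nontrivial.1 hp.one_lt
      obtain ⟨c, hc⟩ := exists_ne (1 : G ⧸ N)
      obtain ⟨a, ha⟩ := he c hc
      refine ⟨⟨fun x => (1, Pi.mulSingle (M := fun _ => G ⧸ N) c a x *
        Pi.mulSingle (M := fun _ => G ⧸ N) 1 a⁻¹ x), 1⟩, e a c,
        by simpa using ha, hpow _ _, ?_⟩
      rw [hv _ rfl (by simp [Finset.prod_mul_distrib]), hv1, mul_left_comm,
        Finset.prod_mul_distrib, mul_comm (∏ _, _), ← Units.coe_prod]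
      congr 3
      simp only [map_mul, MonoidHom.mul_apply, Finset.prod_mul_distrib]
      rw [Finset.prod_eq_single c (fun x _ hx => by simp [hx]) (by simp),
        Finset.prod_eq_single 1 (fun x _ hx => by simp [hx]) (by simp)]
      simp

end Cfsg
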