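import Cfsg.Agent.Char.DadeExtB

/-! # Dade's extension theorem for extraspecial `2`-groups -/

set_option autoImplicit false
set_option linter.unusedSectionVars false

namespace Cfsg.Agent.FT

open Subgroup
open scoped commutatorElement

universe u

variable {G : Type u} [Group G] [Finite G] {z : G} {A B E F F' K L S T : Subgroup G} {χ ψ : G → ℂ}

/-- `F` is a central factor of `E`. -/
structure XSplit (z : G) (F E : Subgroup G) : Prop where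
  le : F ≤ E
  mem : z ∈ F
  sup : E ≤ F ⊔ E ⊓ 𝓒(F)

/-- The inductive hypothesis. -/
structure XHyp (z : G) (E K S : Subgroup G) : Prop where
  sp : XSp z E
  odd : Odd (Nat.card K)
  sol : Group.IsSolvable K
  pgroup : IsPGroup 2 S
  nK : K ≤ 𝓝(E)
  nS : S ≤ 𝓝(E)
  nSK : S ≤ 𝓝(K)
  inf : E ⊓ S = ⊥
  cent : E ⊓ 𝓒(K) ≤ zpowers z

namespace XSplit

theorem sp (h : XSplit z F E) (hE : XSp z E) : XSp z F :=
  ⟨hE.ord, hE.pgroup.to_le h.le, (der_mono h.le).trans hE.der, le_antisymm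
    ((le_inf (inf_le_left.trans h.le) ((le_cent_sup inf_le_right (inf_le_left.trans
      (le_cent_symm inf_le_right))).trans (cent_anti h.sup))).trans hE.cent.le)
    (le_inf (zpowers_le.2 h.mem) ((hE.cent.ge.trans inf_le_right).trans (cent_anti h.le)))⟩

theorem compl (h : XSplit z F E) (hE : XSp z E) : XSplit z (E ⊓ 𝓒(F)) E :=
  ⟨inf_le_left, ⟨hE.mem, cent_anti h.le (hE.cent.ge (mem_zpowers z)).2⟩,
    h.sup.trans (sup_le (le_sup_of_le_right (le_inf h.le (le_cent_symm inf_le_right))) le_sup_left)⟩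

theorem conj (h : XSplit z F E) (hE : XSp z E) {g : G} (hg : g ∈ 𝓝(E)) : XSplit z (F :^ g) E :=
  ⟨conj_le_of_mem_norm h.le hg, hE.comm_of_norm hg ▸ conj_mem_map_conj.2 h.mem, by
    simpa only [map_conj_sup, map_conj_inf, conj_eq_of_mem_norm hg, ← centralizer_map_conj]
      using conj_mono h.sup g⟩

theorem sup' (h : XSplit z F E) (h' : XSplit z F' E) (hc : F' ≤ 𝓒(F)) : XSplit z (F ⊔ F') E := by
  refine ⟨sup_le h.le h'.le, mem_sup_left h.mem, h.sup.trans (sup_le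
    (le_sup_left.trans le_sup_left) fun c hc' => ?_)⟩
  obtain ⟨f, hf, d, hd, rfl⟩ := (mem_sup_of_le_normalizer'
    (le_norm_of_le_cent inf_le_right)).1 (h'.sup hc'.1)
  exact mul_mem_sup (mem_sup_right hf) ⟨hd.1, le_cent_sup (A := 𝓒(F) ⊓ 𝓒(F')) inf_le_left
    inf_le_right ⟨(mul_mem_cancel_left (hc hf)).1 hc'.2, hd.2⟩⟩

end XSplit

theorem XSp.coprime (hE : XSp z E) (hA : Odd (Nat.card A)) : (Nat.card E).Coprime (Nat.card A) :=
  IsPGroup.coprime_card_of_not_dvd hE.pgroup hA.not_two_dvd_nat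

theorem XSp.comm_le_cent (hE : XSp z E) (nA : A ≤ 𝓝(E)) : ⁅E, A⁆ ≤ 𝓒(E ⊓ 𝓒(A)) :=
  le_cent_iff_comm.2 (three_subgroups
    (by rw [le_cent_iff_comm'.1 (inf_le_right : E ⊓ 𝓒(A) ≤ _), commutator_bot_left])
    (le_cent_iff_comm.1 (((commutator_mono inf_le_left le_rfl).trans hE.der).trans
      (hE.z_le_cent nA))))

theorem XSp.split_cent (hE : XSp z E) (hA : Odd (Nat.card A)) (nA : A ≤ 𝓝(E)) :
    XSplit z (E ⊓ 𝓒(A)) E :=
  ⟨inf_le_left, ⟨hE.mem, hE.z_le_cent nA (mem_zpowers z)⟩,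
    (coprimeAction nA (hE.coprime hA) (.inl (sol_of_pgroup hE.pgroup))
      ).inf_centralizer_sup_commutator.ge.trans
      (sup_le_sup_left (le_inf (comm_le_left nA) (hE.comm_le_cent nA)) _)⟩

theorem exists_sq_mem {y : G} {n : ℕ} (h : y ^ 2 ^ n ∈ T) (hy : y ∉ T) :
    ∃ s ∈ zpowers y, s ∉ T ∧ s * s ∈ T := by
  induction n generalizing y with
  | zero => exact absurd (by simpa using h) hy
  | succ n ih =>
    by_cases h2 : y * y ∈ T
    · exact ⟨y, mem_zpowers y, hy, h2⟩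
    · obtain ⟨s, hs, h3⟩ := ih (by rwa [← sq, ← pow_mul, ← pow_succ']) h2
      exact ⟨s, zpowers_le.2 (mul_mem (mem_zpowers y) (mem_zpowers y)) hs, h3⟩

namespace XHyp

theorem sub (h : XHyp z E K S) (hF : XSplit z F E) (nK : K ≤ 𝓝(F)) (hT : T ≤ S)
    (nT : T ≤ 𝓝(F)) : XHyp z F K T :=
  ⟨hF.sp h.sp, h.odd, h.sol, h.pgroup.to_le hT, nK, nT, hT.trans h.nSK,
    le_bot_iff.1 ((inf_le_inf hF.le hT).trans h.inf.le), (inf_le_inf_right _ hF.le).trans h.cent⟩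

theorem combine (h : XHyp z E K S) (hF : XSplit z F E) (nS : S ≤ 𝓝(F)) (h₁ : XExt z F S χ)
    (h₂ : XExt z (E ⊓ 𝓒(F)) S ψ) : ∃ ξ, XExt z E S ξ := by
  have e : F ⊔ E ⊓ 𝓒(F) = E := le_antisymm (sup_le hF.le inf_le_left) hF.sup
  obtain ⟨ξ, hξ, -⟩ := h₁.prod h₂ h.sp.ord inf_le_right nS (le_norm_subcent h.nS nS)
    (e.symm ▸ h.inf) (by rw [← inf_assoc, inf_eq_left.2 hF.le, (hF.sp h.sp).cent])
  exact ⟨ξ, e ▸ hξ⟩

theorem chain (h : XHyp z E K S) (hT : T ≤ S) (hF : XSplit z F E) (nK : K ≤ 𝓝(F)) (nT : T ≤ 𝓝(F))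
    (hc : ∀ t ∈ S, t ∉ T → F :^ t ≤ 𝓒(F)) (hχ : ∃ χ, XExt z F T χ) :
    ∃ F', F ≤ F' ∧ XSplit z F' E ∧ K ≤ 𝓝(F') ∧ S ≤ 𝓝(F') ∧ ∃ χ, XExt z F' S χ := by
  induction T using WellFoundedGT.induction generalizing F with
  | ind T ih =>
  rcases hT.eq_or_lt with rfl | hlt
  · exact ⟨F, le_rfl, hF, nK, nT, hχ⟩
  obtain ⟨y, hy, hyT⟩ := SetLike.exists_of_lt (nil_norm_lt (nil_of_pgroup h.pgroup) hlt)
  obtain ⟨n, hn⟩ := h.pgroup ⟨y, hy.1⟩
  obtain ⟨s, hs, hsT, h2⟩ := exists_sq_mem (T := T) (n := n)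
    (by rw [show y ^ 2 ^ n = 1 from congrArg Subtype.val hn]; exact one_mem T) hyT
  obtain ⟨hsS, hsN⟩ : s ∈ S ⊓ 𝓝(T) := zpowers_le.2 hy hs
  have hs1 : s ∈ T ⊔ zpowers s := mem_sup_right (mem_zpowers s)
  have hF' := hF.sup' (hF.conj h.sp (h.nS hsS)) (hc s hsS hsT)
  have key : ∀ a ∈ S, ∀ b ∈ S, b⁻¹ * a ∉ T → F :^ a ≤ 𝓒(F :^ b) := fun a ha b hb hab => by
    have := (conj_le_cent_iff (g := b)).2 (hc _ (mul_mem (inv_mem hb) ha) hab)
    rwa [conj_conj, mul_inv_cancel_left] at this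
  obtain ⟨χ, hχ⟩ := hχ
  obtain ⟨F', h1, h3⟩ := ih (T ⊔ zpowers s) (left_lt_sup.2 fun e => hsT (e (mem_zpowers s)))
    (sup_le hT (zpowers_le.2 hsS)) hF' (le_normalizer_sup nK (le_norm_conj nK (h.nSK hsS)))
    (sup_le (le_normalizer_sup nT (le_norm_conj nT hsN)) (zpowers_le.2 (by
      rw [← map_conj_eq_iff, map_conj_sup, conj_conj, conj_eq_of_mem_norm (nT h2), sup_comm])))
    (fun t ht htT => by
      have e1 : ∀ a ∈ T ⊔ zpowers s, ∀ b ∈ T ⊔ zpowers s, b⁻¹ * (t * a) ∉ T := fun a ha b hb e =>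
        htT ((mul_mem_cancel_right ha).1 ((mul_mem_cancel_left (inv_mem hb)).1 (mem_sup_left e)))
      rw [map_conj_sup, conj_conj]
      exact sup_le (le_cent_sup (hc t ht fun e => htT (mem_sup_left e))
        (key t ht s hsS (by simpa using e1 1 (one_mem _) s hs1))) (le_cent_sup
        (hc _ (mul_mem ht hsS) (by simpa using e1 s hs1 1 (one_mem _)))
        (key _ (mul_mem ht hsS) s hsS (e1 s hs1 s hs1))))
    (hχ.swap (hF.sp h.sp) (hF'.sp h.sp) ⟨le_sup_left, sup_le le_normalizer (zpowers_le.2 hsN)⟩ hs1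
      le_rfl h2 nT (hc s hsS hsT) (le_bot_iff.1 ((inf_le_inf hF'.le hT).trans h.inf.le)))
  exact ⟨F', le_sup_left.trans h1, h3⟩

theorem quo (h : XHyp z E K S) (ih : ∀ y, XHyp y (E /ₛ (K ⊓ 𝓒(E))) (K /ₛ (K ⊓ 𝓒(E)))
    (S /ₛ (K ⊓ 𝓒(E))) → ∃ χ, XExt y (E /ₛ (K ⊓ 𝓒(E))) (S /ₛ (K ⊓ 𝓒(E))) χ) :
    ∃ χ, XExt z E S χ := by
  have nE : E ≤ 𝓝((K ⊓ 𝓒(E) : Subgroup G)) := le_norm_of_le_cent (le_cent_symm inf_le_right)
  have nK : K ≤ 𝓝((K ⊓ 𝓒(E) : Subgroup G)) := le_norm_subcent le_normalizer h.nK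
  have nS : S ≤ 𝓝((K ⊓ 𝓒(E) : Subgroup G)) := le_norm_subcent h.nSK h.nS
  have hCK : K ⊓ 𝓒(E) ≤ K := inf_le_left
  generalize K ⊓ 𝓒(E) = C at *
  have hi : (E ⊔ S) ⊓ C = ⊥ := (disjoint_of_coprime_natCard (IsPGroup.coprime_card_of_not_dvd
    (pgroup_sup' h.sp.pgroup h.pgroup h.nS)
    (h.odd.of_dvd_nat (card_dvd_of_le hCK)).not_two_dvd_nat)).eq_bot
  have hiE : E ⊓ C = ⊥ := le_bot_iff.1 ((inf_le_inf_right _ le_sup_left).trans hi.le)
  have hz : zpowers z /ₛ C = zpowers (coset C ⟨z, nE h.sp.mem⟩) := quo_zpowers ⟨z, nE h.sp.mem⟩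
  have hc : ∀ X, X ≤ 𝓝(C) → X ≤ 𝓝(E) → E ⊓ 𝓒(X) ≤ zpowers z →
      (E /ₛ C) ⊓ 𝓒(X /ₛ C) ≤ zpowers (coset C ⟨z, nE h.sp.mem⟩) := fun X h1 h2 h3 y hy => by
    obtain ⟨x, hx, hxE, rfl⟩ := mem_quo.1 hy.1
    have h4 := zpowers_le.2 (mem_inf.1 hy).2
    rw [← quo_zpowers, quo_le_cent_iff (zpowers_le.2 hx) h1] at h4
    refine hz ▸ coset_mem_quo (h3 ⟨hxE, zpowers_le.1 (le_cent_iff_comm'.2 (le_bot_iff.1
      (hiE ▸ le_inf ?_ h4)))⟩)
    exact (commutator_mono le_rfl (zpowers_le.2 hxE)).trans (comm_le_right h2)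
  obtain ⟨χ, hχ⟩ := ih (coset C ⟨z, nE h.sp.mem⟩) ⟨⟨by
      rw [← Nat.card_zpowers, ← hz, card_quo_of_inf_eq_bot (h.sp.z_le.trans nE) (le_bot_iff.1
        ((inf_le_inf_left _ h.sp.z_le).trans (inf_comm E C ▸ hiE).le)), Nat.card_zpowers, h.sp.ord],
      isPGroup_quo h.sp.pgroup _, by rw [← quo_comm nE nE, ← hz]; exact quo_mono h.sp.der,
      le_antisymm (hc E nE le_normalizer h.sp.cent.le) (hz ▸ le_inf (quo_mono h.sp.z_le)
        (quo_le_cent (h.sp.z_le_cent le_normalizer)))⟩,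
    odd_card_quo h.odd _, isSolvable_quo h.sol _, isPGroup_quo h.pgroup _, quo_le_norm h.nK,
    quo_le_norm h.nS, quo_le_norm h.nSK, eq_bot_iff.2 fun y hy => by
      obtain ⟨x, hx, hxE, rfl⟩ := mem_quo.1 hy.1
      obtain ⟨s, hs, hsS, e⟩ := mem_quo.1 hy.2
      have h1 := mem_bot.1 (hi.le (mem_inf.2 ⟨mul_mem (inv_mem (mem_sup_right hsS))
        (mem_sup_left hxE), coset_eq_iff.1 e⟩))
      obtain rfl := inv_mul_eq_one.1 h1
      obtain rfl := mem_bot.1 (h.inf.le ⟨hxE, hsS⟩)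
      exact map_one _,
    hc K nK h.nK h.cent⟩
  obtain ⟨ψ, hψ⟩ := exists_fun_extend (χ ∘ coset C)
  have h1 : ψ 1 = χ 1 := (hψ 1).trans (congrArg χ (map_one _))
  refine ⟨ψ, chOn_of_eq ((quo_sup nE nS ▸ hχ.char : ChOn ((E ⊔ S) /ₛ C) χ).comp
    (quoHom C (sup_le nE nS))) fun x => hψ ⟨x, sup_le nE nS x.2⟩, ?_, ?_⟩
  · rw [h1, hχ.deg, card_quo_of_inf_eq_bot nE (inf_comm E C ▸ hiE)]
  · rw [h1, ← hχ.neg]; exact hψ ⟨z, nE h.sp.mem⟩

theorem exists_ext (h : XHyp z E K S) : ∃ χ, XExt z E S χ := by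
  induction hn : Nat.card E + Nat.card K using Nat.strong_induction_on generalizing G with
  | _ n ih =>
  subst hn
  by_cases hE : E ≤ zpowers z
  · exact h.sp.exists_ext_of_le h.nS h.inf hE
  by_cases hC : K ⊓ 𝓒(E) = ⊥
  swap
  · exact h.quo fun y hy => ih _ (add_lt_add_of_le_of_lt (card_quo_le _ _)
      (card_quo_lt' (IsNormalOf.cent h.nK) hC)) hy rfl
  by_cases hB : ∃ B, B ⊴ K ∧ B ≠ ⊥ ∧ ¬ E ⊓ 𝓒(B) ≤ zpowers z
  · obtain ⟨B, ⟨hBK, hB0, hBZ⟩, hmax⟩ := (Set.toFinite _).exists_maximal hB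
    have hBo : ∀ X ≤ K, Odd (Nat.card X) := fun X hX => h.odd.of_dvd_nat (card_dvd_of_le hX)
    have hF := h.sp.split_cent (hBo B hBK.le) (hBK.le.trans h.nK)
    have nK := le_norm_subcent h.nK hBK.norm
    have nT : S ⊓ 𝓝(B) ≤ _ := le_norm_subcent (inf_le_left.trans h.nS) inf_le_right
    obtain ⟨F, h1, h2, h3, h4, χ, hχ⟩ := h.chain inf_le_left hF nK nT (fun t ht htB => by
      have hBt : B :^ t ⊴ K := conj_eq_of_mem_norm (h.nSK ht) ▸ hBK.conj t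
      have h5 : E ⊓ 𝓒(B ⊔ B :^ t) ≤ zpowers z := by
        by_contra h5
        exact htB ⟨ht, mem_normalizer_of_map_conj_le (le_sup_right.trans (hmax
          ⟨hBK.sup hBt, ne_bot_of_le hB0 le_sup_left, h5⟩ le_sup_left))⟩
      rw [map_conj_inf, conj_eq_of_mem_norm (h.nS ht), ← centralizer_map_conj]
      rw [← (coprimeAction (hBK.le.trans (le_norm_subcent h.nK hBt.norm)) (coprime_mono
        (h.sp.coprime h.odd) inf_le_left hBK.le) (.inr (sol_of_le h.sol hBK.le))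
        ).inf_centralizer_sup_commutator]
      exact sup_le ((le_inf (inf_le_left.trans inf_le_left) (le_cent_sup inf_le_right
        (inf_le_left.trans inf_le_right))).trans (h5.trans (h.sp.z_le_cent
          (inf_le_left.trans le_normalizer)))) ((commutator_mono inf_le_left le_rfl).trans
        (h.sp.comm_le_cent (hBK.le.trans h.nK))))
      (ih _ (add_lt_add_left (card_lt_of_lt (inf_le_left.lt_of_ne fun e => hB0 (le_bot_iff.1
        (hC ▸ le_inf hBK.le (le_cent_symm (inf_eq_left.1 e)))))) _)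
        (h.sub hF nK inf_le_left nT) rfl)
    obtain ⟨ψ, hψ⟩ := ih _ (add_lt_add_left (card_lt_of_lt (inf_le_left.lt_of_ne fun e =>
      hBZ (h1.trans ((le_inf h2.le (le_cent_symm (inf_eq_left.1 e))).trans h.sp.cent.le)))) _)
      (h.sub (h2.compl h.sp) (le_norm_subcent h.nK h3) le_rfl (le_norm_subcent h.nS h4)) rfl
    exact h.combine h2 h4 hχ hψ
  push Not at hB
  have hK0 : K ≠ ⊥ := fun e => hE (le_trans (le_inf le_rfl (by rw [e, cent_bot]; exact le_top)) h.cent)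
  by_cases hab : ⁅K, K⁆ = ⊥
  swap
  · exact ih _ (add_lt_add_right (card_lt_of_lt (sol_der_lt h.sol hK0)) _)
      ⟨h.sp, h.odd.of_dvd_nat (card_dvd_of_le (der_le K)), sol_of_le h.sol (der_le K), h.pgroup,
        (der_le K).trans h.nK, h.nS, le_norm_comm h.nSK h.nSK, h.inf,
        hB _ (IsNormalOf.der K) hab⟩ rfl
  have hab' := comm_iff_der.2 hab
  have hk : ∀ k ∈ K, k ≠ 1 → E ⊓ 𝓒[k] ≤ zpowers z := fun k hk h1 =>
    (inf_le_inf_left _ (le_cent_zpowers.2 le_rfl)).trans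
      (hB _ (IsNormalOf.of_comm hab' (zpowers_le.2 hk)) (zpowers_ne_bot.2 h1))
  have hcyc : IsCyclic K := by
    by_contra hn
    exact hE (coprime_abelian_gen_cent1 hab' hn h.nK (h.sp.coprime h.odd) hk)
  obtain ⟨k, hkK, hp⟩ := exists_prime_order_mem hK0
  exact h.sp.exists_ext_prime h.pgroup h.nS h.inf hp (h.odd.of_dvd_nat (orderOf_dvd_natCard _ hkK))
    (h.nK hkK) (h.nSK.trans (norm_le_norm_of_cyclic hcyc (zpowers_le.2 hkK)))
    (hk k hkK fun e => by simp [e, Nat.not_prime_one] at hp)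

end XHyp

end Cfsg.Agent.FT

set_option linter.all false in
theorem Cfsg.Rz.Char_DadeExt_0 : True := by
  have := @_root_.Cfsg.Agent.FT.XHyp.mk.congr_simp.{0}
  have := @_root_.Cfsg.Agent.FT.XSplit.mk.congr_simp.{0}
  trivial
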