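import Cfsg.Agent.FT.PF09a
import Cfsg.Agent.Char.GlaubCyc
import Cfsg.Agent.Char.OkWa

/-! # Extending the faithful character of an extraspecial `2`-group: the tools -/

set_option autoImplicit false
set_option linter.unusedSectionVars false

namespace Cfsg.Agent.FT

open Subgroup
open scoped commutatorElement

universe u

variable {G : Type u} [Group G] [Finite G] {z : G} {E F L S T : Subgroup G} {χ ψ : G → ℂ}

/-- The restriction of `χ` to `L` is a character. -/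
def ChOn (L : Subgroup G) (χ : G → ℂ) : Prop := IsCharacter L fun x => χ x

/-- `E` is extraspecial with centre `⟨z⟩`, or `E = ⟨z⟩` has order two. -/
structure XSp (z : G) (E : Subgroup G) : Prop where
  ord : orderOf z = 2
  pgroup : IsPGroup 2 E
  der : ⁅E, E⁆ ≤ zpowers z
  cent : E ⊓ 𝓒(E) = zpowers z

/-- `χ` is a character of `E S` extending the faithful irreducible character of `E`. -/
structure XExt (z : G) (E S : Subgroup G) (χ : G → ℂ) : Prop where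
  char : ChOn (E ⊔ S) χ
  deg : 2 * χ 1 ^ 2 = Nat.card E
  neg : χ z = -χ 1

theorem mem_zpowers_two (h : orderOf z = 2) {x : G} : x ∈ zpowers z ↔ x = 1 ∨ x = z := by
  classical
  rw [mem_zpowers_iff_mem_range_orderOf, h]
  simp [Finset.range_add_one, eq_comm, or_comm]

theorem exists_fun_extend (φ : L → ℂ) : ∃ χ : G → ℂ, ∀ x : L, χ x = φ x :=
  ⟨Function.extend Subtype.val φ 0, fun x => Subtype.val_injective.extend_apply _ _ x⟩

theorem chOn_of_eq {φ : L → ℂ} (h : IsCharacter L φ) (e : ∀ x : L, χ x = φ x) : ChOn L χ := by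
  rwa [ChOn, funext e]

theorem IsCharacter.exists_deflate {P Q : Type*} [Group P] [Finite P] [Group Q] [Finite Q]
    {Ψ : P → ℂ} (h : IsCharacter P Ψ) {φ : P →* Q} (hφ : Function.Surjective φ)
    (hk : φ.ker ≤ charKer Ψ) : ∃ θ, IsCharacter Q θ ∧ ∀ x, θ (φ x) = Ψ x := by
  obtain ⟨θ, h1, h2⟩ := h.exists_quotient_of_le_charKer _ hk
  refine ⟨_, h1.comp (QuotientGroup.quotientKerEquivOfSurjective φ hφ).symm.toMonoidHom,
    fun x => (congrArg θ ?_).trans (congrFun h2 x)⟩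
  exact (MulEquiv.symm_apply_eq _).2 rfl

namespace ChOn

theorem mono (h : ChOn L χ) (hF : F ≤ L) : ChOn F χ := h.comp (inclusion hF)

theorem congr (h : ChOn L χ) (e : ∀ x ∈ L, ψ x = χ x) : ChOn L ψ := by
  have : (fun x : L => ψ x) = fun x : L => χ x := funext fun x => e x x.2
  rwa [ChOn, this]

theorem conj_eq (h : ChOn L χ) {g x : G} (hg : g ∈ L) (hx : x ∈ L) : χ (g * x * g⁻¹) = χ x :=
  h.isClassFunction ⟨x, hx⟩ ⟨g, hg⟩

theorem conj (h : ChOn L χ) (g : G) : ChOn (L :^ g) fun x => χ (g⁻¹ * x * g) := by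
  refine (congrArg (IsCharacter _) (funext fun x => ?_)).mp
    (h.comp (conjEquiv L g).symm.toMonoidHom)
  obtain ⟨x, rfl⟩ := (conjEquiv L g).surjective x
  simp only [Function.comp_apply, MulEquiv.coe_toMonoidHom, MulEquiv.symm_apply_apply]
  exact congrArg χ (show (x : G) = g⁻¹ * (g * x * g⁻¹) * g by group)

theorem exists_nat (h : ChOn L χ) : ∃ n : ℕ, χ 1 = n := ⟨_, h.apply_one⟩

theorem mem_center (h : ChOn L χ) (hz : z ∈ L) (hn : χ z = -χ 1) :
    (⟨z, hz⟩ : L) ∈ charCenter fun x : L => χ x := by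
  rw [IsCharacter.mem_charCenter h]
  have := h.apply_one
  simp only [OneMemClass.coe_one] at this
  simp [hn, this]

theorem neg_mul (h : ChOn L χ) (hz : z ∈ L) (hn : χ z = -χ 1) (h1 : χ 1 ≠ 0) {g : G}
    (hg : g ∈ L) : χ (z * g) = -χ g :=
  mul_right_cancel₀ h1 ((IsCharacter.apply_mul_of_mem_charCenter h (h.mem_center hz hn)
    ⟨g, hg⟩).trans (by simp [hn, mul_comm]))

end ChOn

namespace XSp

theorem mem (h : XSp z E) : z ∈ E := (h.cent.ge (mem_zpowers z)).1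

theorem z_le (h : XSp z E) : zpowers z ≤ E := zpowers_le.2 h.mem

theorem ne_one (h : XSp z E) : z ≠ 1 := fun e => by simpa [e] using h.ord

theorem comm_of_norm (h : XSp z E) {g : G} (hg : g ∈ 𝓝(E)) : g * z * g⁻¹ = z := by
  have : g * z * g⁻¹ ∈ E ⊓ 𝓒(E) := (mem_normalizer_iff.1
    (le_norm_center (le_refl 𝓝(E)) hg) z).1 (h.cent.ge (mem_zpowers z))
  rcases (mem_zpowers_two h.ord).1 (h.cent.le this) with e | e
  · exact absurd (conj_eq_one_iff.1 e) h.ne_one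
  · exact e

theorem z_le_cent (h : XSp z E) (hS : S ≤ 𝓝(E)) : zpowers z ≤ 𝓒(S) :=
  zpowers_le.2 (mem_cent_sub.2 fun _ hs => mul_inv_eq_iff_eq_mul.1 (h.comm_of_norm (hS hs)))

theorem vanish (h : XSp z E) (hχ : ChOn E χ) (hn : χ z = -χ 1) (h1 : χ 1 ≠ 0) {e : G} (he : e ∈ E)
    (hz : e ∉ zpowers z) : χ e = 0 := by
  obtain ⟨f, hf, hc⟩ : ∃ f ∈ E, ⁅f, e⁆ ≠ 1 := by
    by_contra! hc
    exact hz (h.cent.le ⟨he, mem_cent_sub.2 fun f hf =>
      commutatorElement_eq_one_iff_mul_comm.1 (hc f hf)⟩)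
  have h2 := ((mem_zpowers_two h.ord).1 (h.der (commutator_mem_commutator hf he))).resolve_left hc
  have h3 := hχ.neg_mul h.mem hn h1 he
  rw [← h2, commutatorElement_def, inv_mul_cancel_right, hχ.conj_eq hf he] at h3
  exact self_eq_neg.1 h3

theorem isIrr_iff (h : XSp z E) (hχ : ChOn E χ) (hn : χ z = -χ 1) (h1 : χ 1 ≠ 0) :
    IsIrrCharacter E (fun x => χ x) ↔ 2 * χ 1 ^ 2 = Nat.card E := by
  have h2 := (ip_comp_subtype_eq_iff (fun x : E => χ x) ((zpowers z).subgroupOf E)).2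
    fun g hg => h.vanish hχ hn h1 g.2 hg
  have hle : (zpowers z).subgroupOf E ≤ charCenter fun x : E => χ x := fun x hx => by
    rcases (mem_zpowers_two h.ord).1 hx with e | e
    · exact (Subtype.ext e : x = 1) ▸ one_mem _
    · exact (Subtype.ext e : x = ⟨z, h.mem⟩) ▸ hχ.mem_center h.mem hn
  rw [IsCharacter.ip_comp_subtype_of_le_charCenter hχ hle, ← IsCharacter.apply_one hχ] at h2
  have h3 := card_mul_relIndex h.z_le
  rw [Nat.card_zpowers, h.ord] at h3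
  have h4 : (((zpowers z).subgroupOf E).index : ℂ) ≠ 0 := Nat.cast_ne_zero.2 index_ne_zero_of_finite
  rw [IsCharacter.isIrr_iff hχ, ← h3, Nat.cast_mul, Nat.cast_ofNat, mul_right_inj' two_ne_zero,
    show χ 1 ^ 2 = _ from h2, relIndex, mul_right_eq_self₀, or_iff_left h4]

theorem one_ne_zero (h : 2 * χ 1 ^ 2 = Nat.card E) : χ 1 ≠ 0 := fun e =>
  Nat.card_pos.ne' (Nat.cast_eq_zero.1 (h.symm.trans (by simp [e])))

theorem isIrr (h : XSp z E) (hχ : XExt z E S χ) : IsIrrCharacter E fun x => χ x :=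
  (h.isIrr_iff (hχ.char.mono le_sup_left) hχ.neg (one_ne_zero hχ.deg)).2 hχ.deg

theorem uniq (h : XSp z E) (hχ : XExt z E S χ) (hψ : XExt z E T ψ) {e : G} (he : e ∈ E) :
    χ e = ψ e := by
  obtain ⟨m, hm⟩ := hχ.char.exists_nat
  obtain ⟨n, hn⟩ := hψ.char.exists_nat
  have h1 : χ 1 = ψ 1 := by
    have := hχ.deg.trans hψ.deg.symm
    rw [hm, hn, mul_right_inj' two_ne_zero] at this
    rw [hm, hn, Nat.pow_left_injective two_ne_zero (by exact_mod_cast this : m ^ 2 = n ^ 2)]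
  by_cases hz : e ∈ zpowers z
  · rcases (mem_zpowers_two h.ord).1 hz with rfl | rfl
    exacts [h1, by rw [hχ.neg, hψ.neg, h1]]
  · rw [h.vanish (hχ.char.mono le_sup_left) hχ.neg (one_ne_zero hχ.deg) he hz,
      h.vanish (hψ.char.mono le_sup_left) hψ.neg (one_ne_zero hψ.deg) he hz]

end XSp

theorem range_inclusion_sup (h : F ≤ L) {s : G} (hs : s ∈ L) (hL : L ≤ F ⊔ zpowers s) :
    (inclusion h).range ⊔ zpowers ⟨s, hs⟩ = ⊤ := by
  refine map_injective L.subtype_injective ?_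
  rw [Subgroup.map_sup, inclusion_range, subgroupOf_map_subtype_of_le h, MonoidHom.map_zpowers,
    ← MonoidHom.range_eq_map, range_subtype]
  exact le_antisymm (sup_le h (zpowers_le.2 hs)) hL

/-- Extension over a cyclic quotient. -/
theorem XExt.up (h : XExt z E T χ) (hE : XSp z E) (hT : T ⊴ S) (nE : S ≤ 𝓝(E)) {s : G}
    (hs : s ∈ S) (hS : S ≤ T ⊔ zpowers s) (hinv : ∀ g ∈ E ⊔ T, χ (s * g * s⁻¹) = χ g) :
    ∃ ψ, XExt z E S ψ := by
  have hN : E ⊔ T ⊴ E ⊔ S := ⟨sup_le_sup_left hT.le _,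
    sup_le (le_sup_left.trans le_normalizer) (le_normalizer_sup nE hT.norm)⟩
  have := hN.normal
  have htop := range_inclusion_sup hN.le (mem_sup_right hs)
    ((sup_le_sup_left hS E).trans (sup_assoc E T _).ge)
  have hirr : IsIrrCharacter (E ⊔ T : Subgroup G) fun x => χ x :=
    IsCharacter.isIrr_of_comp h.char (inclusion le_sup_left) (hE.isIrr h)
  have hI : inertia (inclusion hN.le) ⟨_, hirr⟩ = ⊤ := by
    refine inertia_eq_top_of_smul_eq htop ((conjAut_smul_eq_iff _).2 fun n n' e => ?_)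
    have e' : (n' : G) = s * n * s⁻¹ := congrArg Subtype.val e
    exact (congrArg χ e').trans (hinv n n.2)
  obtain ⟨θ, hθ⟩ := exists_extension_of_isCyclic hI
    (isCyclic_quotient_iff_zpowers_sup.2 ⟨_, (sup_comm _ _).trans htop⟩)
  obtain ⟨ψ, hψ⟩ := exists_fun_extend θ.1
  have e : ∀ x ∈ E ⊔ T, ψ x = χ x := fun x hx => (hψ ⟨x, hN.le hx⟩).trans (congrFun hθ ⟨x, hx⟩)
  exact ⟨ψ, chOn_of_eq θ.isCharacter hψ, by rw [e 1 (one_mem _), h.deg],
    by rw [e 1 (one_mem _), e z (mem_sup_left hE.mem), h.neg]⟩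

/-- The product of extensions for a central product. -/
theorem XExt.prod (h₁ : XExt z E S χ) (h₂ : XExt z F S ψ) (hz : orderOf z = 2) (hc : F ≤ 𝓒(E))
    (n₁ : S ≤ 𝓝(E)) (n₂ : S ≤ 𝓝(F)) (hi : (E ⊔ F) ⊓ S = ⊥) (hZ : E ⊓ F = zpowers z) :
    ∃ ξ, XExt z (E ⊔ F) S ξ ∧
      ∀ a ∈ E, ∀ b ∈ F, ∀ s ∈ S, ξ (a * b * s) = χ (a * s) * ψ (b * s) := by
  let P : Subgroup (G × G × G) :=
    { carrier := {x | x.2.2 ∈ S ∧ x.1 * x.2.2⁻¹ ∈ E ∧ x.2.1 * x.2.2⁻¹ ∈ F}
      one_mem' := by simp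
      mul_mem' := fun {x y} ⟨a, b, c⟩ ⟨d, e, f⟩ => ⟨mul_mem a d,
        by simpa [mul_assoc] using mul_mem b (conj_mem_of_norm (n₁ a) e),
        by simpa [mul_assoc] using mul_mem c (conj_mem_of_norm (n₂ a) f)⟩
      inv_mem' := fun {x} ⟨a, b, c⟩ => ⟨inv_mem a,
        by simpa [mul_assoc] using inv_mem (conj_mem_of_norm' (n₁ a) b),
        by simpa [mul_assoc] using inv_mem (conj_mem_of_norm' (n₂ a) c)⟩ }
  have m₁ : ∀ x : P, x.1.1 ∈ E ⊔ S := fun x => by simpa using mul_mem_sup x.2.2.1 x.2.1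
  have m₂ : ∀ x : P, x.1.2.1 ∈ F ⊔ S := fun x => by simpa using mul_mem_sup x.2.2.2 x.2.1
  have hΨ : IsCharacter P fun x => χ x.1.1 * ψ x.1.2.1 :=
    (h₁.char.comp (((MonoidHom.fst _ _).comp P.subtype).codRestrict _ m₁)).mul (h₂.char.comp
      (((MonoidHom.fst _ _).comp ((MonoidHom.snd _ _).comp P.subtype)).codRestrict _ m₂))
  let φ : P →* (E ⊔ F ⊔ S : Subgroup G) := MonoidHom.mk' (fun x => ⟨x.1.1 * x.1.2.2⁻¹ * x.1.2.1,
    by simpa [mul_assoc] using mul_mem_sup (mul_mem_sup x.2.2.1 x.2.2.2) x.2.1⟩) fun x y => by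
      have := mem_cent_sub.1 (hc x.2.2.2) _ (conj_mem_of_norm (n₁ x.2.1) y.2.2.1)
      apply Subtype.ext
      simp only [coe_mul, Prod.fst_mul, Prod.snd_mul, mul_inv_rev]
      calc _ = x.1.1 * x.1.2.2⁻¹ * (x.1.2.2 * (y.1.1 * y.1.2.2⁻¹) * x.1.2.2⁻¹ *
          (x.1.2.1 * x.1.2.2⁻¹)) * x.1.2.2 * y.1.2.1 := by group
        _ = _ := by rw [this]; group
  have hP : ∀ a ∈ E, ∀ b ∈ F, ∀ s ∈ S, (a * s, b * s, s) ∈ P := fun a ha b hb s hs =>
    ⟨hs, by simpa using ha, by simpa using hb⟩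
  have hφ : ∀ a ha b hb s hs, (φ ⟨_, hP a ha b hb s hs⟩ : G) = a * b * s := fun a _ b _ s _ => by
    simp [φ, mul_assoc]
  have hz₁ : z ∈ E := (hZ.ge (mem_zpowers z)).1
  obtain ⟨θ, h1, h2⟩ := IsCharacter.exists_deflate hΨ (φ := φ) (fun g => by
    obtain ⟨x, hx, s, hs, e⟩ := (mem_sup_of_le_normalizer' (le_normalizer_sup n₁ n₂)).1 g.2
    obtain ⟨a, ha, b, hb, rfl⟩ := (mem_sup_of_le_normalizer' (le_norm_of_le_cent hc)).1 hx
    exact ⟨_, Subtype.ext ((hφ a ha b hb s hs).trans e)⟩) fun ⟨⟨x, y, s⟩, hs, hx, hy⟩ h => by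
      have h3 : x * s⁻¹ * y = 1 := congrArg Subtype.val h
      have h4 : s = 1 := by
        rw [← mem_bot, ← hi]
        refine ⟨?_, hs⟩
        have := inv_mem (mul_mem_sup hx hy)
        rwa [← mul_assoc, h3, one_mul, inv_inv] at this
      subst h4
      have h5 : x ∈ E := by simpa using hx
      have h6 : y ∈ F := by simpa using hy
      obtain rfl := eq_inv_of_mul_eq_one_right (by simpa using h3 : x * y = 1)
      rw [hΨ.mem_charKer]
      rcases (mem_zpowers_two hz).1 (hZ.le ⟨h5, F.inv_mem_iff.1 h6⟩) with rfl | rfl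
      · simp
      · have : x⁻¹ = x := inv_eq_of_mul_eq_one_right (by rw [← sq, ← hz, pow_orderOf_eq_one])
        simp [this, h₁.neg, h₂.neg]
  obtain ⟨ξ, hξ⟩ := exists_fun_extend θ
  have e : ∀ a ∈ E, ∀ b ∈ F, ∀ s ∈ S, ξ (a * b * s) = χ (a * s) * ψ (b * s) :=
    fun a ha b hb s hs => by rw [← hφ a ha b hb s hs, hξ, h2]
  have e1 : ξ 1 = χ 1 * ψ 1 := by simpa using e 1 (one_mem _) 1 (one_mem _) 1 (one_mem _)
  refine ⟨ξ, ⟨chOn_of_eq h1 hξ, ?_, ?_⟩, e⟩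
  · have h3 := (isProd_of_le_norm (le_norm_of_le_cent hc)).card_mul
    rw [hZ, Nat.card_zpowers, hz] at h3
    have h4 := congrArg (Nat.cast : ℕ → ℂ) h3
    rw [Nat.cast_mul, Nat.cast_mul, ← h₁.deg, ← h₂.deg] at h4
    rw [e1]
    push_cast at h4
    linear_combination -h4 / 2
  · simpa [e1, h₁.neg] using e z hz₁ 1 (one_mem _) 1 (one_mem _)

/-- Two commuting factors exchanged by `s`. -/
theorem XExt.swap (h : XExt z F T χ) (hF : XSp z F) {s : G} (hX : XSp z (F ⊔ F :^ s))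
    (hT : T ⊴ S) (hs : s ∈ S) (hS : S ≤ T ⊔ zpowers s) (h2 : s * s ∈ T) (nF : T ≤ 𝓝(F))
    (hc : F :^ s ≤ 𝓒(F)) (hi : (F ⊔ F :^ s) ⊓ T = ⊥) : ∃ ψ, XExt z (F ⊔ F :^ s) S ψ := by
  have hss : (F :^ s) :^ s = F := by rw [conj_conj, conj_eq_of_mem_norm (nF h2)]
  have hn : s ∈ 𝓝((F ⊔ F :^ s : Subgroup G)) := by
    rw [← map_conj_eq_iff, map_conj_sup, hss, sup_comm]
  have nF' := le_norm_conj nF (hT.norm hs)
  have hz' : s⁻¹ * z * s = z := by simpa using hX.comm_of_norm (inv_mem hn)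
  obtain ⟨ξ, h3, h4⟩ := h.prod (F := F :^ s) (ψ := fun x => χ (s⁻¹ * x * s))
    ⟨by simpa only [map_conj_sup, hT.conj_eq hs] using h.char.conj s,
      by rw [card_map_conj]; simpa using h.deg, by simpa [hz'] using h.neg⟩ hF.ord hc nF nF' hi
    (le_antisymm ((inf_le_inf_left _ hc).trans hF.cent.le)
      (zpowers_le.2 ⟨hF.mem, mem_map_conj.2 (hz'.symm ▸ hF.mem)⟩))
  refine h3.up hX hT (hS.trans (sup_le (le_normalizer_sup nF nF') (zpowers_le.2 hn))) hs hS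
    fun g hg => ?_
  obtain ⟨x, hx, t, ht, rfl⟩ := (mem_sup_of_le_normalizer' (le_normalizer_sup nF nF')).1 hg
  obtain ⟨a, ha, b, hb, rfl⟩ := (mem_sup_of_le_normalizer' (le_norm_of_le_cent hc)).1 hx
  have hb' : s * b * s⁻¹ ∈ F := hss ▸ conj_mem_map_conj.2 hb
  have ha' : s * a * s⁻¹ ∈ F :^ s := conj_mem_map_conj.2 ha
  have h5 := h4 _ hb' _ ha' _ (hT.conj_mem hs ht)
  have h6 := h.char.conj_eq (mem_sup_right h2) (mul_mem_sup (mem_map_conj.1 hb)
    (conj_mem_of_norm' (hT.norm hs) ht))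
  rw [mem_cent_sub.1 (hc ha') _ hb'] at h5
  rw [h4 a ha b hb t ht, mul_comm]
  simp only [mul_assoc, mul_inv_rev, inv_mul_cancel_left, mul_inv_cancel_left, inv_mul_cancel,
    mul_one] at h5 h6 ⊢
  rw [h5, h6]

end Cfsg.Agent.FT

set_option linter.all false in
theorem Cfsg.Rz.Char_DadeExtA_0 : True := by
  have := @_root_.Cfsg.Agent.FT.XExt.mk.congr_simp.{0}
  have := @_root_.Cfsg.Agent.FT.XSp.mk.congr_simp.{0}
  have := @_root_.Cfsg.Agent.FT.ChOn.eq_def.{0}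
  have := @_root_.Cfsg.Agent.FT.ChOn.fun_cases
  trivial
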