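import Cfsg.Agent.Char.DadeExtA

/-! # Extending the faithful character of an extraspecial `2`-group: an operator of prime order -/

set_option autoImplicit false
set_option linter.unusedSectionVars false

namespace Cfsg.Agent.FT

open Subgroup
open scoped commutatorElement

universe u

variable {G : Type u} [Group G] [Finite G] {z : G} {E F K L S T : Subgroup G} {χ ψ : G → ℂ}

open Classical in
theorem exists_sign_hom (hz : orderOf z = 2) (hn : T ≤ 𝓝(zpowers z)) (hi : zpowers z ⊓ T = ⊥) :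
    ∃ μ : (zpowers z ⊔ T : Subgroup G) →* ℂˣ, ∀ x, (μ x : ℂ) = if (x : G) ∈ T then 1 else -1 := by
  have h2 : (T.subgroupOf (zpowers z ⊔ T)).index = 2 :=
    (IsSdprod.relIndex_right ⟨rfl, hn, hi⟩).trans (by rw [Nat.card_zpowers, hz])
  refine ⟨MonoidHom.mk' (fun x => if (x : G) ∈ T then 1 else -1) fun a b => ?_, fun x => ?_⟩
  · have := mul_mem_iff_of_index_two h2 (a := a) (b := b)
    simp only [mem_subgroupOf] at this
    by_cases ha : (a : G) ∈ T <;> by_cases hb : (b : G) ∈ T <;> simp_all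
  · simp only [MonoidHom.mk'_apply]
    split_ifs <;> simp

theorem XSp.notMem (hE : XSp z E) (hi : E ⊓ S = ⊥) : z ∉ S := fun h =>
  hE.ne_one (mem_bot.1 (hi.le ⟨hE.mem, h⟩))

theorem XSp.z_inf (hE : XSp z E) (hi : E ⊓ S = ⊥) : zpowers z ⊓ S = ⊥ :=
  le_bot_iff.1 ((inf_le_inf_right _ hE.z_le).trans hi.le)

theorem XSp.exists_ext_of_le (hE : XSp z E) (nE : S ≤ 𝓝(E)) (hi : E ⊓ S = ⊥)
    (h : E ≤ zpowers z) : ∃ χ, XExt z E S χ := by
  classical
  obtain ⟨μ, hμ⟩ := exists_sign_hom hE.ord (le_norm_of_le_cent (le_cent_symm (hE.z_le_cent nE)))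
    (hE.z_inf hi)
  obtain rfl := h.antisymm hE.z_le
  exact ⟨fun x => if x ∈ S then 1 else -1, chOn_of_eq (isCharacter_linear μ) fun x => (hμ x).symm,
    by simp [hE.ord], by simp [hE.notMem hi]⟩

theorem exists_generator_mod_cent {k : G} (hk : (orderOf k).Prime) (nk : S ≤ 𝓝(zpowers k)) :
    ∃ s ∈ S, S ≤ S ⊓ 𝓒[k] ⊔ zpowers s := by
  have := Fact.mk hk
  obtain ⟨φ, hφ⟩ := exists_eigen hk rfl S.subtype fun u => conj_mem_of_norm (nk u.2) (mem_zpowers k)
  obtain ⟨s, hs⟩ := isCyclic_quotient_iff_zpowers_sup.1 (isCyclic_of_injective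
    (QuotientGroup.kerLift φ) (QuotientGroup.kerLift_injective φ))
  refine ⟨s, s.2, ?_⟩
  have h1 := congrArg (map S.subtype) hs
  rw [Subgroup.map_sup, MonoidHom.map_zpowers, ← MonoidHom.range_eq_map, range_subtype, sup_comm]
    at h1
  refine h1.ge.trans (sup_le_sup_right ?_ _)
  rintro _ ⟨u, hu, rfl⟩
  have h2 := hφ u
  rw [show φ u = 1 from hu, Units.val_one, ZMod.val_one, pow_one] at h2
  exact ⟨u.2, mem_cent1.2 (mul_inv_eq_iff_eq_mul.1 h2)⟩

/-- If `χ(k) = ± 1`, then `χ` restricts irreducibly to a normal subgroup containing `k` and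
supplemented by the centralizer of `k`. -/
theorem isIrr_comp_of_apply_eq_sign {Γ M : Type*} [Group Γ] [Finite Γ] [Group M] [Finite M]
    (i : M →* Γ) [IsNormalEmb i] (χ : IrrCharacter Γ) {k : M} {ε : ℤ} (hε : ε = 1 ∨ ε = -1)
    (hk : χ (i k) = ε) (hΓ : ∀ g, ∃ t m, Commute t (i k) ∧ g = t * i m) :
    IsIrrCharacter M (χ.1 ∘ i) := by
  obtain ⟨φ, hφ⟩ := χ.exists_liesOver_below i
  have h1 := congrFun hφ.comp_eq_smul_sum_conjOrbit k
  have h2 : ∀ θ ∈ conjOrbit i φ, θ.1 k = φ k := fun θ hθ => by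
    obtain ⟨g, rfl⟩ := mem_conjOrbit.1 hθ
    obtain ⟨t, m, ht, rfl⟩ := hΓ g
    refine (conjAut_smul_apply_of_eq i φ (n := m⁻¹ * k * m⁻¹⁻¹) ?_).trans
      (φ.isCharacter.isClassFunction _ _)
    simp [mul_assoc, ← mul_assoc t, ht.eq]
  rw [Pi.smul_apply, Finset.sum_apply, Finset.sum_congr rfl h2, Finset.sum_const, card_conjOrbit,
    smul_eq_mul, nsmul_eq_mul, ← mul_assoc, ← Nat.cast_mul] at h1
  have h3 := hφ.charDegree_eq
  generalize ipNat (χ.1 ∘ i) φ.1 * (inertia i φ).index = m at h1 h3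
  have h0 : m ≠ 0 := fun e => χ.charDegree_pos.ne' (by rw [h3, e, zero_mul])
  have h4 : (m : ℤ) ∣ ε := int_dvd_of_isIntegral_div (Int.natCast_ne_zero.2 h0) (by
    rw [← hk, show χ (i k) = _ from h1, Int.cast_natCast,
      mul_div_cancel_left₀ _ (Nat.cast_ne_zero.2 h0)]
    exact φ.isIntegral k)
  have h5 : m = 1 := by
    rcases hε with rfl | rfl
    · exact_mod_cast Int.eq_one_of_dvd_one (Int.natCast_nonneg m) h4
    · exact_mod_cast Int.eq_one_of_dvd_one (Int.natCast_nonneg m) (dvd_neg.1 h4)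
  rw [hφ.comp_eq_of_charDegree_le χ.isCharacter (by rw [h3, h5, one_mul])]
  exact φ.2

/-- The case of a fixed-point-free operator of prime order. -/
theorem XSp.exists_ext_prime (hE : XSp z E) (hS : IsPGroup 2 S) (nE : S ≤ 𝓝(E)) (hi : E ⊓ S = ⊥)
    {k : G} (hk : (orderOf k).Prime) (hk2 : Odd (orderOf k)) (kE : k ∈ 𝓝(E))
    (nk : S ≤ 𝓝(zpowers k)) (hc : E ⊓ 𝓒[k] ≤ zpowers z) : ∃ χ, XExt z E S χ := by
  classical
  obtain ⟨s, hs, hsS⟩ := exists_generator_mod_cent hk nk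
  have hT : S ⊓ 𝓒[k] ⊴ S := by
    rw [← (le_cent_zpowers.1 le_rfl).antisymm (le_cent_zpowers.2 le_rfl)]; exact IsNormalOf.cent nk
  generalize hTe : S ⊓ 𝓒[k] = T at hsS hT
  have hkT : ∀ t ∈ T, t * k = k * t := fun t ht => mem_cent1.1 (hTe.ge ht).2
  have nT := hT.le.trans nE
  have hiT : E ⊓ T = ⊥ := le_bot_iff.1 ((inf_le_inf_left _ hT.le).trans hi.le)
  have nZ := le_norm_of_le_cent (le_cent_symm (hE.z_le_cent nT))
  obtain ⟨μ, hμ⟩ := exists_sign_hom hE.ord nZ (hE.z_inf hiT)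
  have hkz : z * k = k * z := (mul_inv_eq_iff_eq_mul.1 (hE.comm_of_norm kE)).symm
  have hN : E ⊔ T ⊴ E ⊔ T ⊔ zpowers k := ⟨le_sup_left, sup_le le_normalizer (zpowers_le.2
    (le_normalizer_sup (zpowers_le.2 kE) (le_norm_of_le_cent (zpowers_le.2 (mem_cent_sub.2 hkT)))
      (mem_zpowers k)))⟩
  have hΓ : E ⊔ T ⊔ zpowers k ≤ 𝓝(E) := sup_le (sup_le le_normalizer nT) (zpowers_le.2 kE)
  have hM : E ⊔ zpowers k ⊴ E ⊔ T ⊔ zpowers k := ⟨sup_le_sup_right le_sup_left _, sup_le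
    (sup_le (le_sup_left.trans le_normalizer) (le_normalizer_sup nT (hT.le.trans nk)))
    (le_sup_right.trans le_normalizer)⟩
  have hEM : E ⊴ E ⊔ zpowers k := ⟨le_sup_left, hM.le.trans hΓ⟩
  have := hN.normal
  have := hM.normal
  have := hEM.normal
  have hCN : zpowers z ⊔ T ≤ E ⊔ T := sup_le_sup_right hE.z_le _
  have hkΓ : k ∈ E ⊔ T ⊔ zpowers k := mem_sup_right (mem_zpowers k)
  have hx : (Nat.card (E ⊔ T : Subgroup G)).Coprime (orderOf (⟨k, hkΓ⟩ : (E ⊔ T ⊔ zpowers k :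
      Subgroup G))) := by
    rw [← orderOf_coe]
    exact IsPGroup.coprime_card_of_not_dvd (pgroup_sup' hE.pgroup (hS.to_le hT.le) nT)
      hk2.not_two_dvd_nat
  have hC : ∀ g, g ∈ (inclusion hCN).range ↔ Commute (inclusion hN.le g) ⟨k, hkΓ⟩ := fun g => by
    rw [inclusion_range, mem_subgroupOf, commute_iff_eq, Subtype.ext_iff]
    refine ⟨fun h => mem_cent1.1 ((sup_le (zpowers_le.2 (mem_cent1.2 hkz))
      fun t ht => mem_cent1.2 (hkT t ht)) h), fun h => ?_⟩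
    obtain ⟨e, he, t, ht, h1⟩ := (mem_sup_of_le_normalizer' nT).1 g.2
    have h2 : e * t ∈ 𝓒[k] := h1 ▸ mem_cent1.2 h
    exact h1 ▸ mul_mem_sup (hc ⟨he, (mul_mem_cancel_right (mem_cent1.2 (hkT t ht))).1 h2⟩) ht
  have htop := range_inclusion_sup hN.le hkΓ le_rfl
  obtain ⟨χ, χh, ε, h1, hdet, hε, h2⟩ := exists_glauberman_preimage (inclusion_injective hCN) htop
    hx hC (IrrCharacter.ofLinear μ)
  have hcop := hx.coprime_dvd_right (index_range_dvd_orderOf htop)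
  obtain ⟨X, hX⟩ := exists_fun_extend χh.1
  have hXc := chOn_of_eq χh.isCharacter hX
  have h3 : ∀ c ∈ zpowers z ⊔ T, X (c * k) = ε * if c ∈ T then 1 else -1 := fun c hc =>
    (hX ⟨c * k, mul_mem (hN.le (hCN hc)) hkΓ⟩).trans ((h2 ⟨c, hc⟩).trans (congrArg _ (hμ _)))
  have hk1 : X k = ε := by simpa using h3 1 (one_mem _)
  have hzΓ : z ∈ E ⊔ T ⊔ zpowers k := mem_sup_left (mem_sup_left hE.mem)
  have hneg : X z = -X 1 := by
    have := IsCharacter.apply_mul_of_mem_charCenter χh.isCharacter (χh.center_le_charCenter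
      (mem_center_iff.2 fun g => Subtype.ext (mul_inv_eq_iff_eq_mul.1
        (hE.comm_of_norm (hΓ g.2))) : (⟨z, hzΓ⟩ : (E ⊔ T ⊔ zpowers k : Subgroup G)) ∈ _)) ⟨k, hkΓ⟩
    simp only [← hX, coe_mul, OneMemClass.coe_one, h3 z (mem_sup_left (mem_zpowers z)),
      hE.notMem hiT, if_false, hk1] at this
    exact mul_right_cancel₀ (sign_cast_ne_zero hε) (by linear_combination -this)
  have h0 : X 1 ≠ 0 := (hX 1).trans_ne χh.apply_one_ne_zero
  have hirr := isIrr_comp_of_apply_eq_sign (inclusion hM.le) χh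
    (k := ⟨k, mem_sup_right (mem_zpowers k)⟩) hε ((hX ⟨k, hkΓ⟩).symm.trans hk1) fun g => by
      obtain ⟨t, ht, m, hm, e⟩ := (mem_sup_of_le_normalizer
        ((le_sup_right.trans le_sup_left).trans hM.norm)).1 (show (g : G) ∈ T ⊔ (E ⊔ zpowers k) by
          rw [← sup_assoc, sup_comm T]; exact g.2)
      exact ⟨⟨t, mem_sup_left (mem_sup_right ht)⟩, ⟨m, hm⟩, Subtype.ext (hkT t ht),
        Subtype.ext e.symm⟩
  have hdeg : 2 * X 1 ^ 2 = Nat.card E := by
    refine (hE.isIrr_iff (hXc.mono (le_sup_left.trans le_sup_left)) hneg h0).1 ?_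
    have := IrrCharacter.isIrr_comp_of_coprime (f := inclusion hEM.le) ⟨_, hirr⟩ (by
      have e : charDegree (χh.1 ∘ inclusion hM.le) = charDegree χ.1 := by
        rw [← h1]; simp only [charDegree, Function.comp_apply, map_one]
      rw [e]
      refine (hx.coprime_dvd_left χ.charDegree_dvd_card).coprime_dvd_right ?_
      rw [← orderOf_coe]
      exact (index_range_dvd_orderOf (range_inclusion_sup hEM.le (mem_sup_right (mem_zpowers k))
        le_rfl)).trans (orderOf_coe _).symm.dvd)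
    exact (congrArg (IsIrrCharacter _) (funext fun e => (hX _).symm)).mp this
  have hXE : XExt z E T X := ⟨hXc.mono le_sup_left, hdeg, hneg⟩
  refine hXE.up hE hT nE hs hsS fun g hg => ?_
  have nΓ : s⁻¹ ∈ 𝓝((E ⊔ T ⊔ zpowers k : Subgroup G)) :=
    le_normalizer_sup (le_normalizer_sup nE hT.norm) nk (inv_mem hs)
  have hY : ChOn (E ⊔ T ⊔ zpowers k) fun x => X (s * x * s⁻¹) := by
    simpa only [conj_eq_of_mem_norm nΓ, inv_inv] using hXc.conj s⁻¹
  have hYE : XExt z E T fun x => X (s * x * s⁻¹) := ⟨hY.mono le_sup_left, by simpa using hdeg,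
    by simpa [hE.comm_of_norm (nE hs)] using hneg⟩
  have hYN : IsIrrCharacter (E ⊔ T : Subgroup G) fun x => X (s * x * s⁻¹) :=
    IsCharacter.isIrr_of_comp hYE.char (inclusion le_sup_left) (hE.isIrr hYE)
  obtain ⟨m, hm⟩ := mem_powers_iff_mem_zpowers.2 (conj_mem_of_norm (nk hs) (mem_zpowers k))
  have hm' : k ^ m = s * k * s⁻¹ := hm
  have hmc : m.Coprime (orderOf (⟨k, hkΓ⟩ : (E ⊔ T ⊔ zpowers k : Subgroup G))) := by
    rw [← orderOf_coe]
    refine ((Nat.Prime.coprime_iff_not_dvd hk).2 fun hd => hk.one_lt.ne' ?_).symm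
    rw [orderOf_dvd_iff_pow_eq_one, hm', conj_eq_one_iff] at hd
    exact orderOf_eq_one_iff.2 hd
  have := comp_eq_of_glauberman_sign (ψh := ⟨_, IsCharacter.isIrr_of_comp hY (inclusion hN.le) hYN⟩)
    (h1 ▸ χ.2) hYN (inclusion_injective hCN) hx hC (sign_cast_ne_zero hε) (sign_cast_ne_zero hε) h2
    fun c => by
      have hc' : s * c * s⁻¹ ∈ zpowers z ⊔ T := conj_mem_of_norm (le_normalizer_sup
        (le_norm_of_le_cent (le_cent_symm (hE.z_le_cent nE))) hT.norm hs) c.2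
      have h4 := canonical_extension_apply_mul_pow hcop (h1 ▸ χ.2) hdet hx
        ((hC _).1 ⟨⟨_, hc'⟩, rfl⟩) hmc
      rw [← hX, ← hX] at h4
      have h5 : X (s * c * s⁻¹ * k ^ m) = X (s * c * s⁻¹ * k) := h4
      have h6 : s * c * s⁻¹ ∈ T ↔ (c : G) ∈ T := (mem_normalizer_iff.1 (hT.norm hs) c).symm
      rw [h3 _ hc', hm', h6, ← hμ] at h5
      exact (congrArg X (show s * (c * k) * s⁻¹ = _ by group)).trans h5
  exact (congrFun this ⟨g, hg⟩).symm.trans (hX _).symm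

end Cfsg.Agent.FT
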