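import Cfsg.Agent.Char.Burnside
import Cfsg.Agent.Grp.MinNormal

/-!
# Wielandt's three subgroups theorem and P. Hall's solvability criterion
-/

set_option autoImplicit false

namespace Cfsg

universe u

theorem normalCore_ne_bot_of_coprime_index {G : Type u} [Group G] [Finite G] {p : ℕ}
    [hp : Fact p.Prime] {H K : Subgroup G} (hHK : H.index.Coprime K.index) (hK : ¬ p ∣ K.index)
    (hH : pCore p H ≠ ⊥) : K.normalCore ≠ ⊥ := by
  have hM : IsPGroup p ((pCore p H).map H.subtype) := (isPGroup_pCore p H).map _
  obtain ⟨x, hx⟩ := hM.nonempty_fixed_point_of_prime_not_dvd_card (G ⧸ K) hK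
  obtain ⟨x, rfl⟩ := QuotientGroup.mk_surjective x
  obtain ⟨m, hm, hm1⟩ := (Subgroup.bot_or_exists_ne_one _).resolve_left hH
  intro h
  refine hm1 (Subtype.ext (Subgroup.mem_bot.1 (h ▸ ?_)))
  rw [Subgroup.normalCore_eq_ker, MonoidHom.mem_ker]
  ext y
  obtain ⟨y, rfl⟩ := QuotientGroup.mk_surjective y
  obtain ⟨a, ha, k, hk, rfl⟩ := exists_mul_eq_of_coprime_index hHK x
  obtain ⟨b, hb, l, hl, rfl⟩ := exists_mul_eq_of_coprime_index hHK y
  rw [QuotientGroup.mk_mul_of_mem _ hk] at hx
  rw [QuotientGroup.mk_mul_of_mem _ hl]
  have h1 := hx ⟨_, _, (inferInstance : (pCore p H).Normal).conj_mem m hm ⟨a * b⁻¹,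
    H.mul_mem ha (H.inv_mem hb)⟩, rfl⟩
  change ((a * b⁻¹ * m * (a * b⁻¹)⁻¹ * a : G) : G ⧸ K) = a at h1
  change ((m * b : G) : G ⧸ K) = b
  rw [QuotientGroup.eq] at h1 ⊢
  simpa [mul_assoc] using h1

/-- Wielandt: a group with three solvable subgroups of pairwise coprime indices is solvable. -/
theorem isSolvable_of_three_coprime_index {G : Type u} [Group G] [Finite G] (H K L : Subgroup G)
    [Group.IsSolvable H] [Group.IsSolvable K] [Group.IsSolvable L]
    (hHK : H.index.Coprime K.index) (hHL : H.index.Coprime L.index)
    (hKL : K.index.Coprime L.index) : Group.IsSolvable G := by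
  induction hn : Nat.card G using Nat.strong_induction_on generalizing G with
  | _ n ih =>
    have key : ∀ C : Subgroup G, C.Normal → C ≠ ⊥ → Group.IsSolvable C → Group.IsSolvable G := by
      intro C hC hC1 hCs
      have hd := fun U : Subgroup G => U.index_map_dvd (QuotientGroup.mk'_surjective C)
      have := isSolvable_map (H := H) (QuotientGroup.mk' C)
      have := isSolvable_map (H := K) (QuotientGroup.mk' C)
      have := isSolvable_map (H := L) (QuotientGroup.mk' C)
      have : Group.IsSolvable (G ⧸ C) := ih _ (by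
          rw [← hn, ← C.index_mul_card]
          exact lt_mul_of_one_lt_right Nat.card_pos ((Subgroup.one_lt_card_iff_ne_bot C).2 hC1))
        (H.map (QuotientGroup.mk' C)) (K.map (QuotientGroup.mk' C)) (L.map (QuotientGroup.mk' C))
        (Nat.Coprime.coprime_dvd_left (hd H) (Nat.Coprime.coprime_dvd_right (hd K) hHK))
        (Nat.Coprime.coprime_dvd_left (hd H) (Nat.Coprime.coprime_dvd_right (hd L) hHL))
        (Nat.Coprime.coprime_dvd_left (hd K) (Nat.Coprime.coprime_dvd_right (hd L) hKL)) rfl
      exact isSolvable_of_normal_of_quotient C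
    by_cases hH : H = ⊥
    · rw [hH, Subgroup.index_bot] at hHK
      have h1 : K = ⊤ := Subgroup.index_eq_one.1
        (Nat.eq_one_of_dvd_coprimes hHK K.index_dvd_card dvd_rfl)
      subst h1
      exact isSolvable_of_equiv Subgroup.topEquiv
    have : Nontrivial H := (Subgroup.nontrivial_iff_ne_bot H).2 hH
    have h1 := fittingSubgroup_ne_bot H
    rw [Ne, fittingSubgroup_eq_bot_iff] at h1
    push Not at h1
    obtain ⟨p, hp, h1⟩ := h1
    by_cases hK : p ∣ K.index
    · have hL : ¬ p ∣ L.index := fun hL =>
        hp.out.one_lt.ne' (Nat.eq_one_of_dvd_coprimes hKL hK hL)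
      exact key _ inferInstance (normalCore_ne_bot_of_coprime_index hHL hL h1)
        (isSolvable_of_le L.normalCore_le)
    · exact key _ inferInstance (normalCore_ne_bot_of_coprime_index hHK hK h1)
        (isSolvable_of_le K.normalCore_le)

/-- P. Hall: a group with a `p`-complement for every prime `p` is solvable. -/
theorem isSolvable_of_forall_exists_pComplement {G : Type u} [Group G] [Finite G]
    (h : ∀ p : ℕ, p.Prime → ∃ H : Subgroup G, H.index = p ^ (Nat.card G).factorization p) :
    Group.IsSolvable G := by
  induction hn : Nat.card G using Nat.strong_induction_on generalizing G with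
  | _ n ih =>
    by_cases h2 : (Nat.card G).primeFactors.card ≤ 2
    · exact isSolvable_of_primeFactors_card_le_two h2
    obtain ⟨p, hp, q, hq, r, hr, hpq, hpr, hqr⟩ := Finset.two_lt_card.1 (not_le.1 h2)
    choose H hH using h
    have hcop : ∀ a b (ha : a.Prime) (hb : b.Prime), a ≠ b →
        (H a ha).index.Coprime (H b hb).index := fun a b ha hb hab => by
      rw [hH, hH]
      exact Nat.Coprime.pow _ _ ((Nat.coprime_primes ha hb).2 hab)
    have key : ∀ a (ha : a ∈ (Nat.card G).primeFactors),
        Group.IsSolvable (H a (Nat.prime_of_mem_primeFactors ha)) := by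
      intro a ha
      have ha' := Nat.prime_of_mem_primeFactors ha
      have h1 := (H a ha').card_mul_index
      have h0 : Nat.card (H a ha') ≠ 0 := Nat.card_pos.ne'
      have h3 : ∀ b, (Nat.card G).factorization b = (Nat.card (H a ha')).factorization b +
          (H a ha').index.factorization b := fun b => by
        rw [← h1, Nat.factorization_mul h0 Subgroup.index_ne_zero_of_finite]; rfl
      refine ih _ ?_ (fun b hb => ?_) rfl
      · refine lt_of_lt_of_eq (lt_mul_of_one_lt_right Nat.card_pos ?_) (h1.trans hn)
        rw [hH]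
        exact Nat.one_lt_pow (ha'.factorization_pos_of_dvd Nat.card_pos.ne'
          (Nat.dvd_of_mem_primeFactors ha)).ne' ha'.one_lt
      · by_cases hab : b = a
        · subst hab
          refine ⟨⊤, ?_⟩
          have h4 := h3 b
          rw [hH, hb.factorization_pow, Finsupp.single_eq_same] at h4
          rw [Subgroup.index_top, show (Nat.card (H b ha')).factorization b = 0 by omega, pow_zero]
        · refine ⟨(H b hb).subgroupOf (H a ha'), ?_⟩
          have h4 := h3 b
          rw [hH, ha'.factorization_pow, Finsupp.single_eq_of_ne hab, add_zero] at h4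
          rw [← h4, ← hH b hb]
          exact relIndex_eq_index_of_coprime (hcop b a hb ha' hab)
    have := key p hp
    have := key q hq
    have := key r hr
    exact isSolvable_of_three_coprime_index _ _ _
      (hcop p q (Nat.prime_of_mem_primeFactors hp) (Nat.prime_of_mem_primeFactors hq) hpq)
      (hcop p r (Nat.prime_of_mem_primeFactors hp) (Nat.prime_of_mem_primeFactors hr) hpr)
      (hcop q r (Nat.prime_of_mem_primeFactors hq) (Nat.prime_of_mem_primeFactors hr) hqr)

end Cfsg
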