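import Cfsg.Agent.Char.InvAct
import Cfsg.Agent.Char.CoverObs

/-!
# The step of the Isaacs correspondence for groups of odd order (Isaacs 13.25)
-/

set_option autoImplicit false
set_option linter.unusedSectionVars false

namespace Cfsg

open scoped commutatorElement

universe u v w

variable {G : Type u} [Group G] [Finite G] {N : Type v} [Group N] [Finite N]
  {S : Type w} [Group S] {p : ℕ}

/-- The subgroup `[G, S]`. -/
def autComm (φ : S →* MulAut G) : Subgroup G := Subgroup.closure {x | ∃ s g, g⁻¹ * φ s g = x}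

theorem inv_mul_mem_autComm (φ : S →* MulAut G) (s : S) (g : G) : g⁻¹ * φ s g ∈ autComm φ :=
  Subgroup.subset_closure ⟨s, g, rfl⟩

theorem autComm_le {φ : S →* MulAut G} {U : Subgroup G} :
    autComm φ ≤ U ↔ ∀ s g, g⁻¹ * φ s g ∈ U :=
  ⟨fun h s g => h (inv_mul_mem_autComm φ s g), fun h => (Subgroup.closure_le _).2 (by
    rintro _ ⟨s, g, rfl⟩; exact h s g)⟩

instance autComm_normal (φ : S →* MulAut G) : (autComm φ).Normal := ⟨fun x hx h =>
  (autComm_le (U := (autComm φ).comap (MulAut.conj h).toMonoidHom)).2 (fun s g => by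
    have := mul_mem (inv_mul_mem_autComm φ s (g * h⁻¹)) (inv_mem (inv_mul_mem_autComm φ s h⁻¹))
    simpa [mul_assoc] using this) hx⟩

theorem apply_mem_autComm (φ : S →* MulAut G) (s : S) (g : G) (hg : g ∈ autComm φ) :
    φ s g ∈ autComm φ :=
  apply_mem_of_forall_inv_mul_mem le_rfl (inv_mul_mem_autComm φ s) hg

theorem exists_fixed_mul_autComm (φ : S →* MulAut G) (hcop : (Nat.card G).Coprime (Nat.card S))
    (hs : Group.IsSolvable G ∨ Group.IsSolvable S) (g : G) :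
    ∃ c, (∀ s, φ s c = c) ∧ ∃ m ∈ autComm φ, c * m = g := by
  obtain ⟨u, hu, h⟩ := exists_mul_fixed_of_coprime φ (apply_mem_autComm φ)
    (hcop.coprime_dvd_left (Subgroup.card_subgroup_dvd_card _))
    (hs.elim (fun _ => Or.inl inferInstance) Or.inr) fun s => inv_mul_mem_autComm φ s g
  exact ⟨_, h, _, inv_mem hu, mul_inv_cancel_right _ _⟩

theorem autComm_le_of_coprime {φ : S →* MulAut G} (hcop : (Nat.card G).Coprime (Nat.card S))
    (hs : Group.IsSolvable G ∨ Group.IsSolvable S) {U : Subgroup G}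
    (h : ∀ s, ∀ m ∈ autComm φ, m⁻¹ * φ s m ∈ U) : autComm φ ≤ U := autComm_le.2 fun s g => by
  obtain ⟨c, hc, m, hm, rfl⟩ := exists_fixed_mul_autComm φ hcop hs g
  simpa [hc, mul_assoc] using h s m hm

theorem prod_comp_apply_invariant [Fintype S] {D A : Type*} [Group D] [CommGroup A]
    (ρ : S → D →* D) (hρ : ∀ s t d, ρ (s * t) d = ρ s (ρ t d)) (ν : D →* A) (t : S) (d : D) :
    (∏ s, ν.comp (ρ s)) (ρ t d) = (∏ s, ν.comp (ρ s)) d := by
  simp only [MonoidHom.finsetProd_apply]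
  exact Fintype.prod_equiv (Equiv.mulRight t) _ _ fun s => by simp [hρ]

/-- If `[G, S]` is abelian modulo a central subgroup `L` of fixed points, `G` has an involutory
automorphism which centralises `C_G(S)` and inverts `[G, S]` modulo `L`. -/
theorem exists_inverting_mulAut [Finite S] (φ : S →* MulAut G)
    (hcop : (Nat.card G).Coprime (Nat.card S)) (hs : Group.IsSolvable G ∨ Group.IsSolvable S)
    {L : Subgroup G} (hL : L ≤ Subgroup.center G) (hLS : ∀ s, ∀ l ∈ L, φ s l = l)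
    (hab : ∀ a ∈ autComm φ, ∀ b ∈ autComm φ, ⁅a, b⁆ ∈ L) :
    ∃ τ : MulAut G, τ ^ 2 = 1 ∧ (∀ c, (∀ s, φ s c = c) → τ c = c) ∧ (∀ s, Commute (φ s) τ) ∧
      ∀ a ∈ autComm φ, τ a ∈ autComm φ ∧ a * τ a ∈ L := by
  haveI := Fintype.ofFinite S
  haveI := normal_of_le_center hL
  have hc : ∀ l ∈ L, ∀ g, g * l = l * g := fun l hl => Subgroup.mem_center_iff.1 (hL hl)
  let D : Subgroup (G × G) :=
    { carrier := {x | x.1 ∈ autComm φ ∧ x.1 * x.2 ∈ L}
      one_mem' := ⟨one_mem _, by simp⟩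
      mul_mem' := fun {a b} ha hb => ⟨mul_mem ha.1 hb.1, by
        have := mul_mem (mul_mem (hab _ ha.1 _ hb.1) hb.2) ha.2
        rw [commutatorElement_def, mul_assoc _ _ (b.1 * b.2), inv_mul_cancel_left, mul_assoc,
          hc _ ha.2, mul_assoc, mul_assoc, mul_assoc, inv_mul_cancel_left] at this
        simpa [mul_assoc] using this⟩
      inv_mem' := fun {a} ha => ⟨inv_mem ha.1, by
        simpa [mul_assoc] using ‹L.Normal›.conj_mem' _ (inv_mem ha.2) a.2⁻¹⟩ }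
  let δ : G →* G × G := (MonoidHom.id G).prod (MonoidHom.id G)
  have hD : commutator D ≤ δ.range.subgroupOf D := by
    rw [commutator_def, Subgroup.commutator_le]
    rintro ⟨⟨a, b⟩, ha, hb⟩ - ⟨⟨a', b'⟩, ha', hb'⟩ -
    refine ⟨⁅a, a'⁆, Prod.ext rfl ?_⟩
    obtain ⟨l, hl, rfl⟩ : ∃ l ∈ L, b = a⁻¹ * l := ⟨_, hb, (inv_mul_cancel_left _ _).symm⟩
    obtain ⟨l', hl', rfl⟩ : ∃ l ∈ L, b' = a'⁻¹ * l := ⟨_, hb', (inv_mul_cancel_left _ _).symm⟩
    calc ⁅a, a'⁆ = (a' * a)⁻¹ * (⁅a, a'⁆ * (a' * a)) := by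
          rw [← hc _ (hab _ ha _ ha'), inv_mul_cancel_left]
      _ = a⁻¹ * (a'⁻¹ * l) * (l⁻¹ * a * l') * (l'⁻¹ * a') := by
          rw [commutatorElement_def]; group
      _ = a⁻¹ * l * (a'⁻¹ * l') * (a⁻¹ * l)⁻¹ * (a'⁻¹ * l')⁻¹ := by
          rw [hc l hl, hc l' hl' (l⁻¹ * a)]; group
  let Δ := Subgroup.closure {x : G × G | ∃ s, ∃ m ∈ autComm φ, (m⁻¹ * φ s m, m * (φ s m)⁻¹) = x}
  let ρ : S → D →* D := fun s =>
    (((φ s).toMonoidHom.prodMap (φ s).toMonoidHom).comp D.subtype).codRestrict D fun d =>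
      ⟨apply_mem_autComm φ s _ d.2.1, by
        have := hLS s _ d.2.2
        rw [map_mul] at this
        exact this ▸ d.2.2⟩
  have hΔ : ∀ ν : D →* ℂˣ, Δ ≤ (∏ s, ν.comp (ρ s)).ker.map D.subtype := fun ν =>
    (Subgroup.closure_le _).2 (by
      rintro _ ⟨s, m, hm, rfl⟩
      refine ⟨(⟨(m, m⁻¹), hm, by simp⟩ : D)⁻¹ * ρ s ⟨(m, m⁻¹), hm, by simp⟩, ?_, by simp [ρ]⟩
      rw [SetLike.mem_coe, MonoidHom.mem_ker, map_mul,
        prod_comp_apply_invariant ρ (fun s t d => Subtype.ext (by simp [ρ, Prod.map_map])), map_inv,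
        inv_mul_cancel])
  have hΔD : Δ ≤ D := (hΔ 1).trans (Subgroup.map_subtype_le _)
  have hfix : ∀ d ∈ Δ, (∀ s, φ s d.1 = d.1) → d.1 = d.2 := fun d hd h => by
    by_contra hne
    obtain ⟨ν, -, h2⟩ := exists_linear_ne_one hD (g := ⟨d, hΔD hd⟩) (by
      rintro ⟨x, rfl⟩; exact hne rfl)
    obtain ⟨d, h3, rfl⟩ := hΔ ν hd
    have h4 : ∀ s, ρ s d = d := fun s => Subtype.ext (Prod.ext (h s) (by
      have := hLS s _ d.2.2
      rw [map_mul] at this
      exact mul_left_cancel ((congrArg (· * _) (h s)).symm.trans this)))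
    refine h2 ((pow_eq_one_iff_of_coprime (show (Nat.card D).Coprime (Nat.card S) from
      (Nat.Coprime.mul_left hcop hcop).coprime_dvd_left (Nat.card_prod G G ▸
        Subgroup.card_subgroup_dvd_card D))).1 ⟨by rw [← map_pow, pow_card_eq_one', map_one], ?_⟩)
    simpa [MonoidHom.finsetProd_apply, h4] using MonoidHom.mem_ker.1 h3
  have hn : (autFixed φ ⊤).map δ ≤ Subgroup.normalizer (Δ : Set (G × G)) := by
    rintro _ ⟨c, hc, rfl⟩
    refine mem_normalizer_of_forall_conj_mem fun x hx => ((Subgroup.closure_le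
      (Δ.comap (MulAut.conj (δ c)).toMonoidHom)).2 ?_ : Δ ≤ _) hx
    rintro _ ⟨s, m, hm, rfl⟩
    exact Subgroup.subset_closure ⟨s, _, (autComm_normal φ).conj_mem m hm c, by
      simp [δ, hc s trivial, mul_assoc]⟩
  have h1 : autComm φ ≤ Δ.map (MonoidHom.fst G G) := autComm_le_of_coprime hcop hs fun s m hm =>
    ⟨_, Subgroup.subset_closure ⟨s, m, hm, rfl⟩, rfl⟩
  obtain ⟨τ, hτ⟩ := Subgroup.exists_eq_graph (G := (autFixed φ ⊤).map δ ⊔ Δ) ⟨by
    refine (injective_iff_map_eq_one ((MonoidHom.fst G G).comp (Subgroup.subtype _))).2 ?_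
    rintro ⟨x, hx⟩ h
    obtain ⟨_, ⟨c, hc, rfl⟩, d, hd, rfl⟩ := (mem_sup_of_le_normalizer hn).1 hx
    have h2 : c * d.1 = 1 := h
    refine Subtype.ext (Prod.ext h (?_ : c * d.2 = 1))
    rwa [← hfix d hd fun s => by rw [eq_inv_of_mul_eq_one_right h2, map_inv, hc s trivial]],
    fun g => by
    obtain ⟨c, hc, m, hm, rfl⟩ := exists_fixed_mul_autComm φ hcop hs g
    obtain ⟨d, hd, rfl⟩ := h1 hm
    exact ⟨⟨_, Subgroup.mul_mem_sup ⟨c, fun s _ => hc s, rfl⟩ hd⟩, rfl⟩⟩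
  have h2 : ∀ c, (∀ s, φ s c = c) → τ c = c := fun c hc =>
    MonoidHom.mem_graph.1 (hτ ▸ Subgroup.mem_sup_left ⟨c, fun s _ => hc s, rfl⟩ : δ c ∈ τ.graph)
  have h3 : ∀ d ∈ Δ, τ d.1 = d.2 := fun d hd =>
    MonoidHom.mem_graph.1 (hτ ▸ Subgroup.mem_sup_right hd : d ∈ τ.graph)
  have h4 : ∀ s, ∀ m ∈ autComm φ, τ (m⁻¹ * φ s m) = m * (φ s m)⁻¹ := fun s m hm =>
    h3 _ (Subgroup.subset_closure ⟨s, m, hm, rfl⟩)
  have ext : ∀ a b : G →* G, (∀ c, (∀ s, φ s c = c) → a c = b c) →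
      (∀ s, ∀ m ∈ autComm φ, a (m⁻¹ * φ s m) = b (m⁻¹ * φ s m)) → ∀ g, a g = b g :=
    fun a b e1 e2 g => by
      obtain ⟨c, hc, m, hm, rfl⟩ := exists_fixed_mul_autComm φ hcop hs g
      rw [map_mul, map_mul, e1 c hc, autComm_le_of_coprime hcop hs (U := a.eqLocus b) e2 hm]
  have h5 := ext (τ.comp τ) (MonoidHom.id G) (fun c hc => by simp [h2 c hc]) fun s m hm => by
    have := h4 s _ (inv_mem hm)
    rw [inv_inv, map_inv, inv_inv] at this
    rw [MonoidHom.comp_apply, h4 s m hm, this, MonoidHom.id_apply]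
  refine ⟨τ.toMulEquiv τ (MonoidHom.ext h5) (MonoidHom.ext h5), MulEquiv.ext h5, h2,
    fun t => MulEquiv.ext (ext ((φ t).toMonoidHom.comp τ) (τ.comp (φ t).toMonoidHom)
      (fun c hc => by simp [h2 c hc, hc]) fun s m hm => ?_), fun a ha => ⟨?_, ?_⟩⟩
  · have := h4 (t * s * t⁻¹) _ (apply_mem_autComm φ t m hm)
    rw [MonoidHom.comp_apply, h4 s m hm]
    simpa using this.symm
  · exact autComm_le_of_coprime hcop hs (U := (autComm φ).comap τ) (fun s m hm => by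
      rw [Subgroup.mem_comap, h4 s m hm]
      exact mul_mem hm (inv_mem (apply_mem_autComm φ s m hm))) ha
  · obtain ⟨d, hd, rfl⟩ := h1 ha
    exact (congrArg (d.1 * · ∈ L) (h3 d hd)).mpr (hΔD hd).2

theorem forall_zpowers_smul_eq_iff {A X : Type*} [Group A] [MulAction A X] {a : A} {x : X} :
    (∀ t : Subgroup.zpowers a, t.1 • x = x) ↔ a • x = x :=
  ⟨fun h => h ⟨a, Subgroup.mem_zpowers a⟩, fun h t => MulAction.mem_stabilizer_iff.1
    ((Subgroup.zpowers_le (H := MulAction.stabilizer A x)).2 h t.2)⟩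

theorem mem_of_sq_mem_of_odd (hodd : Odd (Nat.card G)) {L : Subgroup G} {a : G} (h : a * a ∈ L) :
    a ∈ L := by
  obtain ⟨k, hk⟩ := hodd
  have := L.pow_mem h (k + 1)
  rwa [← sq, ← pow_mul, mul_add, mul_one, ← one_add_one_eq_two, ← add_assoc, one_add_one_eq_two,
    ← hk, pow_succ, pow_card_eq_one', one_mul] at this

/-- The Isaacs correspondence when `[G, S]` is abelian modulo a central group of fixed points. -/
theorem isGlaub_two_of_central [Finite S] {C : Type*} [Group C] [Finite C] (φ : S →* MulAut G)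
    (hcop : (Nat.card G).Coprime (Nat.card S)) (hs : Group.IsSolvable G ∨ Group.IsSolvable S)
    (hodd : Odd (Nat.card G)) {L : Subgroup G} (hL : L ≤ Subgroup.center G)
    (hLS : ∀ s, ∀ l ∈ L, φ s l = l) (hab : ∀ a ∈ autComm φ, ∀ b ∈ autComm φ, ⁅a, b⁆ ∈ L)
    {j : C →* G} (hj : Function.Injective j) (hC : ∀ g, g ∈ j.range ↔ ∀ s, φ s g = g) :
    IsGlaub 2 (fun χ => ∀ s, φ s • χ = χ) j := by
  obtain ⟨τ, h1, h2, h3, h4⟩ := exists_inverting_mulAut φ hcop hs hL hLS hab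
  haveI := normal_of_le_center hL
  have h := isGlaub_aut Nat.prime_two hodd.not_two_dvd_nat (σ := τ) (k := 1) h1 hj fun g => by
    rw [hC]
    refine ⟨h2 g, fun e s => ?_⟩
    obtain ⟨c, hc, m, hm, rfl⟩ := exists_fixed_mul_autComm φ hcop hs g
    rw [map_mul, h2 c hc, mul_right_inj] at e
    rw [map_mul, hc, hLS s m (mem_of_sq_mem_of_odd hodd (by simpa [e] using (h4 m hm).2))]
  refine h.congr fun χ => ⟨fun e s => ?_, fun e => ?_⟩
  · obtain ⟨β, hβ⟩ := h.exists_rel Nat.prime_two e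
    exact (h.smul_eq_iff (τ := 1) (fun c => ((hC _).1 ⟨c, rfl⟩ s).symm) e
      (by rw [← mul_smul, ← (h3 s).eq, mul_smul, e]) hβ).2 (one_smul _ _)
  set M := autComm φ
  have hM : (M.subtype.range.index).Coprime (Nat.card S) :=
    hcop.coprime_dvd_left (Subgroup.index_dvd_card _)
  let φM := autRestrict φ M (apply_mem_autComm φ)
  obtain ⟨ξ, h5, h6⟩ := exists_invariant_liesOver_below (f := M.subtype) (ψ := φM)
    (fun _ _ => rfl) hM (hs.symm.imp_right fun h => by haveI := h; infer_instance) e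
  have hZ : ∀ t : Subgroup.zpowers τ, t.1 = 1 ∨ t.1 = τ := by
    rintro ⟨_, k, rfl⟩
    rcases Int.even_or_odd' k with ⟨l, rfl | rfl⟩ <;>
      simp [zpow_add, zpow_mul, zpow_ofNat, h1]
  let τM := autRestrict (Subgroup.zpowers τ).subtype M fun t g hg => by
    rcases hZ t with e | e <;> simp [e, hg, (h4 g hg).1]
  let t : Subgroup.zpowers τ := ⟨τ, Subgroup.mem_zpowers τ⟩
  obtain ⟨lam, h7⟩ := ξ.exists_liesOver_below (L.subgroupOf M).subtype
  have h8 : ξ = τM t • ξ := h7.eq_of_forall_smul_eq (φ := φM)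
    (fun s n => ⟨n, Subtype.ext (hLS s _ n.2).symm⟩)
    (hcop.coprime_dvd_left ((Subgroup.index_dvd_card _).trans (Subgroup.card_subgroup_dvd_card _)))
    (by
      rw [commutator_def, Subgroup.commutator_le, Subgroup.range_subtype]
      exact fun a _ b _ => hab a a.2 b b.2)
    (fun μ _ e2 => MonoidHom.ext fun a => by
      obtain ⟨b, hb, e3⟩ := autComm_le_of_coprime hcop hs (U := μ.ker.map M.subtype)
        (fun s m hm => ⟨(⟨m, hm⟩ : M)⁻¹ * φM s ⟨m, hm⟩, by simp [e2], rfl⟩) a.2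
      exact (Subtype.ext e3 : b = a) ▸ hb)
    (by
      have := (liesOver_smul_smul_iff (f := (L.subgroupOf M).subtype) (σ := τM t) (τ := 1)
        (fun n => Subtype.ext (h2 _ fun s => hLS s _ n.2).symm) ξ lam).2 h7
      rwa [one_smul] at this) h6 fun s => by
      rw [← mul_smul, show φM s * τM t = τM t * φM s from
        MulEquiv.ext fun a => Subtype.ext (DFunLike.congr_fun (h3 s).eq a.1), mul_smul, h6]
  refine h5.smul_eq_of_inv_mul_mem (φ := (Subgroup.zpowers τ).subtype) (ψ := τM) (fun _ _ => rfl)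
    ((Nat.coprime_two_right.2 hodd).coprime_dvd_left (Subgroup.index_dvd_card _)
      |>.coprime_dvd_right (Nat.card_zpowers τ ▸ orderOf_dvd_of_pow_eq_one h1)) (fun a g => ?_)
    (fun a => ?_) t
  · obtain ⟨c, hc, m, hm, rfl⟩ := exists_fixed_mul_autComm φ hcop hs g
    rcases hZ a with e | e
    · simp [e]
    · simpa [e, h2 c hc, mul_assoc] using M.mul_mem (M.inv_mem hm) (h4 m hm).1
  · rcases hZ a with e | e
    · rw [show a = 1 from Subtype.ext e, map_one, one_smul]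
    · rw [show a = t from Subtype.ext e, ← h8]

/-- The Isaacs correspondence over an invariant character of `N`. -/
theorem odd_correspondence_of_inertia_eq_top [Finite S] {H : Type*} [Group H] [Finite H]
    {f : N →* G} [hf : IsNormalEmb f] {φ : S →* MulAut G} {ψ : S →* MulAut N}
    (hc : ∀ s n, f (ψ s n) = φ s (f n)) (hcop : (Nat.card G).Coprime (Nat.card S))
    (hs : Group.IsSolvable G ∨ Group.IsSolvable S) (hodd : Odd (Nat.card G))
    (hab : ∀ a ∈ autComm φ, ∀ b ∈ autComm φ, ⁅a, b⁆ ∈ f.range) {j : H →* G}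
    (hj : Function.Injective j) (hH : ∀ g, g ∈ j.range ↔ ∀ s, g⁻¹ * φ s g ∈ f.range)
    {a : N →* H} (ha : ∀ n, j (a n) = f n) {θ : IrrCharacter N} (hT : inertia f θ = ⊤)
    (hθ : ∀ s, ψ s • θ = θ) :
    (∀ χ : IrrCharacter G, LiesOver f χ.1 θ.1 → (∀ s, φ s • χ = χ) →
      ∃! ξ : IrrCharacter H, ¬ 2 ∣ ipNat (χ.1 ∘ j) ξ.1) ∧
    ∀ ξ : IrrCharacter H, LiesOver a ξ.1 θ.1 →
      ∃! χ : IrrCharacter G, (∀ s, φ s • χ = χ) ∧ ¬ 2 ∣ ipNat (χ.1 ∘ j) ξ.1 := by
  obtain ⟨d, Φ, h1, h2⟩ := exists_charCover_action hc hT hθ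
  haveI := IsNormalEmb.of_factor hj ha
  let e := d.restrict hj ha
  have hQ : (Nat.card d.Q).Coprime (Nat.card S) :=
    (hcop.pow_left 2).coprime_dvd_left d.card_Q_dvd
  have hZ : ∀ y, d.q y ∈ d.zEmb.range ↔ d.π y ∈ f.range := fun y => by
    rw [← d.toQuot_ker, MonoidHom.mem_ker, d.toQuot_q, QuotientGroup.eq_one_iff]
  haveI := Group.isSolvable_of_comm (G := d.π.ker) fun a b =>
    Subtype.ext (Subgroup.mem_center_iff.1 (d.ker_le_center b.2) a)
  have hfix : ∀ s, ∀ z ∈ d.zEmb.range, Φ s z = z := by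
    rintro s _ ⟨z, rfl⟩; exact h1 s z
  have h := isGlaub_two_of_central Φ hQ (hs.imp_left fun h => by
      haveI := h
      exact Group.isSolvable_of_ker_le_range d.zEmb d.toQuot d.toQuot_ker.le)
    ((hodd.pow (n := 2)).of_dvd_nat d.card_Q_dvd) d.zEmb_range_le_center hfix (fun x hx y hy => by
      have : autComm Φ ≤ ((autComm φ).comap d.π).map d.q := autComm_le.2 fun s y => by
        obtain ⟨y, rfl⟩ := d.q_surjective y
        obtain ⟨y', e1, e2, -⟩ := h2 s y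
        exact ⟨y⁻¹ * y', by simpa [e2] using inv_mul_mem_autComm φ s _,
          by rw [e1, map_mul, map_inv]⟩
      obtain ⟨x, hx', rfl⟩ := this hx
      obtain ⟨y, hy', rfl⟩ := this hy
      rw [← map_commutatorElement, hZ, map_commutatorElement]
      exact hab _ hx' _ hy') (d.restrictQ_injective hj ha) fun y => by
      obtain ⟨y, rfl⟩ := d.q_surjective y
      have e1 : (∀ s, (d.q y)⁻¹ * Φ s (d.q y) ∈ d.zEmb.range) ↔ d.π y ∈ j.range := by
        rw [hH]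
        refine forall_congr' fun s => ?_
        obtain ⟨y', e1, e2, -⟩ := h2 s y
        rw [e1, ← e2, ← map_inv, ← map_mul, hZ, map_mul, map_inv]
      rw [d.restrictQ_range, ← Subgroup.mem_comap, Subgroup.comap_map_eq, d.q_ker,
        sup_eq_left.2 (d.ι_range_le_comap ha), Subgroup.mem_comap, ← e1]
      refine ⟨fun e2 s => ?_, fun e2 s => by rw [e2, inv_mul_cancel]; exact one_mem _⟩
      obtain ⟨u, hu, e3⟩ := exists_mul_fixed_of_coprime Φ (fun s z hz => (hfix s z hz).symm ▸ hz)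
        (hQ.coprime_dvd_left (Subgroup.card_subgroup_dvd_card _))
        (Or.inl (Group.isSolvable_of_surjective d.zEmb.rangeRestrict_surjective)) e2
      exact mul_right_cancel (by rw [← e3 s, map_mul, hfix s u hu])
  have h3 : ∀ {χ : IrrCharacter G} {β : IrrCharacter d.Q} {ξ : IrrCharacter H}
      {γ : IrrCharacter e.Q}, d.Rel χ.1 β.1 → e.Rel ξ.1 γ.1 →
      (¬ 2 ∣ ipNat (χ.1 ∘ j) ξ.1 ↔ ¬ 2 ∣ ipNat (β.1 ∘ d.restrictQ hj ha) γ.1) := fun r1 r2 =>
    (congrArg (fun z : ℂ => ¬ 2 ∣ ⌊z.re⌋₊) ((r1.restrict hj ha).ip_eq r2)).to_iff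
  have h4 : ∀ {χ : IrrCharacter G} {ξ : IrrCharacter H}, ¬ 2 ∣ ipNat (χ.1 ∘ j) ξ.1 →
      LiesOver j χ.1 ξ.1 := fun {χ ξ} h => (liesOver_iff_ipNat_pos χ.isCharacter ξ.isCharacter).2
    (Nat.pos_of_ne_zero fun e => h (e ▸ dvd_zero 2))
  refine ⟨fun χ h5 h6 => ?_, fun ξ h5 => ?_⟩
  · obtain ⟨β, r1⟩ := d.exists_rel_of_liesOver_left h5
    have h7 := (r1.forall_smul_eq_iff h2).1 h6
    obtain ⟨γ, h8⟩ := h.exists_rel Nat.prime_two h7
    obtain ⟨lam, h9⟩ := γ.exists_liesOver_below e.zEmb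
    obtain rfl : lam = e.lamInv := LiesOver.eq_of_comp_eq_smul (r1.restrict hj ha).comp_zEmb
      (LiesOver.of_constituent (β.isCharacter.comp _) ((β.isCharacter.comp _).ipNat_pos_iff
        γ.isCharacter |>.1 (Nat.pos_of_ne_zero fun e => h8 (e ▸ dvd_zero 2))) lam.isCharacter h9)
    obtain ⟨ξ, r2⟩ := e.exists_rel_of_liesOver_right h9
    refine ⟨ξ, (h3 r1 r2).2 h8, fun ξ' h10 => ?_⟩
    obtain ⟨θ', h11⟩ := ξ'.exists_liesOver_below a
    obtain rfl : θ' = θ := LiesOver.eq_of_comp_eq_smul r1.comp_f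
      (LiesOver.trans_of_eq ha χ.isCharacter θ'.isCharacter (h4 h10) h11)
    obtain ⟨γ', r3⟩ := e.exists_rel_of_liesOver_left h11
    obtain rfl := h.right_unique h7 h8 ((h3 r1 r3).1 h10)
    exact Subtype.ext (r3.left_unique r2)
  · obtain ⟨γ, r2⟩ := e.exists_rel_of_liesOver_left h5
    obtain ⟨β, h6, h7⟩ := h.exists_left γ
    have h8 := (liesOver_comp_iff_of_comm (f := e.zEmb) (f' := d.zEmb) (d.restrictKer_surjective hj)
      (b := d.restrictQ hj ha) (fun _ => rfl) β.1 d.lamInv.1).1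
      (LiesOver.of_constituent (β.isCharacter.comp _) ((β.isCharacter.comp _).ipNat_pos_iff
        γ.isCharacter |>.1 (Nat.pos_of_ne_zero fun e => h7 (e ▸ dvd_zero 2)))
        e.lamInv.isCharacter (r2.liesOver_right γ.apply_one_ne_zero))
    obtain ⟨χ, r1⟩ := d.exists_rel_of_liesOver_right h8
    refine ⟨χ, ⟨(r1.forall_smul_eq_iff h2).2 h6, (h3 r1 r2).2 h7⟩, fun χ' ⟨h9, h10⟩ => ?_⟩
    obtain ⟨β', r3⟩ := d.exists_rel_of_liesOver_left
      (LiesOver.trans_of_eq ha χ'.isCharacter θ.isCharacter (h4 h10) h5)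
    obtain rfl := h.left_unique h6 ((r3.forall_smul_eq_iff h2).1 h9) h7 ((h3 r3 r2).1 h10)
    exact Subtype.ext (r3.left_unique r1)

theorem apply_mem_inertia_of_smul_eq {f : N →* G} [IsNormalEmb f] {φ : S →* MulAut G}
    {ψ : S →* MulAut N} (hc : ∀ s n, f (ψ s n) = φ s (f n)) {θ : IrrCharacter N}
    (hθ : ∀ s, ψ s • θ = θ) (s : S) (g : G) (hg : g ∈ inertia f θ) : φ s g ∈ inertia f θ := by
  rw [← hθ s]; exact (apply_mem_inertia_smul_iff (hc s) θ g).2 hg

/-- Multiplicities in restrictions are preserved by the Clifford correspondence. -/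
theorem ipNat_comp_eq_of_clifford {H T U : Type*} [Group H] [Finite H] [Group T] [Finite T]
    [Group U] [Finite U] {f : N →* G} [IsNormalEmb f] {i : T →* G} (hi : Function.Injective i)
    {fT : N →* T} (hfT : ∀ n, i (fT n) = f n) {θ : IrrCharacter N} (hT : inertia f θ ≤ i.range)
    {j : H →* G} {k : U →* H} {l : U →* T} (hl : ∀ u, i (l u) = j (k u)) {b : N →* U}
    (hb : ∀ n, l (b n) = fT n) {η : IrrCharacter T} (hη : LiesOver fT η.1 θ.1)
    {ζ : IrrCharacter U} (hζ : LiesOver b ζ.1 θ.1) :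
    ipNat (ind i η.1 ∘ j) (ind k ζ.1) = ipNat (η.1 ∘ l) ζ.1 := by
  let χ : IrrCharacter G := ⟨_, clifford_isIrr_ind hi hfT hT hη⟩
  have h1 : LiesOver i χ.1 η.1 := liesOver_of_ind_eq rfl
  rw [ipNat_comm, ipNat_ind_left _ _ (χ.isClassFunction.comp j)]
  refine (ipNat_comp_eq_sum_of_factor (f := j.comp k) hl χ.isCharacter ζ.isCharacter).trans ?_
  rw [Finset.sum_eq_single η (fun η' _ hne => ?_) (by simp), ← ipNat_ind_left _ _ χ.isClassFunction,
    χ.ipNat_self, one_mul]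
  by_contra h
  obtain ⟨h2, h3⟩ := mul_ne_zero_iff.1 h
  exact hne (clifford_unique_constituent hi hfT hT (LiesOver.trans_of_eq hb η'.isCharacter
    θ.isCharacter ((liesOver_iff_ipNat_pos η'.isCharacter ζ.isCharacter).2 (Nat.pos_of_ne_zero h3))
    hζ) hη ((liesOver_iff_ipNat_pos χ.isCharacter η'.isCharacter).2 (Nat.pos_of_ne_zero h2)) h1)

theorem smul_eq_iff_of_ind_eq {T : Type*} [Group T] [Finite T] {f : N →* G} [IsNormalEmb f]
    {i : T →* G} (hi : Function.Injective i) {fT : N →* T} (hfT : ∀ n, i (fT n) = f n)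
    {θ : IrrCharacter N} (hT : inertia f θ ≤ i.range) {σ : MulAut G} {τ : MulAut T}
    {ρ : MulAut N} (h1 : ∀ t, i (τ t) = σ (i t)) (h2 : ∀ n, fT (ρ n) = τ (fT n)) (hθ : ρ • θ = θ)
    {η : IrrCharacter T} (hη : LiesOver fT η.1 θ.1) {χ : IrrCharacter G} (h : ind i η.1 = χ.1) :
    σ • χ = χ ↔ τ • η = η := by
  have h3 : LiesOver fT (τ • η).1 θ.1 := hθ ▸ (liesOver_smul_smul_iff h2 η θ).2 hη
  have h4 := (liesOver_smul_smul_iff h1 χ η).2 (liesOver_of_ind_eq h)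
  exact ⟨fun e => clifford_unique_constituent hi hfT hT h3 hη (e ▸ h4) (liesOver_of_ind_eq h),
    fun e => Subtype.ext ((clifford_ind_eq hi hfT hT hη (e ▸ h4)).symm.trans h)⟩

/-- Two invariant constituents of a restriction are conjugate under the fixed points. -/
theorem exists_fixed_conjAut_smul_eq {f : N →* G} [IsNormalEmb f] {φ : S →* MulAut G}
    {ψ : S →* MulAut N} (hc : ∀ s n, f (ψ s n) = φ s (f n))
    (hcop : (Nat.card G).Coprime (Nat.card S)) (hs : Group.IsSolvable G ∨ Group.IsSolvable S)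
    {θ : IrrCharacter N} (hθ : ∀ s, ψ s • θ = θ) {x : G}
    (hx : ∀ s, ψ s • conjAut f x • θ = conjAut f x • θ) :
    ∃ c, (∀ s, φ s c = c) ∧ conjAut f c • θ = conjAut f x • θ := by
  obtain ⟨u, hu, h⟩ := exists_mul_fixed_of_coprime φ (apply_mem_inertia_of_smul_eq hc hθ)
    (hcop.coprime_dvd_left (Subgroup.card_subgroup_dvd_card _))
    (hs.elim (fun _ => Or.inl inferInstance) Or.inr) (x := x) fun s => by
      rw [← conjAut_smul_eq_conjAut_smul_iff, ← hx s, smul_conjAut_smul (hc s), hθ]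
  exact ⟨_, h, by rw [map_mul, mul_smul, mem_inertia.1 hu]⟩

/-- Isaacs 13.25 (a). -/
theorem odd_correspondence [Finite S] {H : Type*} [Group H] [Finite H]
    {f : N →* G} [hf : IsNormalEmb f] {φ : S →* MulAut G} {ψ : S →* MulAut N}
    (hc : ∀ s n, f (ψ s n) = φ s (f n)) (hcop : (Nat.card G).Coprime (Nat.card S))
    [hs : Group.IsSolvable G] (hodd : Odd (Nat.card G))
    (hab : ∀ a ∈ autComm φ, ∀ b ∈ autComm φ, ⁅a, b⁆ ∈ f.range) {j : H →* G}
    (hj : Function.Injective j) (hH : ∀ g, g ∈ j.range ↔ ∀ s, g⁻¹ * φ s g ∈ f.range)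
    {ω : S →* MulAut H} (hω : ∀ s h, j (ω s h) = φ s (j h)) {a : N →* H}
    (ha : ∀ n, j (a n) = f n) :
    (∀ χ : IrrCharacter G, (∀ s, φ s • χ = χ) →
      ∃! ξ : IrrCharacter H, (∀ s, ω s • ξ = ξ) ∧ ¬ 2 ∣ ipNat (χ.1 ∘ j) ξ.1) ∧
    ∀ ξ : IrrCharacter H, (∀ s, ω s • ξ = ξ) →
      ∃! χ : IrrCharacter G, (∀ s, φ s • χ = χ) ∧ ¬ 2 ∣ ipNat (χ.1 ∘ j) ξ.1 := by
  haveI := IsNormalEmb.of_factor hj ha
  haveI := Group.isSolvable_of_isSolvable_injective hj
  have hc' : ∀ s n, a (ψ s n) = ω s (a n) := fun s n => hj (by rw [ha, hω, ha, hc])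
  have hcH := (hcop.coprime_dvd_left (Subgroup.card_dvd_of_injective j hj)).coprime_dvd_left
    a.range.index_dvd_card
  have h4 : ∀ {χ : IrrCharacter G} {ξ : IrrCharacter H}, ¬ 2 ∣ ipNat (χ.1 ∘ j) ξ.1 →
      LiesOver j χ.1 ξ.1 := fun {χ ξ} h => (liesOver_iff_ipNat_pos χ.isCharacter ξ.isCharacter).2
    (Nat.pos_of_ne_zero fun e => h (e ▸ dvd_zero 2))
  have key : ∀ θ : IrrCharacter N, (∀ s, ψ s • θ = θ) →
      (∀ χ : IrrCharacter G, LiesOver f χ.1 θ.1 → (∀ s, φ s • χ = χ) →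
        ∃! ξ : IrrCharacter H, LiesOver a ξ.1 θ.1 ∧ ¬ 2 ∣ ipNat (χ.1 ∘ j) ξ.1) ∧
      ∀ ξ : IrrCharacter H, LiesOver a ξ.1 θ.1 →
        ∃! χ : IrrCharacter G, (∀ s, φ s • χ = χ) ∧ ¬ 2 ∣ ipNat (χ.1 ∘ j) ξ.1 := fun θ hθ => by
    let T := inertia f θ
    let φT := autRestrict φ T (apply_mem_inertia_of_smul_eq hc hθ)
    let U := T.comap j
    let l : U →* T := (j.comp U.subtype).codRestrict T fun u => u.2
    let b : N →* U := a.codRestrict U fun n => by
      rw [Subgroup.mem_comap, ha]; exact map_mem_inertia f θ n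
    have hb : ∀ n, l (b n) = toInertia f θ n := fun n => Subtype.ext (ha n)
    have hT : inertia f θ ≤ T.subtype.range := T.range_subtype.ge
    have hU : inertia a θ ≤ U.subtype.range := by rw [U.range_subtype, inertia_of_factor ha]
    have e1 : ∀ t : T, t ∈ (toInertia f θ).range ↔ (t : G) ∈ f.range := fun t => by
      rw [range_toInertia, Subgroup.mem_subgroupOf]
    obtain ⟨k1, k2⟩ := odd_correspondence_of_inertia_eq_top (f := toInertia f θ) (φ := φT)
      (fun s n => Subtype.ext (hc s n)) (hcop.coprime_dvd_left (Subgroup.card_subgroup_dvd_card T))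
      (Or.inl inferInstance) (hodd.of_dvd_nat (Subgroup.card_subgroup_dvd_card T))
      (fun x hx y hy => by
        have : autComm φT ≤ (autComm φ).comap T.subtype :=
          autComm_le.2 fun s g => inv_mul_mem_autComm φ s g
        exact (e1 _).2 (hab _ (this hx) _ (this hy))) (j := l)
      (fun x y e => Subtype.ext (hj (congrArg Subtype.val e))) (fun t => by
        simp only [e1]
        refine Iff.trans ⟨?_, ?_⟩ (hH t)
        · rintro ⟨u, rfl⟩; exact ⟨u, rfl⟩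
        · rintro ⟨h, e⟩; exact ⟨⟨h, (e ▸ t.2 : j h ∈ T)⟩, Subtype.ext e⟩) hb
      (inertia_toInertia f θ) hθ
    have m : ∀ {η : IrrCharacter T} {ζ : IrrCharacter U} {χ : IrrCharacter G} {ξ : IrrCharacter H},
        LiesOver (toInertia f θ) η.1 θ.1 → LiesOver b ζ.1 θ.1 → ind T.subtype η.1 = χ.1 →
        ind U.subtype ζ.1 = ξ.1 → (¬ 2 ∣ ipNat (χ.1 ∘ j) ξ.1 ↔ ¬ 2 ∣ ipNat (η.1 ∘ l) ζ.1) :=
      fun h1 h2 h3 h4 => by
        rw [← h3, ← h4, ipNat_comp_eq_of_clifford T.subtype_injective (fun _ => rfl) hT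
          (j := j) (k := U.subtype) (fun _ => rfl) hb h1 h2]
    have inv : ∀ {η : IrrCharacter T} {χ : IrrCharacter G}, LiesOver (toInertia f θ) η.1 θ.1 →
        ind T.subtype η.1 = χ.1 → ((∀ s, φ s • χ = χ) ↔ ∀ s, φT s • η = η) := fun h1 h2 =>
      forall_congr' fun s => smul_eq_iff_of_ind_eq T.subtype_injective (fun _ => rfl) hT
        (fun _ => rfl) (fun n => Subtype.ext (hc s n)) (hθ s) h1 h2
    refine ⟨fun χ h1 h2 => ?_, fun ξ h1 => ?_⟩
    · obtain ⟨η, h3, h5⟩ := clifford_exists T.subtype_injective (j := toInertia f θ)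
        (fun _ => rfl) hT h1
      obtain ⟨ζ, h6, h7⟩ := k1 η h3 ((inv h3 h5).1 h2)
      obtain ⟨θ', h8⟩ := ζ.exists_liesOver_below b
      obtain rfl : θ' = θ := LiesOver.eq_of_comp_eq_smul
        (h3.comp_eq_smul_of_inertia_eq_top (inertia_toInertia f θ))
        (LiesOver.trans_of_eq hb η.isCharacter θ'.isCharacter
          ((liesOver_iff_ipNat_pos η.isCharacter ζ.isCharacter).2
            (Nat.pos_of_ne_zero fun e => h6 (e ▸ dvd_zero 2))) h8)
      refine ⟨⟨_, clifford_isIrr_ind U.subtype_injective (fun _ => rfl) hU h8⟩,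
        ⟨liesOver_ind_of_liesOver U.subtype_injective (fun _ => rfl) θ'.isCharacter
          ζ.isCharacter h8, (m h3 h8 h5 rfl).2 h6⟩, fun ξ' ⟨h9, h10⟩ => ?_⟩
      obtain ⟨ζ', h11, h12⟩ := clifford_exists U.subtype_injective (j := b) (fun _ => rfl) hU h9
      obtain rfl := h7 ζ' ((m h3 h11 h5 h12).1 h10)
      exact Subtype.ext h12.symm
    · obtain ⟨ζ, h2, h3⟩ := clifford_exists U.subtype_injective (j := b) (fun _ => rfl) hU h1
      obtain ⟨η, ⟨h5, h6⟩, h7⟩ := k2 ζ h2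
      have h8 := LiesOver.trans_of_eq hb η.isCharacter θ.isCharacter
        ((liesOver_iff_ipNat_pos η.isCharacter ζ.isCharacter).2
          (Nat.pos_of_ne_zero fun e => h6 (e ▸ dvd_zero 2))) h2
      refine ⟨⟨_, clifford_isIrr_ind T.subtype_injective (fun _ => rfl) hT h8⟩,
        ⟨(inv h8 rfl).2 h5, (m h8 h2 rfl h3).2 h6⟩, fun χ' ⟨h9, h10⟩ => ?_⟩
      obtain ⟨η', h11, h12⟩ := clifford_exists T.subtype_injective (j := toInertia f θ)
        (fun _ => rfl) hT (LiesOver.trans_of_eq ha χ'.isCharacter θ.isCharacter (h4 h10) h1)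
      obtain rfl := h7 η' ⟨(inv h11 h12).1 h9, (m h11 h2 h12 h3).1 h10⟩
      exact Subtype.ext h12.symm
  refine ⟨fun χ hχ => ?_, fun ξ hξ => ?_⟩
  · obtain ⟨θ, h1, h2⟩ := exists_invariant_liesOver_below hc
      (hcop.coprime_dvd_left f.range.index_dvd_card) (Or.inr inferInstance) hχ
    obtain ⟨ξ, ⟨h3, h5⟩, h6⟩ := (key θ h2).1 χ h1 hχ
    refine ⟨ξ, ⟨h3.smul_eq_of_inv_mul_mem hc' hcH (fun s h => ?_) h2, h5⟩, fun ξ' ⟨h7, h8⟩ => ?_⟩
    · obtain ⟨n, hn⟩ := (hH _).1 ⟨h, rfl⟩ s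
      exact ⟨n, hj (by rw [ha, hn, map_mul, map_inv, hω])⟩
    obtain ⟨θ', h9, h10⟩ := exists_invariant_liesOver_below hc' hcH (Or.inr inferInstance) h7
    obtain ⟨x, rfl⟩ := h1.exists_conjAut_smul_eq (θ' := θ')
      (LiesOver.trans_of_eq ha χ.isCharacter θ'.isCharacter (h4 h8) h9)
    obtain ⟨c, h11, h12⟩ := exists_fixed_conjAut_smul_eq hc hcop (Or.inl hs) h2 h10
    obtain ⟨h, rfl⟩ := (hH c).2 fun s => by simp [h11]
    rw [← h12, ← conjAut_of_factor ha, liesOver_conjAut_smul_iff ξ'.isClassFunction] at h9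
    exact h6 ξ' ⟨h9, h8⟩
  · obtain ⟨θ, h1, h2⟩ := exists_invariant_liesOver_below hc' hcH (Or.inr inferInstance) hξ
    exact (key θ h2).2 ξ h1

end Cfsg

set_option linter.all false in
theorem Cfsg.Rz.Char_IsaacsOdd_0 : True := by
  have := @_root_.Cfsg.autComm.eq_def.{0, 0}
  have := @_root_.Cfsg.autComm.eq_1.{0, 0}
  have := @_root_.Cfsg.autComm.fun_cases
  trivial
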