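import Cfsg.Agent.Char.Central
import Cfsg.Agent.Char.LiesOver

/-! Isotypic projections. -/

set_option autoImplicit false
set_option linter.unusedSectionVars false

namespace Cfsg

open scoped ComplexConjugate

variable {G : Type*} [Group G] [Fintype G]
variable {V : Type*} [AddCommGroup V] [Module ℂ V] [FiniteDimensional ℂ V]

theorem rep_isotypic_mul_self (τ : Representation ℂ G V) (α : IrrCharacter G) :
    (∑ x : G, conj (α x) • τ x) * (∑ x : G, conj (α x) • τ x) =
      ((Nat.card G : ℂ) / α 1) • ∑ x : G, conj (α x) • τ x := by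
  classical
  rw [Finset.sum_mul_sum, Finset.smul_sum]
  have h1 : ∀ x : G, ∑ y : G, conj (α x) • τ x * conj (α y) • τ y =
      ∑ z : G, (α (x * z⁻¹) * α x⁻¹) • τ z := fun x => by
    refine Fintype.sum_equiv (Equiv.mulLeft x) _ _ fun y => ?_
    simp only [Equiv.coe_mulLeft, smul_mul_smul_comm, map_mul, ← α.apply_inv]
    rw [α.isClassFunction.mul_comm x, mul_comm (α x⁻¹)]
    simp
  simp only [h1]
  rw [Finset.sum_comm]
  refine Finset.sum_congr rfl fun z _ => ?_
  rw [← Finset.sum_smul, sum_irr_mul_inv_mul, if_pos rfl, smul_smul, α.apply_inv]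
  congr 1
  ring

/-- If `α` is not a constituent of `τ`, the `α`-isotypic projection vanishes. -/
theorem rep_isotypic_eq_zero (τ : Representation ℂ G V) (α : IrrCharacter G)
    (h : ip τ.character α.1 = 0) : ∑ x : G, conj (α x) • τ x = 0 := by
  have hG := natCard_cast_ne_zero G
  have h1 := α.apply_one_ne_zero
  have he : IsIdempotentElem ((α 1 / (Nat.card G : ℂ)) • ∑ x : G, conj (α x) • τ x) := by
    rw [IsIdempotentElem, smul_mul_smul_comm, rep_isotypic_mul_self, smul_smul]
    congr 1
    field_simp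
  have ht : LinearMap.trace ℂ V ((α 1 / (Nat.card G : ℂ)) • ∑ x : G, conj (α x) • τ x) = 0 := by
    rw [ip_def, mul_eq_zero, or_iff_right (inv_ne_zero hG)] at h
    rw [map_smul, map_sum]
    simp only [map_smul, smul_eq_mul]
    rw [mul_eq_zero]
    right
    rw [← h]
    exact Finset.sum_congr rfl fun x _ => mul_comm _ _
  have := LinearMap.IsIdempotentElem.eq_zero_of_trace_eq_zero he ht
  exact (smul_eq_zero.1 this).resolve_left (div_ne_zero h1 hG)

/-- If `α` is not a constituent of the restriction of `Θ` along `f`, then the matrix coefficients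
of `Θ` are orthogonal to `α`. -/
theorem IsCharacter.sum_conj_mul_apply_mul_eq_zero {Γ : Type*} [Group Γ] {Θ : Γ → ℂ}
    (hΘ : IsCharacter Γ Θ) (f : G →* Γ) (α : IrrCharacter G) (h : ip (Θ ∘ f) α.1 = 0) (w : Γ) :
    ∑ x : G, conj (α x) * Θ (w * f x) = 0 := by
  obtain ⟨n, ρ, rfl⟩ := hΘ
  have h1 := rep_isotypic_eq_zero (ρ.comp f) α h
  have h2 := congrArg (fun T => LinearMap.trace ℂ _ (ρ w * T)) h1
  simp only [Finset.mul_sum, map_sum, mul_smul_comm, map_smul, smul_eq_mul, mul_zero,
    map_zero] at h2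
  rw [← h2]
  refine Finset.sum_congr rfl fun x _ => ?_
  simp [Representation.character]

/-- A character seen by the function `x ↦ χ (x a x⁻¹ b)` is a constituent of `χ * star χ`. -/
theorem IsCharacter.sum_conj_mul_apply_conj_eq_zero {χ : G → ℂ} (hχ : IsCharacter G χ)
    (α : IrrCharacter G) (h : ip (χ * Star.star χ) α.1 = 0) (a b : G) :
    ∑ x : G, conj (α x) * χ (x * a * x⁻¹ * b) = 0 := by
  obtain ⟨n, ρ, rfl⟩ := hχ
  have hc : (ρ.linHom ρ).character = ρ.character * Star.star ρ.character := by
    ext g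
    rw [Representation.char_linHom, (isCharacter_of_rep ρ).apply_inv, mul_comm]
    rfl
  have h1 := rep_isotypic_eq_zero (ρ.linHom ρ) α (hc ▸ h)
  have h2 := congrArg (fun T => LinearMap.trace ℂ _ (T (ρ a) * ρ b)) h1
  simp only [LinearMap.sum_apply, Finset.sum_mul, map_sum, LinearMap.smul_apply, smul_mul_assoc,
    map_smul, smul_eq_mul, LinearMap.zero_apply, zero_mul, map_zero] at h2
  rw [← h2]
  refine Finset.sum_congr rfl fun x _ => ?_
  simp only [Representation.character, map_mul, Representation.linHom_apply]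
  rfl

end Cfsg
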