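import Cfsg.Agent.Char.RealPPrime

/-!
# A McKay bijection for real characters (Isaacs, Navarro)
-/

set_option autoImplicit false
set_option linter.unusedSectionVars false
set_option linter.unusedVariables false

namespace Cfsg

open Subgroup

universe u v w

variable {p : ℕ} {G : Type u} [Group G] [Finite G] {N : Type v} [Group N] [Finite N]

theorem ipNat_bar_comp (j : N →* G) (χ : IrrCharacter G) (θ : IrrCharacter N) :
    ipNat (χ.bar.1 ∘ j) θ.bar.1 = ipNat (χ.1 ∘ j) θ.1 := by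
  refine ipNat_eq_of_ip_eq ?_
  change ip (star (χ.1 ∘ j)) (star θ.1) = _
  rw [ip_star_star, (χ.isCharacter.comp j).ipNat_cast θ.isCharacter,
    (χ.isCharacter.comp j).ip_comm θ.isCharacter]

/-- The degrees of relative Glauberman correspondents. -/
theorem charDegree_modEq_of_unique [hp : Fact p.Prime] {S : Type w} [Group S] (hS : IsPGroup p S)
    {φ : S →* MulAut G} {ω : S →* MulAut N} {j : N →* G} (hω : ∀ s h, j (ω s h) = φ s (j h))
    {χ : IrrCharacter G} (hχ : ∀ s, φ s • χ = χ) {ξ : IrrCharacter N} (hξ : ∀ s, ω s • ξ = ξ)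
    (hu : ∀ ξ' : IrrCharacter N, (∀ s, ω s • ξ' = ξ') → ¬ p ∣ ipNat (χ.1 ∘ j) ξ'.1 → ξ' = ξ) :
    charDegree χ.1 ≡ ipNat (χ.1 ∘ j) ξ.1 * charDegree ξ.1 [MOD p] := by
  classical
  letI := MulAction.compHom (IrrCharacter N) ω
  rw [show charDegree χ.1 = charDegree (χ.1 ∘ j) by simp [charDegree],
    (χ.isCharacter.comp j).charDegree_eq_sum]
  refine (IsPGroup.sum_modEq_sum_fixed hS _ fun s x => ?_).trans ?_
  · change ipNat _ (ω s • x).1 * charDegree (ω s • x).1 = _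
    rw [IrrCharacter.charDegree_smul, ← ipNat_smul_smul (hω s) χ x, hχ]
  · rw [← Finset.add_sum_erase _ _ (a := ξ) (Finset.mem_filter.2 ⟨Finset.mem_univ _, hξ⟩)]
    refine (Nat.modEq_iff_dvd' (Nat.le_add_right _ _)).2 ?_ |>.symm
    rw [Nat.add_sub_cancel_left]
    refine Finset.dvd_sum fun x hx => Dvd.dvd.mul_right (by_contra fun h => ?_) _
    exact (Finset.mem_erase.1 hx).1 (hu x (Finset.mem_filter.1 (Finset.mem_erase.1 hx).2).2 h)

/-- The relative Glauberman correspondence between `K` and `N_K(P)`. -/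
theorem relGlaub_sylow [hp : Fact p.Prime] (P : Sylow p G) {K : Subgroup G}
    [K.Normal] [hQ : ((P : Subgroup G) ⊓ K).Normal] {H : Type v} [Group H] [Finite H] {i : H →* G}
    (hi : Function.Injective i) (hH : i.range = normalizer ((P : Subgroup G) : Set G))
    {j : K.comap i →* K} (hj : ∀ c, (j c : G) = i c) :
    (∀ θ : IrrCharacter K, (P : Subgroup G) ≤ inertia K.subtype θ →
      ∃ β : IrrCharacter (K.comap i), (P : Subgroup G).comap i ≤ inertia (K.comap i).subtype β ∧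
        ¬ p ∣ ipNat (θ.1 ∘ j) β.1 ∧ ((charDegree β.1 : ZMod p) = charDegree θ.1 ∨
          (charDegree β.1 : ZMod p) = -charDegree θ.1) ∧
        ∀ β', (P : Subgroup G).comap i ≤ inertia (K.comap i).subtype β' →
          ¬ p ∣ ipNat (θ.1 ∘ j) β'.1 → β' = β) ∧
    ∀ β : IrrCharacter (K.comap i), (P : Subgroup G).comap i ≤ inertia (K.comap i).subtype β →
      ∃! θ : IrrCharacter K, (P : Subgroup G) ≤ inertia K.subtype θ ∧
        ¬ p ∣ ipNat (θ.1 ∘ j) β.1 := by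
  set Q := (P : Subgroup G) ⊓ K
  have hPi : (P : Subgroup G) ≤ i.range := hH ▸ le_normalizer
  let l : P →* H := (MonoidHom.ofInjective hi).symm.toMonoidHom.comp (inclusion hPi)
  have hl : ∀ s, i (l s) = s := fun s => MonoidHom.apply_ofInjective_symm hi _
  let a : Q →* K.comap i := (l.comp (inclusion inf_le_left)).codRestrict _ fun x => by
    rw [mem_comap, MonoidHom.comp_apply, hl]; exact x.2.2
  let φ := (conjAut K.subtype).comp (P : Subgroup G).subtype
  let ω := (conjAut (K.comap i).subtype).comp l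
  have hφ : ∀ s x, (φ s x : G) = s * x * (s : G)⁻¹ := fun s x => map_conjAut K.subtype s x
  have hω : ∀ s c, j (ω s c) = φ s (j c) := fun s c => Subtype.ext (by
    rw [hφ, hj, hj, show (ω s c : H) = _ from map_conjAut (K.comap i).subtype (l s) c, map_mul,
      map_mul, map_inv, hl, subtype_apply])
  have hi' : ¬ p ∣ (inclusion (inf_le_right : Q ≤ K)).range.index := by
    rw [inclusion_range, ← relIndex, inf_relIndex_right]
    exact not_dvd_relIndex_sylow_inf_normal P K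
  obtain ⟨k1, k2⟩ := relGlaub P.2 (f := inclusion (inf_le_right : Q ≤ K)) (φ := φ)
    (ψ := (conjAut Q.subtype).comp (P : Subgroup G).subtype)
    (fun s n => Subtype.ext ((map_conjAut Q.subtype s n).trans (hφ s (inclusion inf_le_right n)).symm))
    (IsPGroup.coprime_card_of_not_dvd (P.2.to_le inf_le_left) hi') hi' (j := j)
    (fun x y e => Subtype.ext (hi (by rw [← hj, ← hj, e]))) (fun x => by
      have e : ∀ s, x⁻¹ * φ s x ∈ (inclusion (inf_le_right : Q ≤ K)).range ↔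
          (x : G)⁻¹ * s * x ∈ (P : Subgroup G) := fun s => by
        rw [inclusion_range, mem_subgroupOf, mem_inf, and_iff_left (SetLike.coe_mem _), coe_mul,
          hφ, ← mul_assoc, ← mul_assoc, mul_mem_cancel_right (inv_mem s.2)]
        rfl
      simp only [e]
      refine ⟨fun ⟨c, hc⟩ s => ?_, fun h => ?_⟩
      · have : i c ∈ normalizer ((P : Subgroup G) : Set G) := hH ▸ ⟨_, rfl⟩
        rw [← hc, hj]
        exact (mem_normalizer_iff''.1 this _).1 s.2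
      · obtain ⟨y, hy⟩ : (x : G) ∈ i.range := hH ▸ inv_inv (x : G) ▸
          inv_mem (mem_normalizer_fintype fun s hs => by rw [inv_inv]; exact h ⟨s, hs⟩)
        exact ⟨⟨y, by rw [mem_comap, hy]; exact x.2⟩, Subtype.ext ((hj _).trans hy)⟩)
    hω (a := a) fun x => Subtype.ext ((hj _).trans (hl _))
  have e1 : ∀ θ, (∀ s, φ s • θ = θ) ↔ (P : Subgroup G) ≤ inertia K.subtype θ := fun θ =>
    ⟨fun h s hs => h ⟨s, hs⟩, fun h s => h s.2⟩
  have e2 : ∀ β, (∀ s, ω s • β = β) ↔ (P : Subgroup G).comap i ≤ inertia (K.comap i).subtype β :=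
    fun β => ⟨fun h s hs => by
      have := h ⟨_, hs⟩
      rwa [MonoidHom.comp_apply, hi (hl ⟨_, hs⟩)] at this,
      fun h s => h (x := l s) (by rw [mem_comap, hl]; exact s.2)⟩
  simp only [← e1, ← e2]
  refine ⟨fun θ hθ => ?_, k2⟩
  obtain ⟨β, h1, h2, h3⟩ := k1 θ hθ
  refine ⟨β, h1, not_dvd_of_modEq_one_or hp.out h2, ?_, h3⟩
  rw [(ZMod.natCast_eq_natCast_iff _ _ _).2 (charDegree_modEq_of_unique P.2 hω hθ h1 h3),
    Nat.cast_mul]
  refine h2.imp (fun h => ?_) fun h => ?_ <;>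
  · have := (ZMod.intCast_eq_intCast_iff _ _ _).2 h
    push_cast at this
    simp [this]

theorem exists_real_pPrime_bijection_aux [hp : Fact p.Prime] (P : Sylow p G) {K H C : Type*}
    [Group K] [Finite K] [Group H] [Finite H] [Group C] [Finite C] {f : K →* G} [IsNormalEmb f]
    (hK : Odd f.range.index) {i : H →* G} (hi : Function.Injective i)
    (hH : i.range = normalizer ((P : Subgroup G) : Set G)) {c : C →* H} [IsNormalEmb c]
    (hC : Odd c.range.index) {j : C →* K} (hj : ∀ x, f (j x) = i (c x))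
    (k1 : ∀ θ : IrrCharacter K, (P : Subgroup G) ≤ inertia f θ →
      ∃ β : IrrCharacter C, (P : Subgroup G).comap i ≤ inertia c β ∧
        ¬ p ∣ ipNat (θ.1 ∘ j) β.1 ∧ ((charDegree β.1 : ZMod p) = charDegree θ.1 ∨
          (charDegree β.1 : ZMod p) = -charDegree θ.1) ∧
        ∀ β', (P : Subgroup G).comap i ≤ inertia c β' → ¬ p ∣ ipNat (θ.1 ∘ j) β'.1 → β' = β)
    (k2 : ∀ β : IrrCharacter C, (P : Subgroup G).comap i ≤ inertia c β →
      ∃! θ : IrrCharacter K, (P : Subgroup G) ≤ inertia f θ ∧ ¬ p ∣ ipNat (θ.1 ∘ j) β.1) :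
    ∃ F : {χ : IrrCharacter G // (∀ g, (χ g).im = 0) ∧ ¬ p ∣ charDegree χ.1} →
      {ξ : IrrCharacter H // (∀ g, (ξ g).im = 0) ∧ ¬ p ∣ charDegree ξ.1}, Function.Bijective F ∧
      ∀ χ, (charDegree (F χ).1.1 : ZMod p) = charDegree χ.1.1 ∨
        (charDegree (F χ).1.1 : ZMod p) = -charDegree χ.1.1 := by
  have hn : ∀ h {s}, s ∈ (P : Subgroup G) → (i h)⁻¹ * s * i h ∈ (P : Subgroup G) := fun h s hs =>
    (mem_normalizer_iff''.1 (hH ▸ ⟨h, rfl⟩ : i h ∈ _) _).1 hs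
  have hu : ∀ {θ : IrrCharacter K} {β β' : IrrCharacter C}, (P : Subgroup G) ≤ inertia f θ →
      (P : Subgroup G).comap i ≤ inertia c β → (P : Subgroup G).comap i ≤ inertia c β' →
      ¬ p ∣ ipNat (θ.1 ∘ j) β.1 → ¬ p ∣ ipNat (θ.1 ∘ j) β'.1 → β = β' := fun h1 h2 h3 h4 h5 => by
    obtain ⟨γ, -, -, -, h⟩ := k1 _ h1
    exact (h _ h2 h4).trans (h _ h3 h5).symm
  have hA : ∀ (h : H) {θ : IrrCharacter K}, (P : Subgroup G) ≤ inertia f θ →
      (P : Subgroup G) ≤ inertia f (conjAut f (i h) • θ) := fun h θ hθ s hs =>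
    mem_inertia_conjAut_smul.2 (hθ (hn h hs))
  have hB : ∀ (h : H) {β : IrrCharacter C}, (P : Subgroup G).comap i ≤ inertia c β →
      (P : Subgroup G).comap i ≤ inertia c (conjAut c h • β) := fun h β hβ s hs =>
    mem_inertia_conjAut_smul.2 (hβ (by
      rw [mem_comap, map_mul, map_mul, map_inv]; exact hn h hs))
  have hR : ∀ (h : H) (θ : IrrCharacter K) (β : IrrCharacter C),
      ipNat ((conjAut f (i h) • θ).1 ∘ j) (conjAut c h • β).1 = ipNat (θ.1 ∘ j) β.1 := fun h =>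
    ipNat_smul_smul fun x => IsNormalEmb.injective (f := f) (by simp [hj])
  have hreal : ∀ {θ : IrrCharacter K} {β : IrrCharacter C}, (P : Subgroup G) ≤ inertia f θ →
      (P : Subgroup G).comap i ≤ inertia c β → ¬ p ∣ ipNat (θ.1 ∘ j) β.1 →
      ((∀ g, (θ g).im = 0) ↔ ∀ g, (β g).im = 0) := fun {θ β} h1 h2 h3 => by
    rw [θ.real_iff_bar_eq, β.real_iff_bar_eq]
    have h4 := h3
    rw [← ipNat_bar_comp] at h4
    exact ⟨fun e => hu h1 (fun s hs => congrArg IrrCharacter.bar (h2 hs)) h2 (e ▸ h4) h3,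
      fun e => (k2 β h2).unique ⟨fun s hs => congrArg IrrCharacter.bar (h1 hs), e ▸ h4⟩ ⟨h1, h3⟩⟩
  have hdeg : ∀ {χ : IrrCharacter G} {ξ : IrrCharacter H} {θ : IrrCharacter K}
      {β : IrrCharacter C}, (∀ g, (χ g).im = 0) → (∀ g, (ξ g).im = 0) →
      LiesOver f χ.1 θ.1 → LiesOver c ξ.1 β.1 → (P : Subgroup G) ≤ inertia f θ →
      (P : Subgroup G).comap i ≤ inertia c β → ¬ p ∣ ipNat (θ.1 ∘ j) β.1 →
      (charDegree ξ.1 : ZMod p) = charDegree χ.1 ∨
        (charDegree ξ.1 : ZMod p) = -charDegree χ.1 := fun {χ ξ θ β} r1 r2 l1 l2 h1 h2 h3 => by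
    have e1 : inertia c β = (inertia f θ).comap i := by
      ext h
      rw [mem_comap, mem_inertia, mem_inertia]
      have h4 := h3
      rw [← hR h] at h4
      exact ⟨fun e => (k2 β h2).unique ⟨hA h h1, e ▸ h4⟩ ⟨h1, h3⟩,
        fun e => hu h1 (hB h h2) h2 (e ▸ h4) h3⟩
    obtain ⟨γ, h4, -, h5, h6⟩ := k1 θ h1
    obtain rfl := h6 β h2 h3
    rw [l1.charDegree_eq_of_real hK r1, l2.charDegree_eq_of_real hC r2, e1, Nat.cast_mul,
      Nat.cast_mul, (ZMod.natCast_eq_natCast_iff _ _ _).2 (index_modEq_relIndex_normalizer P h1),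
      index_comap, hH]
    refine h5.imp (fun h => ?_) fun h => ?_ <;> simp [h]
  have hnd : ∀ {a b : ℕ}, ((a : ZMod p) = b ∨ (a : ZMod p) = -b) → (p ∣ a ↔ p ∣ b) := by
    rintro a b (h | h) <;> simp [← ZMod.natCast_eq_zero_iff, h]
  let Rel : {χ : IrrCharacter G // (∀ g, (χ g).im = 0) ∧ ¬ p ∣ charDegree χ.1} →
      {ξ : IrrCharacter H // (∀ g, (ξ g).im = 0) ∧ ¬ p ∣ charDegree ξ.1} → Prop := fun χ ξ =>
    ∃ (θ : IrrCharacter K) (β : IrrCharacter C), LiesOver f χ.1.1 θ.1 ∧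
      LiesOver c ξ.1.1 β.1 ∧ (P : Subgroup G) ≤ inertia f θ ∧
      (P : Subgroup G).comap i ≤ inertia c β ∧ ¬ p ∣ ipNat (θ.1 ∘ j) β.1
  have e1 : ∀ χ, ∃ ξ, Rel χ ξ := fun χ => by
    obtain ⟨θ, h1, h2⟩ := χ.1.exists_liesOver_le_inertia f χ.2.2 P.2
    obtain ⟨β, h3, h5, -⟩ := k1 θ h2
    obtain ⟨ξ, ⟨h6, h7⟩, -⟩ := existsUnique_liesOver_real c hC
      ((hreal h2 h3 h5).1 (h1.real_of_odd_index hK χ.2.1))
    exact ⟨⟨ξ, h7, fun e => χ.2.2 ((hnd (hdeg χ.2.1 h7 h1 h6 h2 h3 h5)).1 e)⟩,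
      θ, β, h1, h6, h2, h3, h5⟩
  have e2 : ∀ ξ, ∃ χ, Rel χ ξ := fun ξ => by
    obtain ⟨β, h1, h2⟩ := ξ.1.exists_liesOver_le_inertia c ξ.2.2 (P.2.comap_of_injective i hi)
    obtain ⟨θ, ⟨h3, h4⟩, -⟩ := k2 β h2
    obtain ⟨χ, ⟨h6, h7⟩, -⟩ := existsUnique_liesOver_real f hK
      ((hreal h3 h2 h4).2 (h1.real_of_odd_index hC ξ.2.1))
    exact ⟨⟨χ, h7, fun e => ξ.2.2 ((hnd (hdeg h7 ξ.2.1 h6 h1 h3 h2 h4)).2 e)⟩,
      θ, β, h6, h1, h3, h2, h4⟩
  have e3 : ∀ χ ξ ξ', Rel χ ξ → Rel χ ξ' → ξ = ξ' := by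
    rintro χ ξ ξ' ⟨θ, β, h1, h2, h3, h4, h5⟩ ⟨θ', β', h1', h2', h3', h4', h5'⟩
    obtain ⟨h, rfl⟩ := mem_conjOrbit.1 (h1.mem_conjOrbit h1')
    obtain ⟨t, ht, h6⟩ := exists_mul_mem_normalizer_sylow P
      ((map_mono h3).trans (inertia_conjAut_smul f h θ).ge)
    obtain ⟨x, hx⟩ := hH.ge (h6 h3')
    have h7 : conjAut f h • θ = conjAut f (i x) • θ := by
      rw [hx, map_mul, mul_smul, mem_inertia.1 ht]
    rw [h7] at h5' h3'
    obtain rfl := hu h3' h4' (hB x h4) h5' (by rwa [hR])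
    rw [liesOver_conjAut_smul_iff ξ'.1.isClassFunction] at h2'
    exact Subtype.ext ((existsUnique_liesOver_real c hC
      (h2.real_of_odd_index hC ξ.2.1)).unique ⟨h2, ξ.2.1⟩ ⟨h2', ξ'.2.1⟩)
  have e4 : ∀ χ χ' ξ, Rel χ ξ → Rel χ' ξ → χ = χ' := by
    rintro χ χ' ξ ⟨θ, β, h1, h2, h3, h4, h5⟩ ⟨θ', β', h1', h2', h3', h4', h5'⟩
    obtain ⟨h, rfl⟩ := h2.exists_conjAut_smul_eq h2'
    obtain rfl := (k2 _ h4').unique ⟨h3', h5'⟩ ⟨hA h h3, by rwa [hR]⟩
    rw [liesOver_conjAut_smul_iff χ'.1.isClassFunction] at h1'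
    exact Subtype.ext ((existsUnique_liesOver_real f hK
      (h1.real_of_odd_index hK χ.2.1)).unique ⟨h1, χ.2.1⟩ ⟨h1', χ'.2.1⟩)
  choose F hF using e1
  refine ⟨F, ⟨fun χ χ' e => e4 _ _ _ (hF χ) (e ▸ hF χ'), fun ξ => ?_⟩, fun χ => ?_⟩
  · obtain ⟨χ, h⟩ := e2 ξ
    exact ⟨χ, e3 _ _ _ (hF χ) h⟩
  · obtain ⟨θ, β, h1, h2, h3, h4, h5⟩ := hF χ
    exact hdeg χ.2.1 (F χ).2.1 h1 h2 h3 h4 h5

theorem exists_real_pPrime_bijection [hp : Fact p.Prime] (P : Sylow p G) {K : Subgroup G}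
    [K.Normal] (hK : Odd K.index) [hQ : ((P : Subgroup G) ⊓ K).Normal] :
    ∃ F : {χ : IrrCharacter G // (∀ g, (χ g).im = 0) ∧ ¬ p ∣ charDegree χ.1} →
      {ξ : IrrCharacter (normalizer ((P : Subgroup G) : Set G)) //
        (∀ g, (ξ g).im = 0) ∧ ¬ p ∣ charDegree ξ.1}, Function.Bijective F ∧
      ∀ χ, (charDegree (F χ).1.1 : ZMod p) = charDegree χ.1.1 ∨
        (charDegree (F χ).1.1 : ZMod p) = -charDegree χ.1.1 := by
  obtain ⟨k1, k2⟩ := relGlaub_sylow P (subtype_injective _) (range_subtype _) (K := K)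
    (j := ((normalizer ((P : Subgroup G) : Set G)).subtype.comp (Subgroup.subtype _)).codRestrict K
      fun x => x.2) fun _ => rfl
  exact exists_real_pPrime_bijection_aux P (f := K.subtype)
    (c := (K.comap (normalizer ((P : Subgroup G) : Set G)).subtype).subtype) (by rwa [range_subtype]) (subtype_injective _)
    (range_subtype _) (by
      rw [range_subtype, index_comap]
      exact hK.of_dvd_nat (relIndex_dvd_index_of_normal _ _)) (fun _ => rfl) k1 k2

theorem exists_isConj_mem_normalizer_of_not_dvd [hp : Fact p.Prime] (P : Sylow p G)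
    {K : Subgroup G} [K.Normal] (hK : Odd K.index) (hp' : ¬ p ∣ Nat.card K)
    (h : ∀ χ : IrrCharacter G, (∀ g, (χ g).im = 0) → ¬ p ∣ charDegree χ.1) {x : G}
    (hx : IsConj x x⁻¹) : ∃ y ∈ normalizer ((P : Subgroup G) : Set G), IsConj x y := by
  have hPK : K ⊓ (P : Subgroup G) = ⊥ :=
    inf_eq_bot_of_coprime_card (IsPGroup.coprime_card_of_not_dvd P.2 hp').symm
  haveI : ((P : Subgroup G) ⊓ K).Normal := by rw [inf_comm, hPK]; infer_instance
  obtain ⟨F, hF, -⟩ := exists_real_pPrime_bijection P hK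
  have h2 := Nat.card_eq_of_bijective F hF
  clear hF F
  set H := normalizer ((P : Subgroup G) : Set G)
  have hc : ∀ c ∈ K, c ∈ H → c ∈ centralizer ((P : Subgroup G) : Set G) := fun c =>
    mem_centralizer_of_mem_normalizer_of_inf_eq_bot (by rw [normalizer_eq_top]; exact le_top) hPK
  have hC : Odd (K.subgroupOf H).subtype.range.index := by
    rw [range_subtype]
    exact hK.of_dvd_nat (relIndex_dvd_index_of_normal _ _)
  have h1 : ∀ ξ : IrrCharacter H, (∀ g, (ξ g).im = 0) → ¬ p ∣ charDegree ξ.1 := fun ξ hξ => by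
    obtain ⟨β, hβ⟩ := ξ.exists_liesOver_below (K.subgroupOf H).subtype
    rw [hβ.charDegree_eq_of_real hC hξ]
    refine hp.out.not_dvd_mul (not_dvd_index_of_sylow_le (P.subtype le_normalizer)
      fun s hs => centralizer_le_inertia _ β fun y hy => ?_) fun e => hp' ?_
    · rw [range_subtype] at hy
      exact Subtype.ext (hc y hy y.2 s hs).symm
    · exact e.trans (β.charDegree_dvd_card.trans (card_comap_dvd_of_injective _ _
        H.subtype_injective))
  rw [Nat.card_congr (Equiv.subtypeEquivRight fun χ => and_iff_left_of_imp (h χ)),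
    Nat.card_congr (Equiv.subtypeEquivRight fun χ => and_iff_left_of_imp (h1 χ)),
    card_real_irr_eq_card_real_classes, card_real_irr_eq_card_real_classes] at h2
  let r : {c : ConjClasses H // ∃ g, ConjClasses.mk g = c ∧ IsConj g g⁻¹} →
      {c : ConjClasses G // ∃ g, ConjClasses.mk g = c ∧ IsConj g g⁻¹} := fun c =>
    ⟨c.1.map H.subtype, by
      obtain ⟨g, h1, h2⟩ := c.2
      exact ⟨g, by rw [← h1]; rfl, H.subtype.map_isConj h2⟩⟩
  have hr : Function.Injective r := by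
    rintro ⟨_, y, rfl, hy⟩ ⟨_, z, rfl, hz⟩ e
    obtain ⟨g, hg⟩ := isConj_iff.1 (ConjClasses.mk_eq_mk_iff_isConj.1 (congrArg Subtype.val e))
    have hy' := hc y (mem_of_isConj_inv_of_odd_index hK (H.subtype.map_isConj hy)) y.2
    have hz' := hc z (mem_of_isConj_inv_of_odd_index hK (H.subtype.map_isConj hz)) z.2
    obtain ⟨t, ht, h3⟩ := exists_mul_mem_normalizer_sylow P (T := centralizer {(z : G)}) (g := g) (by
      rintro _ ⟨s, hs, rfl⟩ _ rfl
      rw [← show g * y * g⁻¹ = z from hg]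
      simp [mul_assoc, ← mul_assoc s, hy' s hs])
    refine Subtype.ext (ConjClasses.mk_eq_mk_iff_isConj.2 (isConj_iff.2
      ⟨⟨_, h3 fun s hs _ e => e ▸ (hz' s hs).symm⟩, Subtype.ext ?_⟩))
    change t * g * y * (t * g)⁻¹ = z
    rw [mul_inv_rev, ← mul_assoc, mul_assoc t, mul_assoc t, show g * y * g⁻¹ = z from hg,
      ← ht _ rfl, mul_inv_cancel_right]
  obtain ⟨⟨_, y, rfl, hy⟩, e⟩ := (hr.bijective_of_nat_card_le h2.le).2 ⟨ConjClasses.mk x, x, rfl, hx⟩
  exact ⟨y, y.2, (ConjClasses.mk_eq_mk_iff_isConj.1 (congrArg Subtype.val e)).symm⟩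

theorem exists_isConj_mem_normalizer_of_real [hp : Fact p.Prime]
    (hs : Group.IsSolvable (pPrimeResidual p G))
    (h : ∀ χ : IrrCharacter G, (∀ g, (χ g).im = 0) → ¬ p ∣ charDegree χ.1) (P : Sylow p G) {x : G}
    (hx : IsConj x x⁻¹) : ∃ y ∈ normalizer ((P : Subgroup G) : Set G), IsConj x y := by
  haveI := sylow_inf_normal_of_real_not_dvd hs h P
  set Q := (P : Subgroup G) ⊓ pPrimeResidual 2 G
  let π := QuotientGroup.mk' Q
  have hπ : Function.Surjective π := QuotientGroup.mk'_surjective Q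
  obtain ⟨y, hy, h1⟩ := exists_isConj_mem_normalizer_of_not_dvd (P.mapSurjective hπ)
    (odd_index_pPrimeResidual_two _) (by
      rw [← map_pPrimeResidual hπ, card_map_mk'_eq_relIndex, inf_relIndex_right]
      exact not_dvd_relIndex_sylow_inf_normal P _)
    (real_not_dvd_of_surjective π hπ h) (map_inv π x ▸ π.map_isConj hx)
  obtain ⟨g, rfl⟩ := isConj_iff.1 h1
  obtain ⟨g, rfl⟩ := hπ g
  refine ⟨g * x * g⁻¹, ?_, isConj_iff.2 ⟨g, rfl⟩⟩
  rw [← sup_eq_left.2 (inf_le_left : Q ≤ P), ← comap_mk'_normalizer_map, mem_comap]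
  rwa [map_mul, map_mul, map_inv]

end Cfsg
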