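import Cfsg.Agent.Char.RelGlaub
import Cfsg.Agent.Char.RelMcKay
import Cfsg.Agent.Char.OddOver
import Cfsg.Agent.Char.BrauerPerm
import Cfsg.Agent.Char.PPrimeDeg
import Cfsg.Agent.Char.Degrees

/-!
# Groups whose real irreducible characters have degrees prime to `p` (Isaacs, Navarro)
-/

set_option autoImplicit false
set_option linter.unusedSectionVars false
set_option linter.unusedVariables false

namespace Cfsg

open Subgroup

universe u v w

variable {p : ℕ} {G : Type u} [Group G] [Finite G] {N : Type v} [Group N] [Finite N]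

theorem card_real_irr_eq_card_real_classes :
    Nat.card {χ : IrrCharacter G // ∀ g, (χ g).im = 0} =
      Nat.card {c : ConjClasses G // ∃ g, ConjClasses.mk g = c ∧ IsConj g g⁻¹} := by
  rw [← card_bar_fixed_eq_card_real_classes]
  exact Nat.card_congr (Equiv.subtypeEquivRight fun χ => χ.real_iff_bar_eq)

theorem exists_real_not_le_charKer (M : Subgroup G) [M.Normal]
    (hlift : ∀ x : G ⧸ M, IsConj x x⁻¹ → ∃ y : G, (y : G ⧸ M) = x ∧ IsConj y y⁻¹) {n : G}
    (hn : n ∈ M) (h1 : n ≠ 1) (hr : IsConj n n⁻¹) :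
    ∃ χ : IrrCharacter G, (∀ g, (χ g).im = 0) ∧ ¬ M ≤ charKer χ.1 := by
  by_contra h
  push Not at h
  let π := QuotientGroup.mk' M
  have hπ : Function.Surjective π := QuotientGroup.mk'_surjective M
  have e1 : Nat.card {χ : IrrCharacter G // ∀ g, (χ g).im = 0} ≤
      Nat.card {χ : IrrCharacter (G ⧸ M) // ∀ g, (χ g).im = 0} := by
    refine Nat.card_le_card_of_surjective
      (fun β => ⟨β.1.inflate π hπ, fun g => β.2 _⟩) fun χ => ?_
    obtain ⟨β, hβ⟩ := χ.1.exists_inflate_eq π hπ fun g hg => χ.1.mem_charKer.1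
      (h _ χ.2 (by rwa [QuotientGroup.ker_mk'] at hg))
    refine ⟨⟨β, fun g => ?_⟩, Subtype.ext hβ⟩
    obtain ⟨g, rfl⟩ := hπ g
    have := χ.2 g
    rwa [← hβ] at this
  rw [card_real_irr_eq_card_real_classes, card_real_irr_eq_card_real_classes] at e1
  let r : {c : ConjClasses G // ∃ g, ConjClasses.mk g = c ∧ IsConj g g⁻¹} →
      {c : ConjClasses (G ⧸ M) // ∃ g, ConjClasses.mk g = c ∧ IsConj g g⁻¹} := fun c =>
    ⟨c.1.map π, by
      obtain ⟨g, h1, h2⟩ := c.2
      exact ⟨π g, by rw [← h1]; rfl, map_inv π g ▸ π.map_isConj h2⟩⟩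
  have hr1 : Function.Surjective r := by
    rintro ⟨_, x, rfl, hx⟩
    obtain ⟨y, rfl, hy⟩ := hlift x hx
    exact ⟨⟨_, y, rfl, hy⟩, rfl⟩
  have hr2 := (hr1.bijective_of_nat_card_le e1).1 (a₁ := ⟨_, n, rfl, hr⟩)
    (a₂ := ⟨_, 1, rfl, by simp⟩) (Subtype.ext (by
      change ConjClasses.mk (π n) = ConjClasses.mk (π 1)
      rw [map_one, QuotientGroup.mk'_apply, (QuotientGroup.eq_one_iff n).2 hn]))
  exact h1 (isConj_one_left.1 (ConjClasses.mk_eq_mk_iff_isConj.1 (congrArg Subtype.val hr2)))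

theorem conj_pow_odd_eq_inv {Q : Type*} [Group Q] {g x : Q} (h : g * x * g⁻¹ = x⁻¹) {m : ℕ}
    (hm : Odd m) : g ^ m * x * (g ^ m)⁻¹ = x⁻¹ := by
  obtain ⟨k, rfl⟩ := hm
  have h2 : Commute (g ^ 2) x := by
    have : g * x⁻¹ * g⁻¹ = x := by rw [← conj_inv, h, inv_inv]
    calc g ^ 2 * x = g * (g * x * g⁻¹) * g⁻¹ * g ^ 2 := by simp [pow_two, mul_assoc]
      _ = x * g ^ 2 := by rw [h, this]
  rw [pow_succ', pow_mul, mul_assoc g, (h2.pow_left k).eq, ← h]
  group

/-- Real elements lift along a normal subgroup of odd order. -/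
theorem exists_real_lift_of_odd (M : Subgroup G) [M.Normal] (hM : Odd (Nat.card M)) (x : G ⧸ M)
    (hx : IsConj x x⁻¹) : ∃ y : G, (y : G ⧸ M) = x ∧ IsConj y y⁻¹ := by
  classical
  obtain ⟨g, hg⟩ := isConj_iff.1 hx
  obtain ⟨g, rfl⟩ := QuotientGroup.mk_surjective g
  obtain ⟨a, m, hm, h1⟩ := Nat.exists_eq_two_pow_mul_odd (orderOf_pos g).ne'
  have h2 := conj_pow_odd_eq_inv hg hm
  rw [← QuotientGroup.mk_pow] at h2
  set t := g ^ m
  have h3 : t ^ 2 ^ a = 1 := by rw [← pow_mul, mul_comm, ← h1, pow_orderOf_eq_one]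
  have h4 : (t : G ⧸ M) * x⁻¹ * (t : G ⧸ M)⁻¹ = x := by rw [← conj_inv, h2, inv_inv]
  let σ : Equiv.Perm {y : G // (y : G ⧸ M) = x} :=
    { toFun := fun y => ⟨t * y.1⁻¹ * t⁻¹, by simp [y.2, h4]⟩
      invFun := fun y => ⟨t⁻¹ * y.1⁻¹ * t, by simp [y.2, ← h2, mul_assoc]⟩
      left_inv := fun y => Subtype.ext (by simp [mul_assoc])
      right_inv := fun y => Subtype.ext (by simp [mul_assoc]) }
  have h5 : ∀ k y, ((σ ^ (2 * k)) y : G) = t ^ (2 * k) * y * (t ^ (2 * k))⁻¹ := fun k y => by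
    induction k with
    | zero => simp
    | succ k ih =>
      rw [mul_add, mul_one, add_comm, pow_add, pow_two, Equiv.Perm.mul_apply, Equiv.Perm.mul_apply]
      change t * (t * ((σ ^ (2 * k)) y : G)⁻¹ * t⁻¹)⁻¹ * t⁻¹ = _
      rw [ih]
      group
  have h6 : σ ^ 2 ^ (a + 1) = 1 := Equiv.ext fun y => Subtype.ext (by
    rw [pow_succ', h5, mul_comm 2, pow_mul, h3]; simp)
  letI := Fintype.ofFinite {y : G // (y : G ⧸ M) = x}
  obtain ⟨x, rfl⟩ := QuotientGroup.mk_surjective x
  have h7 : Nat.card {y : G // (y : G ⧸ M) = x} = Nat.card M := (Nat.card_congr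
    { toFun := fun m : M => (⟨x * m, by simp⟩ : {y : G // (y : G ⧸ M) = x})
      invFun := fun y => ⟨x⁻¹ * y.1, QuotientGroup.eq.1 y.2.symm⟩
      left_inv := fun y => Subtype.ext (by simp)
      right_inv := fun y => Subtype.ext (by simp) }).symm
  obtain ⟨y, hy⟩ := Equiv.Perm.exists_fixed_point_of_prime (p := 2) (by
    rw [← Nat.card_eq_fintype_card, h7]; exact hM.not_two_dvd_nat) h6
  refine ⟨y, y.2, isConj_iff.2 ⟨t, ?_⟩⟩
  have h8 : t * (y : G)⁻¹ * t⁻¹ = y := congrArg Subtype.val hy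
  simpa [mul_assoc] using congrArg (·⁻¹) h8

theorem odd_index_pPrimeResidual_two (G : Type u) [Group G] [Finite G] :
    Odd (pPrimeResidual 2 G).index :=
  Nat.not_even_iff_odd.1 fun h => not_dvd_index_pPrimeResidual 2 G h.two_dvd

theorem mem_of_isConj_inv_of_odd_index {K : Subgroup G} [K.Normal] (hK : Odd K.index) {x : G}
    (hx : IsConj x x⁻¹) : x ∈ K :=
  (QuotientGroup.eq_one_iff x).1 (eq_one_of_isConj_inv_of_odd_card hK
    (map_inv (QuotientGroup.mk' K) x ▸ (QuotientGroup.mk' K).map_isConj hx))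

/-- A `2`-element not centralizing a normal abelian subgroup of odd order has a power inverting a
non-identity element. -/
theorem exists_isConj_inv_of_not_le_centralizer {M : Subgroup G} [M.Normal] [IsMulCommutative M]
    (h : ¬ pPrimeResidual 2 G ≤ centralizer (M : Set G)) :
    ∃ n ∈ M, n ≠ 1 ∧ IsConj n n⁻¹ := by
  classical
  rw [pPrimeResidual_le_iff, not_not] at h
  obtain ⟨t, ht⟩ := exists_prime_orderOf_dvd_card' (G := G ⧸ centralizer (M : Set G)) 2 h
  obtain ⟨t, rfl⟩ := QuotientGroup.mk_surjective t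
  have h1 : t ∉ centralizer (M : Set G) := fun h => by
    rw [(QuotientGroup.eq_one_iff t).2 h, orderOf_one] at ht
    exact absurd ht (by norm_num)
  have h2 : t ^ 2 ∈ centralizer (M : Set G) := by
    rw [← QuotientGroup.eq_one_iff, QuotientGroup.mk_pow, ← ht, pow_orderOf_eq_one]
  rw [mem_centralizer_iff] at h1 h2
  push Not at h1
  obtain ⟨m, hm, h1⟩ := h1
  refine ⟨m⁻¹ * (t * m * t⁻¹), M.mul_mem (M.inv_mem hm) (‹M.Normal›.conj_mem _ hm _),
    fun h => h1 ?_, isConj_iff.2 ⟨t, ?_⟩⟩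
  · rw [inv_mul_eq_one, eq_mul_inv_iff_mul_eq] at h
    exact h
  · calc t * (m⁻¹ * (t * m * t⁻¹)) * t⁻¹ = (t * m * t⁻¹)⁻¹ * (t ^ 2 * m * (t ^ 2)⁻¹) := by group
      _ = _ := by rw [← h2 m hm]; group

theorem real_not_dvd_of_odd_index (f : N →* G) [IsNormalEmb f] (hodd : Odd f.range.index)
    (h : ∀ χ : IrrCharacter G, (∀ g, (χ g).im = 0) → ¬ p ∣ charDegree χ.1) (θ : IrrCharacter N)
    (hθ : ∀ g, (θ g).im = 0) : ¬ p ∣ charDegree θ.1 := by
  obtain ⟨χ, ⟨h1, h2⟩, -⟩ := existsUnique_liesOver_real f hodd hθ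
  exact fun e => h χ h2 (e.trans h1.charDegree_dvd)

theorem real_not_dvd_of_surjective {Q : Type*} [Group Q] [Finite Q] (π : G →* Q)
    (hπ : Function.Surjective π)
    (h : ∀ χ : IrrCharacter G, (∀ g, (χ g).im = 0) → ¬ p ∣ charDegree χ.1) (β : IrrCharacter Q)
    (hβ : ∀ g, (β g).im = 0) : ¬ p ∣ charDegree β.1 :=
  β.charDegree_inflate π hπ ▸ h _ fun g => hβ _

theorem sylow_normal_of_real_not_dvd [hp : Fact p.Prime] (n : ℕ) :
    ∀ (G : Type u) [Group G] [Finite G], Nat.card G = n →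
    Group.IsSolvable (pPrimeResidual p G) →
    (∀ χ : IrrCharacter G, (∀ g, (χ g).im = 0) → ¬ p ∣ charDegree χ.1) →
    pResidual p G ≤ pPrimeResidual 2 G → ∀ P : Sylow p G, (P : Subgroup G).Normal := by
  induction n using Nat.strong_induction_on with
  | _ n ih =>
  intro G _ _ hn hs h hK P
  by_cases hL : pPrimeResidual p G = ⊥
  · rw [le_bot_iff.1 ((le_pPrimeResidual_of_isPGroup P.2).trans hL.le)]
    infer_instance
  obtain ⟨M, hM, hML⟩ := exists_isMinNormal_le _ hL
  haveI := hM.normal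
  haveI : Group.IsSolvable M := Group.isSolvable_of_isSolvable_injective (inclusion_injective hML)
  obtain ⟨q, hq, hMq⟩ := hM.exists_isElementaryAbelian
  haveI := hM.isMulCommutative_of_isSolvable
  let π := QuotientGroup.mk' M
  have hπ : Function.Surjective π := QuotientGroup.mk'_surjective M
  have h1 := ih _ (hn ▸ card_quotient_lt hM.ne_bot) (G ⧸ M) rfl (by
      rw [← map_pPrimeResidual hπ]
      exact Group.isSolvable_of_surjective (π.subgroupMap_surjective _))
    (real_not_dvd_of_surjective π hπ h)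
    (by rw [← map_pPrimeResidual hπ, ← map_pResidual hπ]; exact map_mono hK) (P.mapSurjective hπ)
  have h2 : ((P : Subgroup G) ⊔ M).Normal := by
    have := h1.comap π
    rwa [Sylow.coe_mapSurjective, comap_map_eq, QuotientGroup.ker_mk'] at this
  by_cases hqp : q = p
  · subst hqp
    rwa [sup_eq_left.2 (hMq.isPGroup.le_sylow_of_normal P)] at h2
  have hpM : ¬ p ∣ Nat.card M := fun e => by
    haveI := Fact.mk hq
    obtain ⟨k, hk⟩ := hMq.isPGroup.exists_card_eq
    exact hqp ((Nat.prime_dvd_prime_iff_eq hp.out hq).1 (hp.out.dvd_of_dvd_pow (hk ▸ e))).symm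
  set H := normalizer ((P : Subgroup G) : Set G)
  have h3 : M ⊔ H = ⊤ := by rw [← normalizer_sup_sylow, sup_comm, normalizer_eq_top]
  have h4 : (M ⊓ H).Normal := by
    rw [← normalizer_eq_top_iff, eq_top_iff, ← h3, sup_le_iff]
    refine ⟨fun x hx => centralizer_le_normalizer _ fun y hy => ?_,
      inf_comm M H ▸ le_normalizer.trans (normalizer_le_normalizer_inf_normal H M)⟩
    exact congrArg Subtype.val (mul_comm' (⟨y, hy.1⟩ : M) ⟨x, hx⟩)
  rcases hM.eq_bot_or_eq _ h4 inf_le_left with h5 | h5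
  swap
  · rwa [sup_eq_right.2 (inf_eq_left.1 h5), normalizer_eq_top_iff] at h3
  have h6 : ∃ n ∈ M, n ≠ 1 ∧ IsConj n n⁻¹ := by
    by_cases hq2 : q = 2
    · obtain ⟨⟨x, hx⟩, hx1⟩ := ne_bot_iff_exists_ne_one.1 hM.ne_bot
      refine ⟨x, hx, fun e => hx1 (Subtype.ext e), ?_⟩
      rw [inv_eq_of_mul_eq_one_left (a := x) (b := x) (by rw [← pow_two, ← hq2, hMq.2 x hx])]
    refine exists_isConj_inv_of_not_le_centralizer fun h7 => hM.ne_bot ?_
    set K := pPrimeResidual 2 G
    have h8 : M ≤ K := (le_pResidual_of_not_dvd hpM).trans hK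
    have h9 : (H ⊓ K).Normal := by
      rw [← normalizer_eq_top_iff, eq_top_iff, ← h3, sup_le_iff]
      exact ⟨fun x hx => centralizer_le_normalizer _ fun y hy => (h7 hy.2 x hx).symm,
        le_normalizer.trans (normalizer_le_normalizer_inf_normal H K)⟩
    have h10 : K ≤ H ⊓ K := by
      rw [pPrimeResidual_le_iff, ← relIndex_mul_index inf_le_right, inf_relIndex_right]
      refine Nat.prime_two.not_dvd_mul (fun e => ?_) (not_dvd_index_pPrimeResidual 2 G)
      haveI := Fact.mk hq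
      obtain ⟨k, hk⟩ := hMq.isPGroup.exists_card_eq
      have := e.trans (relIndex_normal_dvd_index H K)
      rw [(isComplement'_of_inf_of_sup h5 (sup_comm M H ▸ h3)).index_eq_card, hk] at this
      exact hq2 ((Nat.prime_dvd_prime_iff_eq Nat.prime_two hq).1
        (Nat.prime_two.dvd_of_dvd_pow this)).symm
    exact le_bot_iff.1 (h5 ▸ le_inf le_rfl ((h8.trans h10).trans inf_le_left))
  obtain ⟨m, hm, hm1, hm2⟩ := h6
  obtain ⟨χ, hχ, h7⟩ := exists_real_not_le_charKer M (fun x hx => by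
    let e := complementEquivQuotient h5 (sup_comm M H ▸ h3)
    obtain ⟨y, rfl⟩ := e.surjective x
    refine ⟨y, rfl, ?_⟩
    have := (H.subtype.comp e.symm.toMonoidHom).map_isConj hx
    simpa using this) hm hm1 hm2
  obtain ⟨θ, h8, h9⟩ := χ.exists_liesOver_le_inertia M.subtype (h χ hχ) P.2
  obtain rfl := (forall_le_inertia_eq_one_iff M.subtype P.2 hpM).2 (by
    rw [range_subtype, eq_bot_iff, ← h5]
    exact inf_le_inf_left _ (centralizer_le_normalizer _)) θ h9
  exact absurd (fun x hx => χ.mem_charKer.2 ((χ.liesOver_one_iff M.subtype).1 h8 ⟨x, hx⟩)) h7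

theorem sylow_normal_of_real_not_dvd_of_relIndex [hp : Fact p.Prime]
    (hs : Group.IsSolvable (pPrimeResidual p G))
    (h : ∀ χ : IrrCharacter G, (∀ g, (χ g).im = 0) → ¬ p ∣ charDegree χ.1) {U : Subgroup G}
    [U.Normal] (hKU : pPrimeResidual 2 G ≤ U) {a : ℕ}
    (ha : (pPrimeResidual 2 G).relIndex U = p ^ a) (Q : Sylow p U) : (Q : Subgroup U).Normal := by
  refine sylow_normal_of_real_not_dvd _ U rfl (Group.isSolvable_of_isSolvable_injective
    (f := (U.subtype.comp (pPrimeResidual p U).subtype).codRestrict _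
      fun x => map_pPrimeResidual_le U.subtype ⟨x, x.2, rfl⟩)
    fun x y e => Subtype.ext (Subtype.ext (congrArg Subtype.val e :)))
    (real_not_dvd_of_odd_index U.subtype (by
      rw [range_subtype]
      exact (odd_index_pPrimeResidual_two G).of_dvd_nat (index_dvd_of_le hKU)) h) ?_ Q
  have : pPrimeResidual 2 U = (pPrimeResidual 2 G).subgroupOf U := by
    rw [← map_pPrimeResidual_of_le hKU, subgroupOf, comap_map_eq_self_of_injective U.subtype_injective]
  rw [this]
  exact pResidual_le ha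

theorem sylow_inf_normal_of_real_not_dvd [hp : Fact p.Prime]
    (hs : Group.IsSolvable (pPrimeResidual p G))
    (h : ∀ χ : IrrCharacter G, (∀ g, (χ g).im = 0) → ¬ p ∣ charDegree χ.1) (P : Sylow p G) :
    ((P : Subgroup G) ⊓ pPrimeResidual 2 G).Normal := by
  haveI := sylow_normal_of_real_not_dvd_of_relIndex hs h le_rfl (a := 0) (by simp)
    (sylowInfNormal P _)
  haveI := Sylow.characteristic_of_normal (sylowInfNormal P (pPrimeResidual 2 G)) this
  rw [← map_sylowInfNormal]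
  infer_instance

theorem le_centralizer_of_real_not_dvd [hp : Fact p.Prime] (hp2 : p ≠ 2) (n : ℕ) :
    ∀ (G : Type u) [Group G] [Finite G], Nat.card G = n →
    (∀ χ : IrrCharacter G, (∀ g, (χ g).im = 0) → ¬ p ∣ charDegree χ.1) →
    ∀ (P : Sylow p G) (M : Subgroup G), M.Normal → M ≤ ⁅(P : Subgroup G), (P : Subgroup G)⁆ →
    pPrimeResidual 2 G ≤ centralizer (M : Set G) := by
  induction n using Nat.strong_induction_on with
  | _ n ih =>
  intro G _ _ hn h P M _ hMP
  by_cases hM : M = ⊥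
  · intro x _ y hy
    rw [hM] at hy
    rw [mem_bot.1 hy, one_mul, mul_one]
  obtain ⟨L, hL, hLM⟩ := exists_isMinNormal_le _ hM
  haveI := hL.normal
  have hPP : ⁅(P : Subgroup G), (P : Subgroup G)⁆ ≤ P := commutator_le.2 fun x hx y hy =>
    mul_mem (mul_mem (mul_mem hx hy) (inv_mem hx)) (inv_mem hy)
  have hLp : IsPGroup p L := P.2.to_le (hLM.trans (hMP.trans hPP))
  haveI := (hL.isElementaryAbelian_of_isPGroup hLp).1
  obtain ⟨k, hk⟩ := hLp.exists_card_eq
  have hodd : Odd (Nat.card L) := hk ▸ (hp.out.odd_of_ne_two hp2).pow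
  have h1 : pPrimeResidual 2 G ≤ centralizer (L : Set G) := by
    by_contra h1
    obtain ⟨m, hm, hm1, hm2⟩ := exists_isConj_inv_of_not_le_centralizer h1
    obtain ⟨χ, hχ, h2⟩ := exists_real_not_le_charKer L (exists_real_lift_of_odd L hodd) hm hm1 hm2
    obtain ⟨θ, h3, h4⟩ := χ.exists_liesOver_below_not_dvd (P : Subgroup G).subtype (h χ hχ)
    refine h2 (h3.le_charKer_of_le_map (subtype_injective _) (hLM.trans (hMP.trans ?_)))
    rw [← map_subtype_commutator]
    refine map_mono (θ.commutator_le_charKer_iff.2 ?_)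
    rw [θ.apply_one, θ.charDegree_eq_one_of_le_charKer h4 bot_le (P.2.to_quotient ⊥), Nat.cast_one]
  let π := QuotientGroup.mk' L
  have hπ : Function.Surjective π := QuotientGroup.mk'_surjective L
  have h2 := ih _ (hn ▸ card_quotient_lt hL.ne_bot) (G ⧸ L) rfl (real_not_dvd_of_surjective π hπ h)
    (P.mapSurjective hπ) (M.map π) (‹M.Normal›.map π hπ) (by
      rw [Sylow.coe_mapSurjective, ← map_commutator]; exact map_mono hMP)
  rw [← map_pPrimeResidual hπ] at h2
  refine (closure_le _).2 fun t ⟨a, ha⟩ m hm => ?_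
  have ht : t ∈ pPrimeResidual 2 G := mem_pPrimeResidual ⟨a, ha⟩
  refine (commute_of_commutator_mem_of_coprime (M := L) (fun x hx y hy => ?_) ?_ ?_).eq.symm
  · rw [Set.mem_singleton_iff.1 hy]; exact (h1 ht x hx).symm
  · rw [← QuotientGroup.eq_one_iff]
    have := h2 ⟨t, ht, rfl⟩ _ ⟨m, hm, rfl⟩
    change π _ = 1
    rw [map_mul, map_mul, map_mul, mul_assoc _ (π t), ← this, map_inv, map_inv]
    group
  · rw [ha]; exact (Nat.coprime_two_right.2 hodd).pow_right _

theorem LiesOver.real_of_odd_index {f : N →* G} [IsNormalEmb f] (hodd : Odd f.range.index)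
    {χ : IrrCharacter G} (hχ : ∀ g, (χ g).im = 0) {θ : IrrCharacter N} (h : LiesOver f χ.1 θ.1) :
    ∀ n, (θ n).im = 0 := by
  have h1 : LiesOver f χ.1 θ.bar.1 := χ.real_iff_bar_eq.1 hχ ▸ h.bar
  obtain ⟨g, hg⟩ := h.exists_conjAut_smul_eq h1
  have h2 : g ^ 2 ∈ inertia f θ := by
    rw [mem_inertia, pow_two, map_mul, mul_smul, hg]
    exact (congrArg IrrCharacter.bar hg).trans θ.bar_bar_eq
  obtain ⟨k, hk⟩ := hodd
  have h3 := range_le_inertia f θ (f.range.pow_index_mem g)
  rw [hk, pow_succ, pow_mul, (inertia f θ).mul_mem_cancel_left (pow_mem h2 k)] at h3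
  rw [θ.real_iff_bar_eq, ← hg, mem_inertia.1 h3]

theorem LiesOver.charDegree_eq_of_real {f : N →* G} [IsNormalEmb f] (hodd : Odd f.range.index)
    {χ : IrrCharacter G} (hχ : ∀ g, (χ g).im = 0) {θ : IrrCharacter N} (h : LiesOver f χ.1 θ.1) :
    charDegree χ.1 = (inertia f θ).index * charDegree θ.1 := by
  have hθ := h.real_of_odd_index hodd hχ
  obtain ⟨η, h1, h2⟩ := exists_extension_real (toInertia f θ) (hodd.of_dvd_nat (by
    rw [range_toInertia]; exact relIndex_dvd_index_of_normal _ _)) hθ (inertia_toInertia f θ)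
  have h3 := liesOver_of_comp_eq h1
  have hT : inertia f θ ≤ (inertia f θ).subtype.range := (range_subtype _).ge
  let ψ : IrrCharacter G := ⟨_, clifford_isIrr_ind (subtype_injective _) (fun _ => rfl) hT h3⟩
  have h4 : χ = ψ := (existsUnique_liesOver_real f hodd hθ).unique ⟨h, hχ⟩
    ⟨liesOver_ind_of_liesOver (subtype_injective _) (fun _ => rfl) θ.isCharacter η.isCharacter h3,
      im_eq_zero_iff_star_eq.2 (by
        change star (ind _ η.1) = ind _ η.1
        rw [← ind_star, im_eq_zero_iff_star_eq.1 h2])⟩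
  rw [h.charDegree_eq, h4, clifford_ipNat_eq (subtype_injective _) (fun _ => rfl) hT h3, h1,
    θ.ipNat_self, one_mul]

theorem index_modEq_relIndex_normalizer [hp : Fact p.Prime] (P : Sylow p G) {T : Subgroup G}
    (h : (P : Subgroup G) ≤ T) :
    T.index ≡ T.relIndex (normalizer ((P : Subgroup G) : Set G)) [MOD p] := by
  have h1 : (normalizer ((P : Subgroup G) : Set G)).index ≡ 1 [MOD p] :=
    P.card_eq_index_normalizer ▸ card_sylow_modEq_one p G
  have h2 : (normalizer ((P : Subgroup G) : Set G)).relIndex T ≡ 1 [MOD p] := by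
    rw [relIndex, subgroupOf_normalizer_eq h]
    exact (P.subtype h).card_eq_index_normalizer ▸ card_sylow_modEq_one p T
  have h3 := (relIndex_mul_index (inf_le_left (a := T)
    (b := normalizer ((P : Subgroup G) : Set G)))).trans (relIndex_mul_index inf_le_right).symm
  rw [inf_relIndex_left, inf_relIndex_right] at h3
  have h4 := (h2.mul_right T.index).symm
  rw [h3, one_mul] at h4
  exact h4.trans (by simpa using h1.mul_left _)

end Cfsg
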