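import Cfsg.Agent.Char.IsaacsOdd
import Cfsg.Agent.Char.PCorr

/-!
# The relative Glauberman correspondence over a normal Hall subgroup
-/

set_option autoImplicit false
set_option linter.unusedSectionVars false
set_option linter.unusedVariables false

namespace Cfsg

universe u v w

variable {p : ℕ} {G : Type u} [Group G] [Finite G] {N : Type v} [Group N] [Finite N]
  {S : Type w} [Group S] {H : Type*} [Group H] [Finite H]

theorem exists_quotAut (φ : S →* MulAut G) (K : Subgroup G) [K.Normal]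
    (h : ∀ s, ∀ g ∈ K, φ s g ∈ K) :
    ∃ Φ : S →* MulAut (G ⧸ K), ∀ s (g : G), Φ s (g : G ⧸ K) = (φ s g : G) := by
  let m : S → G ⧸ K →* G ⧸ K := fun s => QuotientGroup.map K K (φ s).toMonoidHom (h s)
  have hm : ∀ s t x, m (s * t) x = m s (m t x) := fun s t x => by
    induction x using QuotientGroup.induction_on
    simp [m]
  have h1 : ∀ x, m 1 x = x := fun x => by
    induction x using QuotientGroup.induction_on
    simp [m]
  exact ⟨MonoidHom.mk' (fun s => MonoidHom.toMulEquiv (m s) (m s⁻¹)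
    (MonoidHom.ext fun x => by simp [← hm, h1]) (MonoidHom.ext fun x => by simp [← hm, h1]))
    fun s t => MulEquiv.ext fun x => hm s t x, fun _ _ => rfl⟩

theorem ipNat_gallagher {Q : Type*} [Group Q] [Finite Q] {f : N →* G} [IsNormalEmb f]
    {π : G →* Q} (hπ : Function.Surjective π) (hker : π.ker = f.range) {χ : G → ℂ}
    (hχ : IsCharacter G χ) (hirr : IsIrrCharacter N (χ ∘ f)) {β : Q → ℂ} (hβ : IsCharacter Q β)
    (γ : IrrCharacter Q) : ipNat (β ∘ π * χ) (γ.1 ∘ π * χ) = ipNat β γ.1 := by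
  classical
  refine ipNat_eq_of_ip_eq ?_
  have h1 : β ∘ π * χ = ∑ δ : IrrCharacter Q, (ipNat β δ.1 : ℂ) • (δ.1 ∘ π * χ) := by
    conv_lhs => rw [hβ.eq_sum_ipNat]
    ext x
    simp [Finset.sum_mul, mul_assoc]
  rw [h1, ip_sum_left, Finset.sum_eq_single γ (fun δ _ hδ => ?_) (by simp), ip_smul_left,
    (gallagher_isIrr hπ hker hχ hirr γ).ip_self, mul_one]
  rw [ip_smul_left, mul_eq_zero]
  refine Or.inr (by_contra fun h => hδ (gallagher_injective hπ hker hχ hirr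
    ((gallagher_isIrr hπ hker hχ hirr δ).eq_of_ip_ne_zero (gallagher_isIrr hπ hker hχ hirr γ) h)))

theorem liesOver_of_not_dvd_ipNat {j : H →* G} {χ : IrrCharacter G} {ξ : IrrCharacter H}
    (h : ¬ p ∣ ipNat (χ.1 ∘ j) ξ.1) : LiesOver j χ.1 ξ.1 :=
  (liesOver_iff_ipNat_pos χ.isCharacter ξ.isCharacter).2
    (Nat.pos_of_ne_zero fun e => h (e ▸ dvd_zero p))

theorem relGlaub_of_inertia_eq_top [hp : Fact p.Prime] (hS : IsPGroup p S)
    {f : N →* G} [hf : IsNormalEmb f] {φ : S →* MulAut G} {ψ : S →* MulAut N}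
    (hc : ∀ s n, f (ψ s n) = φ s (f n)) (hN : (Nat.card N).Coprime f.range.index)
    (hp' : ¬ p ∣ f.range.index) {j : H →* G}
    (hj : Function.Injective j) (hH : ∀ g, g ∈ j.range ↔ ∀ s, g⁻¹ * φ s g ∈ f.range)
    {a : N →* H} (ha : ∀ n, j (a n) = f n) {θ : IrrCharacter N} (hT : inertia f θ = ⊤)
    (hθ : ∀ s, ψ s • θ = θ) :
    (∀ χ : IrrCharacter G, LiesOver f χ.1 θ.1 → (∀ s, φ s • χ = χ) →
      ∃ ξ : IrrCharacter H, ((ipNat (χ.1 ∘ j) ξ.1 : ℤ) ≡ 1 [ZMOD p] ∨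
        (ipNat (χ.1 ∘ j) ξ.1 : ℤ) ≡ -1 [ZMOD p]) ∧ ∀ ξ', ¬ p ∣ ipNat (χ.1 ∘ j) ξ'.1 → ξ' = ξ) ∧
    ∀ ξ : IrrCharacter H, LiesOver a ξ.1 θ.1 →
      ∃! χ : IrrCharacter G, (∀ s, φ s • χ = χ) ∧ ¬ p ∣ ipNat (χ.1 ∘ j) ξ.1 := by
  haveI := IsNormalEmb.of_factor hj ha
  obtain ⟨η, ⟨h1, h2⟩, h3⟩ := existsUnique_extension_of_coprime_card hT hN
  have hη : ∀ s, φ s • η = η := fun s => h3 _ ⟨by
    rw [← hθ s]
    ext n
    obtain ⟨n, rfl⟩ := (ψ s).surjective n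
    simp [hc, ← h1], by rwa [IrrCharacter.detOrder_smul]⟩
  obtain ⟨Φ, hΦ⟩ := exists_quotAut φ f.range (by rintro s _ ⟨n, rfl⟩; exact ⟨_, hc s n⟩)
  let π := QuotientGroup.mk' f.range
  have hπ : Function.Surjective π := QuotientGroup.mk'_surjective _
  have hker : π.ker = f.range := QuotientGroup.ker_mk' _
  let ρ := (π.comp j).rangeRestrict
  have hρ : Function.Surjective ρ := MonoidHom.rangeRestrict_surjective _
  have hker' : ρ.ker = a.range := by
    rw [MonoidHom.ker_rangeRestrict, ← MonoidHom.comap_ker, hker]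
    ext x
    exact ⟨fun ⟨n, hn⟩ => ⟨n, hj (by rw [ha, hn])⟩, fun ⟨n, hn⟩ => ⟨n, by rw [← hn, ha]⟩⟩
  have hgl := isGlaub_of_pGroup hp.out Φ (fun s => by
      obtain ⟨k, hk⟩ := hS s
      exact ⟨k, by rw [← map_pow, hk, map_one]⟩) hp' (π.comp j).range.subtype_injective
    fun x => by
      obtain ⟨g, rfl⟩ := hπ x
      rw [Subgroup.range_subtype, ← MonoidHom.map_range, ← Subgroup.mem_comap,
        Subgroup.comap_map_eq, hker, sup_eq_left.2 (by rintro _ ⟨n, rfl⟩; exact ⟨_, ha n⟩), hH]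
      exact forall_congr' fun s => by
        rw [QuotientGroup.mk'_apply, hΦ, eq_comm, QuotientGroup.eq]
  have h4 : (η.1 ∘ j) ∘ a = θ.1 := by rw [← h1]; ext n; simp [ha]
  have hirr : IsIrrCharacter N (η.1 ∘ f) := h1 ▸ θ.2
  have hirr' : IsIrrCharacter N ((η.1 ∘ j) ∘ a) := h4 ▸ θ.2
  have m : ∀ {β : IrrCharacter (G ⧸ f.range)} {γ : IrrCharacter (π.comp j).range}
      {χ : IrrCharacter G} {ξ : IrrCharacter H}, χ.1 = β.1 ∘ π * η.1 →
      ξ.1 = γ.1 ∘ ρ * η.1 ∘ j → ipNat (χ.1 ∘ j) ξ.1 =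
        ipNat (β.1 ∘ (π.comp j).range.subtype) γ.1 := fun {β γ χ ξ} e1 e2 => by
    rw [e1, e2, ← ipNat_gallagher hρ hker' (η.isCharacter.comp j) hirr' (β.isCharacter.comp _)]
    rfl
  have inv : ∀ {β : IrrCharacter (G ⧸ f.range)} {χ : IrrCharacter G}, χ.1 = β.1 ∘ π * η.1 →
      ((∀ s, φ s • χ = χ) ↔ ∀ s, Φ s • β = β) := fun {β χ} e => forall_congr' fun s => by
    have e2 : (φ s • χ).1 = (Φ s • β).1 ∘ π * η.1 := by
      ext g
      obtain ⟨g, rfl⟩ := (φ s).surjective g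
      have := IrrCharacter.mulAut_smul_eq_iff.1 (hη s) g
      simp only [π, Pi.mul_apply, Function.comp_apply, QuotientGroup.mk'_apply, ← hΦ, this]
      simp [e, π]
    exact ⟨fun h => gallagher_injective hπ hker η.isCharacter hirr (by rw [← e2, h, e]),
      fun h => Subtype.ext (by rw [e2, h, e])⟩
  refine ⟨fun χ h5 h6 => ?_, fun ξ h5 => ?_⟩
  · obtain ⟨β, e⟩ := gallagher_exists hπ hker η.isCharacter h1 h5
    obtain ⟨γ, h7, h8⟩ := hgl.exists_right β ((inv e).1 h6)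
    refine ⟨⟨_, gallagher_isIrr hρ hker' (η.isCharacter.comp j) hirr' γ⟩, by rwa [m e rfl],
      fun ξ' h9 => ?_⟩
    obtain ⟨θ', h11⟩ := ξ'.exists_liesOver_below a
    obtain rfl : θ' = θ := LiesOver.eq_of_comp_eq_smul (h5.comp_eq_smul_of_inertia_eq_top hT)
      (LiesOver.trans_of_eq ha χ.isCharacter θ'.isCharacter (liesOver_of_not_dvd_ipNat h9) h11)
    obtain ⟨γ', e'⟩ := gallagher_exists hρ hker' (η.isCharacter.comp j) h4 h11
    obtain rfl : γ' = γ := by_contra fun h => h9 (m e e' ▸ h8 γ' h)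
    exact Subtype.ext e'
  · obtain ⟨γ, e'⟩ := gallagher_exists hρ hker' (η.isCharacter.comp j) h4 h5
    obtain ⟨β, ⟨h6, h7⟩, h8⟩ := hgl.existsUnique_left γ
    refine ⟨⟨_, gallagher_isIrr hπ hker η.isCharacter hirr β⟩, ⟨(inv rfl).2 h6, by rwa [m rfl e']⟩,
      fun χ' ⟨h9, h10⟩ => ?_⟩
    obtain ⟨β', e⟩ := gallagher_exists hπ hker η.isCharacter h1
      (LiesOver.trans_of_eq ha χ'.isCharacter θ.isCharacter (liesOver_of_not_dvd_ipNat h10) h5)
    obtain rfl := h8 β' ⟨(inv e).1 h9, m e e' ▸ h10⟩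
    exact Subtype.ext e

/-- Two invariant conjugates of a character are conjugate under the relative fixed points. -/
theorem exists_relFixed_conjAut_smul_eq [Finite S] [Group.IsSolvable S] {f : N →* G}
    [IsNormalEmb f] {φ : S →* MulAut G} {ψ : S →* MulAut N} (hc : ∀ s n, f (ψ s n) = φ s (f n))
    (hcop : f.range.index.Coprime (Nat.card S)) {θ : IrrCharacter N} (hθ : ∀ s, ψ s • θ = θ)
    {x : G} (hx : ∀ s, ψ s • conjAut f x • θ = conjAut f x • θ) :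
    ∃ c, (∀ s, c⁻¹ * φ s c ∈ f.range) ∧ conjAut f c • θ = conjAut f x • θ := by
  obtain ⟨Φ, hΦ⟩ := exists_quotAut φ f.range (by rintro s _ ⟨n, rfl⟩; exact ⟨_, hc s n⟩)
  obtain ⟨_, ⟨u, hu, rfl⟩, h⟩ := exists_mul_fixed_of_coprime Φ
    (U := (inertia f θ).map (QuotientGroup.mk' f.range)) (by
      rintro s _ ⟨u, hu, rfl⟩
      exact ⟨_, apply_mem_inertia_of_smul_eq hc hθ s u hu, (hΦ s u).symm⟩)
    (hcop.coprime_dvd_left (Subgroup.card_subgroup_dvd_card _)) (Or.inr inferInstance)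
    (x := (x : G ⧸ f.range)) fun s => ⟨x⁻¹ * φ s x, by
      rw [SetLike.mem_coe, ← conjAut_smul_eq_conjAut_smul_iff, ← hx s, smul_conjAut_smul (hc s),
        hθ], by simp [hΦ]⟩
  refine ⟨x * u, fun s => ?_, by rw [map_mul, mul_smul, mem_inertia.1 hu]⟩
  rw [← QuotientGroup.eq, ← hΦ]
  exact (h s).symm

/-- The relative Glauberman correspondence of Navarro, Tiep and Turull over a normal Hall
subgroup. -/
theorem relGlaub [hp : Fact p.Prime] [Finite S] (hS : IsPGroup p S)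
    {f : N →* G} [hf : IsNormalEmb f] {φ : S →* MulAut G} {ψ : S →* MulAut N}
    (hc : ∀ s n, f (ψ s n) = φ s (f n)) (hN : (Nat.card N).Coprime f.range.index)
    (hp' : ¬ p ∣ f.range.index) {j : H →* G}
    (hj : Function.Injective j) (hH : ∀ g, g ∈ j.range ↔ ∀ s, g⁻¹ * φ s g ∈ f.range)
    {ω : S →* MulAut H} (hω : ∀ s h, j (ω s h) = φ s (j h)) {a : N →* H}
    (ha : ∀ n, j (a n) = f n) :
    (∀ χ : IrrCharacter G, (∀ s, φ s • χ = χ) →
      ∃ ξ : IrrCharacter H, (∀ s, ω s • ξ = ξ) ∧ ((ipNat (χ.1 ∘ j) ξ.1 : ℤ) ≡ 1 [ZMOD p] ∨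
        (ipNat (χ.1 ∘ j) ξ.1 : ℤ) ≡ -1 [ZMOD p]) ∧
        ∀ ξ', (∀ s, ω s • ξ' = ξ') → ¬ p ∣ ipNat (χ.1 ∘ j) ξ'.1 → ξ' = ξ) ∧
    ∀ ξ : IrrCharacter H, (∀ s, ω s • ξ = ξ) →
      ∃! χ : IrrCharacter G, (∀ s, φ s • χ = χ) ∧ ¬ p ∣ ipNat (χ.1 ∘ j) ξ.1 := by
  haveI := IsNormalEmb.of_factor hj ha
  haveI := hS.isNilpotent
  have hc' : ∀ s n, a (ψ s n) = ω s (a n) := fun s n => hj (by rw [ha, hω, ha, hc])
  have hcop : f.range.index.Coprime (Nat.card S) := (IsPGroup.coprime_card_of_not_dvd hS hp').symm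
  have hdvd : a.range.index ∣ f.range.index := by
    rw [show a.range = f.range.comap j from ?_, Subgroup.index_comap]
    · exact Subgroup.relIndex_dvd_index_of_normal _ _
    ext x
    exact ⟨fun ⟨n, hn⟩ => ⟨n, by rw [← hn, ha]⟩, fun ⟨n, hn⟩ => ⟨n, hj (by rw [ha, hn])⟩⟩
  have hcH := hcop.coprime_dvd_left hdvd
  have key : ∀ θ : IrrCharacter N, (∀ s, ψ s • θ = θ) →
      (∀ χ : IrrCharacter G, LiesOver f χ.1 θ.1 → (∀ s, φ s • χ = χ) →
        ∃ ξ : IrrCharacter H, LiesOver a ξ.1 θ.1 ∧ ((ipNat (χ.1 ∘ j) ξ.1 : ℤ) ≡ 1 [ZMOD p] ∨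
        (ipNat (χ.1 ∘ j) ξ.1 : ℤ) ≡ -1 [ZMOD p]) ∧
        ∀ ξ' : IrrCharacter H, LiesOver a ξ'.1 θ.1 → ¬ p ∣ ipNat (χ.1 ∘ j) ξ'.1 → ξ' = ξ) ∧
      ∀ ξ : IrrCharacter H, LiesOver a ξ.1 θ.1 →
        ∃! χ : IrrCharacter G, (∀ s, φ s • χ = χ) ∧ ¬ p ∣ ipNat (χ.1 ∘ j) ξ.1 := fun θ hθ => by
    let T := inertia f θ
    let φT := autRestrict φ T (apply_mem_inertia_of_smul_eq hc hθ)
    let U := T.comap j
    let l : U →* T := (j.comp U.subtype).codRestrict T fun u => u.2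
    let b : N →* U := a.codRestrict U fun n => by
      rw [Subgroup.mem_comap, ha]; exact map_mem_inertia f θ n
    have hb : ∀ n, l (b n) = toInertia f θ n := fun n => Subtype.ext (ha n)
    have hT : inertia f θ ≤ T.subtype.range := T.range_subtype.ge
    have hU : inertia a θ ≤ U.subtype.range := by rw [U.range_subtype, inertia_of_factor ha]
    have e1 : ∀ t : T, t ∈ (toInertia f θ).range ↔ (t : G) ∈ f.range := fun t => by
      rw [range_toInertia, Subgroup.mem_subgroupOf]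
    have hd : (toInertia f θ).range.index ∣ f.range.index := by
      rw [range_toInertia]; exact Subgroup.relIndex_dvd_index_of_normal _ _
    obtain ⟨k1, k2⟩ := relGlaub_of_inertia_eq_top hS (f := toInertia f θ) (φ := φT)
      (fun s n => Subtype.ext (hc s n)) (hN.coprime_dvd_right hd) (fun h => hp' (h.trans hd))
      (j := l) (fun x y e => Subtype.ext (hj (congrArg Subtype.val e))) (fun t => by
        simp only [e1]
        refine Iff.trans ⟨?_, ?_⟩ (hH t)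
        · rintro ⟨u, rfl⟩; exact ⟨u, rfl⟩
        · rintro ⟨h, e⟩; exact ⟨⟨h, (e ▸ t.2 : j h ∈ T)⟩, Subtype.ext e⟩) hb
      (inertia_toInertia f θ) hθ
    have m : ∀ {η : IrrCharacter T} {ζ : IrrCharacter U} {χ : IrrCharacter G} {ξ : IrrCharacter H},
        LiesOver (toInertia f θ) η.1 θ.1 → LiesOver b ζ.1 θ.1 → ind T.subtype η.1 = χ.1 →
        ind U.subtype ζ.1 = ξ.1 → ipNat (χ.1 ∘ j) ξ.1 = ipNat (η.1 ∘ l) ζ.1 :=
      fun h1 h2 h3 h4 => by
        rw [← h3, ← h4, ipNat_comp_eq_of_clifford T.subtype_injective (fun _ => rfl) hT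
          (j := j) (k := U.subtype) (fun _ => rfl) hb h1 h2]
    have inv : ∀ {η : IrrCharacter T} {χ : IrrCharacter G}, LiesOver (toInertia f θ) η.1 θ.1 →
        ind T.subtype η.1 = χ.1 → ((∀ s, φ s • χ = χ) ↔ ∀ s, φT s • η = η) := fun h1 h2 =>
      forall_congr' fun s => smul_eq_iff_of_ind_eq T.subtype_injective (fun _ => rfl) hT
        (fun _ => rfl) (fun n => Subtype.ext (hc s n)) (hθ s) h1 h2
    refine ⟨fun χ h1 h2 => ?_, fun ξ h1 => ?_⟩
    · obtain ⟨η, h3, h5⟩ := clifford_exists T.subtype_injective (j := toInertia f θ)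
        (fun _ => rfl) hT h1
      obtain ⟨ζ, h6, h7⟩ := k1 η h3 ((inv h3 h5).1 h2)
      obtain ⟨θ', h8⟩ := ζ.exists_liesOver_below b
      obtain rfl : θ' = θ := LiesOver.eq_of_comp_eq_smul
        (h3.comp_eq_smul_of_inertia_eq_top (inertia_toInertia f θ))
        (LiesOver.trans_of_eq hb η.isCharacter θ'.isCharacter
          (liesOver_of_not_dvd_ipNat (not_dvd_of_modEq_one_or hp.out h6)) h8)
      refine ⟨⟨_, clifford_isIrr_ind U.subtype_injective (fun _ => rfl) hU h8⟩,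
        liesOver_ind_of_liesOver U.subtype_injective (fun _ => rfl) θ'.isCharacter
          ζ.isCharacter h8, by rwa [m h3 h8 h5 rfl], fun ξ' h9 h10 => ?_⟩
      obtain ⟨ζ', h11, h12⟩ := clifford_exists U.subtype_injective (j := b) (fun _ => rfl) hU h9
      obtain rfl := h7 ζ' (m h3 h11 h5 h12 ▸ h10)
      exact Subtype.ext h12.symm
    · obtain ⟨ζ, h2, h3⟩ := clifford_exists U.subtype_injective (j := b) (fun _ => rfl) hU h1
      obtain ⟨η, ⟨h5, h6⟩, h7⟩ := k2 ζ h2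
      have h8 := LiesOver.trans_of_eq hb η.isCharacter θ.isCharacter
        (liesOver_of_not_dvd_ipNat h6) h2
      refine ⟨⟨_, clifford_isIrr_ind T.subtype_injective (fun _ => rfl) hT h8⟩,
        ⟨(inv h8 rfl).2 h5, by rwa [m h8 h2 rfl h3]⟩, fun χ' ⟨h9, h10⟩ => ?_⟩
      obtain ⟨η', h11, h12⟩ := clifford_exists T.subtype_injective (j := toInertia f θ)
        (fun _ => rfl) hT (LiesOver.trans_of_eq ha χ'.isCharacter θ.isCharacter
          (liesOver_of_not_dvd_ipNat h10) h1)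
      obtain rfl := h7 η' ⟨(inv h11 h12).1 h9, m h11 h2 h12 h3 ▸ h10⟩
      exact Subtype.ext h12.symm
  refine ⟨fun χ hχ => ?_, fun ξ hξ => ?_⟩
  · obtain ⟨θ, h1, h2⟩ := exists_invariant_liesOver_below hc hcop (Or.inl inferInstance) hχ
    obtain ⟨ξ, h3, h5, h6⟩ := (key θ h2).1 χ h1 hχ
    refine ⟨ξ, h3.smul_eq_of_inv_mul_mem hc' hcH (fun s h => ?_) h2, h5, fun ξ' h7 h8 => ?_⟩
    · obtain ⟨n, hn⟩ := (hH _).1 ⟨h, rfl⟩ s
      exact ⟨n, hj (by rw [ha, hn, map_mul, map_inv, hω])⟩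
    obtain ⟨θ', h9, h10⟩ := exists_invariant_liesOver_below hc' hcH (Or.inl inferInstance) h7
    obtain ⟨x, rfl⟩ := h1.exists_conjAut_smul_eq (θ' := θ')
      (LiesOver.trans_of_eq ha χ.isCharacter θ'.isCharacter (liesOver_of_not_dvd_ipNat h8) h9)
    obtain ⟨c, h11, h12⟩ := exists_relFixed_conjAut_smul_eq hc hcop h2 h10
    obtain ⟨h, rfl⟩ := (hH c).2 h11
    rw [← h12, ← conjAut_of_factor ha, liesOver_conjAut_smul_iff ξ'.isClassFunction] at h9
    exact h6 ξ' h9 h8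
  · obtain ⟨θ, h1, h2⟩ := exists_invariant_liesOver_below hc' hcH (Or.inl inferInstance) hξ
    exact (key θ h2).2 ξ h1

end Cfsg
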